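import Mathlib
import Cfsg.Agent.Lib.Helper49.WittOmega

set_option autoImplicit false

namespace Cfsg.Agent.Lib.Helper74.AutO

open QuadraticMap Module Cfsg.Agent.Lib.Helper49

section

variable {F W : Type*} [Field F] [Fintype F] [AddCommGroup W] [Module F W]
  [FiniteDimensional F W] (q : QuadraticForm F W)

/-- a hyperbolic pair in a nondegenerate space of dimension at least three -/
theorem exists_hyp_pair (hq : (polarBilin q).Nondegenerate) (hd : 3 ≤ finrank F W) :
    ∃ u u' : W, q u = 0 ∧ q u' = 0 ∧ polar q u u' = 1 := by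
  obtain ⟨e, -, f, -, h1, h2, h3⟩ := exists_hyp_pair_mem q hq ⊤ (by rw [finrank_top]; omega)
  exact ⟨e, f, h1, h2, h3⟩

/-- an additive subgroup containing all singular vectors is everything -/
theorem mem_of_singular_mem (hq : (polarBilin q).Nondegenerate) (hd : 3 ≤ finrank F W)
    (S : AddSubgroup W) (hS : ∀ w, q w = 0 → w ∈ S) (w : W) : w ∈ S := by
  obtain ⟨u, u', hu, hu', huu⟩ := exists_hyp_pair q hq hd
  have haa : polar q u u = 0 := by rw [polar_self, hu]; simp
  have hbb : polar q u' u' = 0 := by rw [polar_self, hu']; simp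
  set z := w - polar q u' w • u - polar q u w • u' with hz
  have hzp := (mem_perp2 q).1 (sub_mem_perp2 q haa hbb huu w)
  rw [← hz] at hzp
  have h1 : q (z - q z • u + u') = 0 := by
    rw [Q_add_eq, Q_sub_smul, hu, hu', polar_sub_left, polar_smul_left, huu, hzp.1,
      polar_comm q z u', hzp.2]
    simp
  have h2 : ∀ c : F, q (c • u) = 0 := fun c => by rw [QuadraticMap.map_smul, hu, smul_zero]
  have h3 : ∀ c : F, q (c • u') = 0 := fun c => by rw [QuadraticMap.map_smul, hu', smul_zero]
  have h4 : w = (z - q z • u + u') + (q z + polar q u' w) • u + (polar q u w - 1) • u' := by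
    rw [hz]
    module
  rw [h4]
  exact S.add_mem (S.add_mem (hS _ h1) (hS _ (h2 _))) (hS _ (h3 _))

variable {q}

/-- orthogonal step -/
theorem semi_step_orth (φ : W ≃+ W) (h1 : ∀ w, q w = 0 ↔ q (φ w) = 0)
    (h2 : ∀ w, q w = 0 → ∀ c : F, ∃ c' : F, φ (c • w) = c' • φ w)
    (h2' : ∀ w, q w = 0 → ∀ c : F, ∃ c' : F, φ.symm (c • w) = c' • φ.symm w)
    (s : F → F) {u v : W} (hu : q u = 0) (hv : q v = 0) (huv : polar q u v = 0) (hu0 : u ≠ 0)
    (hind : ∀ c : F, v ≠ c • u) (hP : ∀ c : F, φ (c • u) = s c • φ u) (c : F) :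
    φ (c • v) = s c • φ v := by
  have huv' : q (u + v) = 0 := by rw [Q_add_eq, hu, hv, huv]; simp
  obtain ⟨c1, hc1⟩ := h2 v hv c
  obtain ⟨c2, hc2⟩ := h2 (u + v) huv' c
  rw [smul_add, map_add, map_add, hP, hc1, smul_add] at hc2
  have hφu : φ u ≠ 0 := by
    intro h
    apply hu0
    have := congrArg φ.symm h
    simpa using this
  -- independence
  have key : ∀ a b : F, a • φ u + b • φ v = 0 → a = 0 ∧ b = 0 := by
    intro a b hab
    have hb : b = 0 := by
      by_contra hb
      have h3 : φ v = (-(b⁻¹ * a)) • φ u := by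
        have h4 : b • φ v = -(a • φ u) := by
          rw [eq_neg_iff_add_eq_zero, add_comm]; exact hab
        have h5 : φ v = b⁻¹ • (b • φ v) := by rw [smul_smul, inv_mul_cancel₀ hb, one_smul]
        rw [h5, h4, smul_neg, smul_smul, neg_smul]
      obtain ⟨k, hk⟩ := h2' (φ u) ((h1 u).1 hu) (-(b⁻¹ * a))
      rw [← h3] at hk
      simp only [AddEquiv.symm_apply_apply] at hk
      exact hind k hk
    subst hb
    rw [zero_smul, add_zero] at hab
    exact ⟨(smul_eq_zero.1 hab).resolve_right hφu, rfl⟩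
  have h5 : (s c - c2) • φ u + (c1 - c2) • φ v = 0 := by
    rw [sub_smul, sub_smul]
    have : s c • φ u + c1 • φ v - (c2 • φ u + c2 • φ v) = 0 := by rw [hc2, sub_self]
    rw [← this]; abel
  obtain ⟨h6, h7⟩ := key _ _ h5
  rw [hc1]
  congr 1
  rw [sub_eq_zero] at h6 h7
  rw [h7, h6]

/-- non-orthogonal step -/
theorem semi_step_nonorth (hq : (polarBilin q).Nondegenerate) (hd : 5 ≤ finrank F W)
    (φ : W ≃+ W) (h1 : ∀ w, q w = 0 ↔ q (φ w) = 0)
    (h2 : ∀ w, q w = 0 → ∀ c : F, ∃ c' : F, φ (c • w) = c' • φ w)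
    (h2' : ∀ w, q w = 0 → ∀ c : F, ∃ c' : F, φ.symm (c • w) = c' • φ.symm w)
    (s : F → F) {u v : W} (hu : q u = 0) (hv : q v = 0) (huv : polar q u v ≠ 0)
    (hP : ∀ c : F, φ (c • u) = s c • φ u) (c : F) :
    φ (c • v) = s c • φ v := by
  have hu0 : u ≠ 0 := by
    rintro rfl
    apply huv
    simp [polar]
  -- normalise
  set v' := (polar q u v)⁻¹ • v with hv'
  have huv' : polar q u v' = 1 := by
    rw [hv', polar_smul_right, smul_eq_mul, inv_mul_cancel₀ huv]
  have haa : polar q u u = 0 := by rw [polar_self, hu]; simp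
  have hfin := finrank_perp2 q haa huv'
  have hqc : 1 < Fintype.card F := Fintype.one_lt_card
  have hc : Fintype.card F ^ 2 < Nat.card ↥(perp2 q u v') := by
    rw [Module.natCard_eq_pow_finrank (K := F), Nat.card_eq_fintype_card]
    exact Nat.pow_lt_pow_right hqc (by omega)
  obtain ⟨y, hy, hy0, hqy⟩ := Cfsg.Agent.Lib.Helper50.Quad.exists_singular (Q := q) _ hc
  obtain ⟨hy1, hy2⟩ := (mem_perp2 q).1 hy
  have hy3 : polar q v y = 0 := by
    rw [hv', polar_smul_left, smul_eq_mul] at hy2
    exact (mul_eq_zero.1 hy2).resolve_left (inv_ne_zero huv)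
  have hPy : ∀ c : F, φ (c • y) = s c • φ y := by
    apply semi_step_orth φ h1 h2 h2' s hu hqy hy1 hu0 _ hP
    intro k hk
    rw [hk, polar_smul_right, polar_comm, smul_eq_mul] at hy3
    rcases mul_eq_zero.1 hy3 with h | h
    · apply hy0; rw [hk, h, zero_smul]
    · exact huv h
  apply semi_step_orth φ h1 h2 h2' s hqy hv (by rw [polar_comm]; exact hy3) hy0 _ hPy
  intro k hk
  apply huv
  rw [hk, polar_smul_right, hy1, smul_zero]

/-- all singular vectors carry the same scalar map -/
theorem semi_step (hq : (polarBilin q).Nondegenerate) (hd : 5 ≤ finrank F W)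
    (φ : W ≃+ W) (h1 : ∀ w, q w = 0 ↔ q (φ w) = 0)
    (h2 : ∀ w, q w = 0 → ∀ c : F, ∃ c' : F, φ (c • w) = c' • φ w)
    (h2' : ∀ w, q w = 0 → ∀ c : F, ∃ c' : F, φ.symm (c • w) = c' • φ.symm w)
    (s : F → F) {u v : W} (hu : q u = 0) (hu0 : u ≠ 0) (hv : q v = 0)
    (hP : ∀ c : F, φ (c • u) = s c • φ u) (c : F) :
    φ (c • v) = s c • φ v := by
  by_cases hv0 : v = 0
  · subst hv0; simp
  by_cases huv : polar q u v = 0
  · by_cases hind : ∀ k : F, v ≠ k • u
    · exact semi_step_orth φ h1 h2 h2' s hu hv huv hu0 hind hP c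
    · push Not at hind
      obtain ⟨k, hk⟩ := hind
      have hk0 : k ≠ 0 := by
        rintro rfl
        apply hv0; rw [hk, zero_smul]
      obtain ⟨f₀, hf₀⟩ := exists_polar_eq_one q hq hu0
      obtain ⟨f, -, hqf, hf⟩ := exists_hyp_partner q ⊤ (e := u) (f₀ := f₀) trivial trivial hu
        (by rw [hf₀]; exact one_ne_zero)
      have hPf := semi_step_nonorth hq hd φ h1 h2 h2' s hu hqf (by rw [hf]; exact one_ne_zero) hP
      apply semi_step_nonorth hq hd φ h1 h2 h2' s hqf hv _ hPf
      rw [hk, polar_smul_right, polar_comm, hf, smul_eq_mul, mul_one]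
      exact hk0
  · exact semi_step_nonorth hq hd φ h1 h2 h2' s hu hv huv hP c

/-- RUNG SEMI-A -/
theorem semilinear_of_singular (q : QuadraticForm F W) (hq : (polarBilin q).Nondegenerate)
    (hd : 5 ≤ finrank F W) (φ : W ≃+ W) (h1 : ∀ w, q w = 0 ↔ q (φ w) = 0)
    (h2 : ∀ w, q w = 0 → ∀ c : F, ∃ c' : F, φ (c • w) = c' • φ w)
    (h2' : ∀ w, q w = 0 → ∀ c : F, ∃ c' : F, φ.symm (c • w) = c' • φ.symm w) :
    ∃ σ : F ≃+* F, ∀ (a : F) (w : W), φ (a • w) = σ a • φ w := by
  obtain ⟨u, u', hu, hu', huu⟩ := exists_hyp_pair q hq (by omega)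
  have hu0 : u ≠ 0 := by
    rintro rfl
    simp [polar] at huu
  have hφu : φ u ≠ 0 := by
    intro h
    apply hu0
    have := congrArg φ.symm h
    simpa using this
  choose s hs using h2 u hu
  -- all vectors
  have hall : ∀ (w : W) (c : F), φ (c • w) = s c • φ w := by
    intro w
    let S : AddSubgroup W :=
      { carrier := {w | ∀ c : F, φ (c • w) = s c • φ w}
        zero_mem' := by intro c; simp
        add_mem' := by
          intro a b ha hb c
          rw [smul_add, map_add, map_add, ha, hb, smul_add]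
        neg_mem' := by
          intro a ha c
          rw [smul_neg, map_neg, map_neg, ha, smul_neg] }
    have : w ∈ S := mem_of_singular_mem q hq (by omega) S
      (fun v hv c => semi_step hq hd φ h1 h2 h2' s hu hu0 hv hs c) w
    exact this
  have hinj : ∀ a b : F, a • φ u = b • φ u → a = b := by
    intro a b hab
    rw [← sub_eq_zero, ← sub_smul] at hab
    exact sub_eq_zero.1 ((smul_eq_zero.1 hab).resolve_right hφu)
  have hone : s 1 = 1 := by
    apply hinj
    rw [← hs, one_smul, one_smul]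
  have hmul : ∀ a b, s (a * b) = s a * s b := by
    intro a b
    apply hinj
    rw [← hs, mul_smul, hall, hs, smul_smul]
  have hadd : ∀ a b, s (a + b) = s a + s b := by
    intro a b
    apply hinj
    rw [← hs, add_smul, map_add, hs, hs, add_smul]
  have hzero : s 0 = 0 := by
    apply hinj
    rw [← hs, zero_smul, zero_smul, map_zero]
  let σ₀ : F →+* F :=
    { toFun := s
      map_one' := hone
      map_mul' := hmul
      map_zero' := hzero
      map_add' := hadd }
  have hbij : Function.Bijective σ₀ :=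
    (Finite.injective_iff_bijective).1 σ₀.injective
  exact ⟨RingEquiv.ofBijective σ₀ hbij, fun a w => hall w a⟩

end

end Cfsg.Agent.Lib.Helper74.AutO
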