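import Mathlib
import Cfsg.Agent.Lib.Helper49.GamO2

set_option autoImplicit false

/-!
Transport of `PΩ(Q)` to `PΩ(Q')` along a similarity `B : Q → Q'`, compatible with the actions of
the semisimilarity groups.
-/

namespace Cfsg.Agent.Lib.Helper74.OPsi

open Matrix Cfsg.Agent.Lib.Helper49
open scoped MatrixGroups

section functor

variable {G H : Type*} [Group G] [Group H]

theorem map_center_equiv (e : G ≃* H) :
    (Subgroup.center G).map (e : G →* H) = Subgroup.center H := by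
  ext y
  constructor
  · rintro ⟨x, hx, rfl⟩
    rw [SetLike.mem_coe, Subgroup.mem_center_iff] at hx
    rw [Subgroup.mem_center_iff]
    intro b
    obtain ⟨a, rfl⟩ := e.surjective b
    show e a * e x = e x * e a
    rw [← map_mul, ← map_mul, hx a]
  · intro hy
    refine ⟨e.symm y, ?_, e.apply_symm_apply y⟩
    rw [Subgroup.mem_center_iff] at hy
    rw [SetLike.mem_coe, Subgroup.mem_center_iff]
    intro a
    apply e.injective
    rw [map_mul, map_mul, e.apply_symm_apply]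
    exact hy (e a)

theorem map_commutator_equiv (e : G ≃* H) :
    (commutator G).map (e : G →* H) = commutator H := by
  rw [commutator_def, Subgroup.map_commutator, commutator_def,
    Subgroup.map_top_of_surjective _ e.surjective]

/-- restriction of an isomorphism to the commutator subgroups -/
noncomputable def resE (e : G ≃* H) : ↥(commutator G) ≃* ↥(commutator H) :=
  (e.subgroupMap (commutator G)).trans (MulEquiv.subgroupCongr (map_commutator_equiv e))

theorem resE_coe (e : G ≃* H) (x : ↥(commutator G)) : ((resE e x : ↥(commutator H)) : H) = e x.1 :=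
  rfl

/-- the isomorphism induced on `G'/Z(G')` -/
noncomputable def pc (e : G ≃* H) :
    (↥(commutator G) ⧸ Subgroup.center ↥(commutator G)) ≃*
      (↥(commutator H) ⧸ Subgroup.center ↥(commutator H)) :=
  QuotientGroup.congr _ _ (resE e) (map_center_equiv (resE e))

theorem pc_mk (e : G ≃* H) (x : ↥(commutator G)) :
    pc e (QuotientGroup.mk x) = QuotientGroup.mk (resE e x) := rfl

end functor

variable {ι : Type} [Fintype ι] [DecidableEq ι] {F : Type*} [Field F]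

theorem mem_iso {Q : (ι → F) → F} {g : GL ι F} :
    g ∈ Cfsg.isometryGroup F Q ↔ ∀ v, Q ((g : Matrix ι ι F) *ᵥ v) = Q v :=
  ⟨fun h v => h v v, fun h u _ => h u⟩

theorem conj_mem (Q Q' : (ι → F) → F) (B : GL ι F) (e : Fˣ)
    (hB : ∀ v, Q' ((B : Matrix ι ι F) *ᵥ v) = (e : F) * Q v) {s : GL ι F}
    (hs : s ∈ Cfsg.isometryGroup F Q) : B * s * B⁻¹ ∈ Cfsg.isometryGroup F Q' := by
  rw [mem_iso] at hs ⊢
  intro w
  have h1 : ((B * s * B⁻¹ : GL ι F) : Matrix ι ι F) *ᵥ w =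
      (B : Matrix ι ι F) *ᵥ ((s : Matrix ι ι F) *ᵥ (((B⁻¹ : GL ι F) : Matrix ι ι F) *ᵥ w)) := by
    rw [Units.val_mul, Units.val_mul, Matrix.mulVec_mulVec, Matrix.mulVec_mulVec]
  have h2 : w = (B : Matrix ι ι F) *ᵥ (((B⁻¹ : GL ι F) : Matrix ι ι F) *ᵥ w) := by
    rw [Matrix.mulVec_mulVec, ← Units.val_mul, mul_inv_cancel]
    simp
  rw [h1, hB, hs]
  conv_rhs => rw [h2, hB]

theorem conj_mem' (Q Q' : (ι → F) → F) (B : GL ι F) (e : Fˣ)
    (hB : ∀ v, Q' ((B : Matrix ι ι F) *ᵥ v) = (e : F) * Q v) {s : GL ι F}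
    (hs : s ∈ Cfsg.isometryGroup F Q') : B⁻¹ * s * B ∈ Cfsg.isometryGroup F Q := by
  rw [mem_iso] at hs ⊢
  intro v
  apply mul_left_cancel₀ e.ne_zero
  rw [← hB, ← hB]
  have h1 : (B : Matrix ι ι F) *ᵥ (((B⁻¹ * s * B : GL ι F) : Matrix ι ι F) *ᵥ v) =
      (s : Matrix ι ι F) *ᵥ ((B : Matrix ι ι F) *ᵥ v) := by
    rw [Matrix.mulVec_mulVec, Matrix.mulVec_mulVec, ← Units.val_mul, ← Units.val_mul]
    congr 2
    group
  rw [h1, hs]

/-- conjugation by `B` as an isomorphism of isometry groups -/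
def isoE (Q Q' : (ι → F) → F) (B : GL ι F) (e : Fˣ)
    (hB : ∀ v, Q' ((B : Matrix ι ι F) *ᵥ v) = (e : F) * Q v) :
    ↥(Cfsg.isometryGroup F Q) ≃* ↥(Cfsg.isometryGroup F Q') where
  toFun s := ⟨B * s.1 * B⁻¹, conj_mem Q Q' B e hB s.2⟩
  invFun s := ⟨B⁻¹ * s.1 * B, conj_mem' Q Q' B e hB s.2⟩
  left_inv s := Subtype.ext (by
    show B⁻¹ * (B * s.1 * B⁻¹) * B = s.1
    group)
  right_inv s := Subtype.ext (by
    show B * (B⁻¹ * s.1 * B) * B⁻¹ = s.1
    group)
  map_mul' a b := Subtype.ext (by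
    show B * (a.1 * b.1) * B⁻¹ = (B * a.1 * B⁻¹) * (B * b.1 * B⁻¹)
    group)

theorem actGL_inl (B s : GL ι F) :
    actGL (SemidirectProduct.inl B : GamL ι F) s = B * s * B⁻¹ := by
  rw [actGL_apply]
  simp

theorem exists_psi0 {ι : Type} [Fintype ι] [DecidableEq ι] {F : Type*} [Field F]
    (Q Q' : (ι → F) → F) (B : GL ι F) (e : Fˣ)
    (hB : ∀ v, Q' ((B : Matrix ι ι F) *ᵥ v) = (e : F) * Q v) :
    ∃ ψ₀ : Cfsg.POmega F Q ≃* Cfsg.POmega F Q',
      ∀ (γ : ↥(GamO Q)) (γ' : ↥(GamO Q')),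
        γ'.1 = SemidirectProduct.inl B * γ.1 * (SemidirectProduct.inl B)⁻¹ →
        ∀ t, ψ₀ (cGam Q γ t) = cGam Q' γ' (ψ₀ t) := by
  refine ⟨pc (isoE Q Q' B e hB), ?_⟩
  intro γ γ' h t
  induction t using QuotientGroup.induction_on with
  | H s =>
    rw [cGam_mk, pc_mk, pc_mk, cGam_mk]
    congr 1
    apply Subtype.ext
    apply Subtype.ext
    rw [charRestrict_apply_coe, actO_apply_coe, resE_coe, resE_coe]
    show B * (actGL γ.1 s.1.1) * B⁻¹ = actGL γ'.1 (B * s.1.1 * B⁻¹)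
    rw [← actGL_inl, ← actGL_inl, ← MulAut.mul_apply, ← MulAut.mul_apply, ← map_mul, ← map_mul, h]
    congr 2
    group

end Cfsg.Agent.Lib.Helper74.OPsi
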