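import Mathlib
import Cfsg.Agent.Lib.Helper74.AutOSemiA

set_option autoImplicit false

namespace Cfsg.Agent.Lib.Helper74.AutO

open QuadraticMap Module Cfsg.Agent.Lib.Helper49

section

variable {F W : Type*} [Field F] [Fintype F] [AddCommGroup W] [Module F W]
  [FiniteDimensional F W]

/-- RUNG SEMI-B -/
theorem semisimilar_of_singular (q : QuadraticForm F W) (hq : (polarBilin q).Nondegenerate)
    (hd : 5 ≤ finrank F W) (φ : W ≃+ W) (σ : F ≃+* F)
    (hs : ∀ (a : F) (w : W), φ (a • w) = σ a • φ w) (h1 : ∀ w, q w = 0 ↔ q (φ w) = 0) :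
    ∃ c : F, c ≠ 0 ∧ ∀ w, q (φ w) = c * σ (q w) := by
  obtain ⟨u, u', hu, hu', huu⟩ := exists_hyp_pair q hq (by omega)
  have haa : polar q u u = 0 := by rw [polar_self, hu]; simp
  have hbb : polar q u' u' = 0 := by rw [polar_self, hu']; simp
  have hNu : q (φ u) = 0 := (h1 u).1 hu
  have hNu' : q (φ u') = 0 := (h1 u').1 hu'
  set c := polar q (φ u) (φ u') with hc
  -- step 1 : singular vectors orthogonal to a singular vector
  have step1 : ∀ e s : W, q e = 0 → q s = 0 → polar q e s = 0 → polar q (φ e) (φ s) = 0 := by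
    intro e s he hs' hes
    have h3 : q (e + s) = 0 := by rw [Q_add_eq, he, hs', hes]; simp
    have h4 := (h1 _).1 h3
    rw [map_add, Q_add_eq, (h1 e).1 he, (h1 s).1 hs'] at h4
    simpa using h4
  -- step 2 : everything in the orthogonal complement of the pair
  have hHnd := resQ_perp2_nondegenerate q hq haa hbb huu
  have hHfin := finrank_perp2 q haa huu
  have step2 : ∀ e : W, q e = 0 → (∀ z ∈ perp2 q u u', polar q e z = 0) →
      ∀ z ∈ perp2 q u u', polar q (φ e) (φ z) = 0 := by
    intro e he hez z hz
    let S : AddSubgroup ↥(perp2 q u u') :=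
      { carrier := {z | polar q (φ e) (φ z.1) = 0}
        zero_mem' := by simp [polar]
        add_mem' := by
          intro a b ha hb
          change polar q (φ e) (φ (a.1 + b.1)) = 0
          rw [map_add, polar_add_right, ha, hb, add_zero]
        neg_mem' := by
          intro a ha
          change polar q (φ e) (φ (-a.1)) = 0
          rw [map_neg, polar_neg_right, ha, neg_zero] }
    have : (⟨z, hz⟩ : ↥(perp2 q u u')) ∈ S := by
      apply mem_of_singular_mem (resQ q (perp2 q u u')) hHnd (by omega) S
      intro w hw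
      exact step1 e w.1 he hw (hez w.1 w.2)
    exact this
  have hBu : ∀ z ∈ perp2 q u u', polar q (φ u) (φ z) = 0 :=
    step2 u hu (fun z hz => ((mem_perp2 q).1 hz).1)
  have hBu' : ∀ z ∈ perp2 q u u', polar q (φ u') (φ z) = 0 :=
    step2 u' hu' (fun z hz => ((mem_perp2 q).1 hz).2)
  -- the plane
  have hplane : ∀ a b : F, q (φ (a • u + b • u')) = c * σ (a * b) := by
    intro a b
    rw [map_add, hs, hs, Q_add_eq, QuadraticMap.map_smul, QuadraticMap.map_smul, hNu, hNu',
      polar_smul_left, polar_smul_right, ← hc, map_mul]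
    simp only [smul_eq_mul]
    ring
  have hplaneB : ∀ (a b : F), ∀ z ∈ perp2 q u u', polar q (φ (a • u + b • u')) (φ z) = 0 := by
    intro a b z hz
    rw [map_add, hs, hs, polar_add_left, polar_smul_left, polar_smul_left, hBu z hz, hBu' z hz]
    simp
  -- step 3
  have step3 : ∀ z ∈ perp2 q u u', q (φ z) = c * σ (q z) := by
    intro z hz
    obtain ⟨hz1, hz2⟩ := (mem_perp2 q).1 hz
    have h3 : q ((-q z) • u + (1 : F) • u' + z) = 0 := by
      rw [Q_add_eq, Q_add_eq, QuadraticMap.map_smul, QuadraticMap.map_smul, hu, hu',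
        polar_smul_left, polar_smul_right, huu, polar_add_left, polar_smul_left, polar_smul_left,
        hz1, hz2]
      simp
    have h4 := (h1 _).1 h3
    rw [map_add, Q_add_eq, hplane, hplaneB _ _ z hz, mul_one, map_neg] at h4
    linear_combination h4
  refine ⟨c, ?_, ?_⟩
  · intro hc0
    have h3 := hplane 1 1
    rw [hc0, zero_mul] at h3
    have h4 := (h1 _).2 h3
    rw [Q_add_eq, QuadraticMap.map_smul, QuadraticMap.map_smul, hu, hu', polar_smul_left,
      polar_smul_right, huu] at h4
    simp at h4
  · intro w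
    set z := w - polar q u' w • u - polar q u w • u' with hz
    have hzp := sub_mem_perp2 q haa hbb huu w
    rw [← hz] at hzp
    obtain ⟨hz1, hz2⟩ := (mem_perp2 q).1 hzp
    have hw : w = polar q u' w • u + polar q u w • u' + z := by
      rw [hz]; abel
    have hqw : q w = polar q u' w * polar q u w + q z := by
      conv_lhs => rw [hw]
      rw [Q_add_eq, Q_add_eq, QuadraticMap.map_smul, QuadraticMap.map_smul, hu, hu',
        polar_smul_left, polar_smul_right, huu, polar_add_left, polar_smul_left, polar_smul_left,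
        hz1, hz2]
      simp
    conv_lhs => rw [hw]
    rw [map_add, Q_add_eq, hplane, hplaneB _ _ z hzp, step3 z hzp, hqw, map_add]
    ring

end

end Cfsg.Agent.Lib.Helper74.AutO
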