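import Cfsg.Agent.Lib.Helper95.AutO.Perm
import Cfsg.Agent.Lib.Helper74.AutOSemiB
import Cfsg.Agent.Lib.Helper49.Perp2

set_option autoImplicit false

namespace Cfsg.Agent.Lib.Helper74.AutO

open QuadraticMap Module Cfsg.Agent.Lib.Helper49 Cfsg.Agent.Lib.Helper95 Cfsg.Agent.Lib.Helper95.AutO

variable {F V : Type*} [Field F] [Fintype F] [AddCommGroup V] [Module F V] [FiniteDimensional F V]
  {Q : QuadraticForm F V}

/-- RUNG F7 -/
theorem exists_conj_lagr (hQ : (polarBilin Q).Nondegenerate) (hd : 10 ≤ finrank F V)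
    (W : Submodule F V) (hW : ∀ x ∈ W, Q x = 0) (hWd : 2 * finrank F W = finrank F V) :
    ∃ g : ↥(Om Q), g.1 ∉ stabSub Q W ∧
      Fintype.card F <
        Nat.card ↥(img Q (QW Q W) ⊓ img Q (QW Q (W.map (g.1.1 : V →ₗ[F] V)))) := by
  have hd7 : 7 ≤ finrank F V := by omega
  have hpol : ∀ x ∈ W, ∀ y ∈ W, polar Q x y = 0 := by
    intro x hx y hy
    rw [polar, hW _ (W.add_mem hx hy), hW x hx, hW y hy]; simp
  have hWpos : 5 ≤ finrank F W := by omega
  obtain ⟨u, hu, hu0⟩ : ∃ u ∈ W, u ≠ 0 := (Submodule.ne_bot_iff W).1 (by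
    intro h
    rw [h, finrank_bot] at hWpos
    omega)
  have hQu := hW u hu
  obtain ⟨f₀, hf₀⟩ := exists_polar_eq_one Q hQ hu0
  obtain ⟨f, -, hQf, huf⟩ := exists_hyp_partner Q ⊤ (e := u) (f₀ := f₀) trivial trivial hQu
    (by rw [hf₀]; exact one_ne_zero)
  have huu : polar Q u u = 0 := by rw [polar_self, hQu]; simp
  have hff : polar Q f f = 0 := by rw [polar_self, hQf]; simp
  have hnd := resQ_perp2_nondegenerate Q hQ huu hff huf
  have hfin := finrank_perp2 Q huu huf
  obtain ⟨y, hy, hQy, hyW⟩ : ∃ y ∈ perp2 Q u f, Q y = 0 ∧ y ∉ W := by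
    by_contra hcon
    push Not at hcon
    have hall : ∀ z : ↥(perp2 Q u f), (z : V) ∈ W := by
      intro z
      let S : AddSubgroup ↥(perp2 Q u f) := (W.comap (perp2 Q u f).subtype).toAddSubgroup
      exact mem_of_singular_mem (resQ Q (perp2 Q u f)) hnd (by omega) S
        (fun w hw => hcon w.1 w.2 hw) z
    have hle : perp2 Q u f ≤ W := fun z hz => hall ⟨z, hz⟩
    have := Submodule.finrank_mono hle
    omega
  obtain ⟨hy1, hy2⟩ := (mem_perp2 Q).1 hy
  let g : ↥(Om Q) := ⟨si Q f y, si_mem_commutator hQ (by omega) f y⟩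
  have hg : ∀ x, g.1.1 x = x + polar Q f x • y - polar Q y x • f - (Q y * polar Q f x) • f :=
    fun x => si_apply hQf hy2 x
  have hfix : ∀ x, polar Q f x = 0 → polar Q y x = 0 → g.1.1 x = x := by
    intro x h1 h2
    rw [hg, h1, h2]; simp
  refine ⟨g, ?_, ?_⟩
  · intro hst
    have h1 := stabSub_apply_mem hst hu
    rw [hg, polar_comm Q f u, huf, polar_comm Q y u, hy1, hQy] at h1
    simp only [one_smul, zero_smul, sub_zero, zero_mul] at h1
    exact hyW ((W.add_mem_iff_right hu).1 h1)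
  · -- three independent vectors fixed by `g`
    set T : Submodule F V := W ⊓ LinearMap.ker (polarBilin Q f) ⊓ LinearMap.ker (polarBilin Q y)
      with hT
    have h1 := finrank_le_inf_ker_add_one W (polarBilin Q f)
    have h2 := finrank_le_inf_ker_add_one (W ⊓ LinearMap.ker (polarBilin Q f)) (polarBilin Q y)
    have hT3 : 3 ≤ finrank F T := by rw [hT]; omega
    obtain ⟨v, hv⟩ := exists_linearIndependent_of_le_finrank hT3
    have hv' : LinearIndependent F (fun i => (v i : V)) :=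
      hv.map' T.subtype (Submodule.ker_subtype T)
    have hvT : ∀ i, (v i : V) ∈ W ∧ polar Q f (v i) = 0 ∧ polar Q y (v i) = 0 := by
      intro i
      have := (v i).2
      simp only [hT, Submodule.mem_inf, LinearMap.mem_ker, polarBilin_apply_apply] at this
      exact ⟨this.1.1, this.1.2, this.2⟩
    have hvfix : ∀ i, g.1.1 (v i) = v i := fun i => hfix _ (hvT i).2.1 (hvT i).2.2
    set W' := W.map (g.1.1 : V →ₗ[F] V) with hW'
    have hW's : ∀ x ∈ W', Q x = 0 := by
      rintro _ ⟨x, hx, rfl⟩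
      change Q (g.1.1 x) = 0
      rw [OG_apply, hW x hx]
    have hcomb : ∀ a b : F, a • (v 1 : V) + b • (v 2 : V) ∈ W :=
      fun a b => W.add_mem (W.smul_mem _ (hvT 1).1) (W.smul_mem _ (hvT 2).1)
    have hcombfix : ∀ a b : F, g.1.1 (a • (v 1 : V) + b • (v 2 : V)) = a • (v 1 : V) + b • (v 2 : V) := by
      intro a b
      rw [map_add, map_smul, map_smul, hvfix, hvfix]
    have hmem1 : ∀ a b : F, sb hQ hd7 (v 0 : V) (a • (v 1 : V) + b • (v 2 : V)) ∈ img Q (QW Q W) := by
      intro a b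
      apply pr_mem_img
      exact si_mem_QW hW (hvT 0).1 (fun x hx => hpol x hx _ (hcomb a b))
    have hmem2 : ∀ a b : F, sb hQ hd7 (v 0 : V) (a • (v 1 : V) + b • (v 2 : V)) ∈ img Q (QW Q W') := by
      intro a b
      apply pr_mem_img
      apply si_mem_QW hW's ⟨v 0, (hvT 0).1, hvfix 0⟩
      rintro _ ⟨x, hx, rfl⟩
      change polar Q (g.1.1 x) _ = 0
      rw [← hcombfix a b, OG_polar]
      exact hpol x hx _ (hcomb a b)
    have hv00 : (v 0 : V) ≠ 0 := hv'.ne_zero 0
    have hQv0 : Q (v 0 : V) = 0 := hW _ (hvT 0).1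
    let ι : F × F → ↥(img Q (QW Q W) ⊓ img Q (QW Q W')) := fun ab =>
      ⟨sb hQ hd7 (v 0 : V) (ab.1 • (v 1 : V) + ab.2 • (v 2 : V)), hmem1 _ _, hmem2 _ _⟩
    have hinj : Function.Injective ι := by
      rintro ⟨a, b⟩ ⟨a', b'⟩ hab
      have h3 := congrArg Subtype.val hab
      change sb hQ hd7 (v 0 : V) (a • (v 1 : V) + b • (v 2 : V))
        = sb hQ hd7 (v 0 : V) (a' • (v 1 : V) + b' • (v 2 : V)) at h3
      obtain ⟨c, hc⟩ := (sb_eq_sb_iff hQ hd7 hQv0 hv00 (hpol _ (hvT 0).1 _ (hcomb a b))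
        (hpol _ (hvT 0).1 _ (hcomb a' b'))).1 h3
      have h4 := Fintype.linearIndependent_iff.1 hv' ![-c, a - a', b - b'] (by
        rw [Fin.sum_univ_three]
        simp only [Matrix.cons_val_zero, Matrix.cons_val_one, Matrix.cons_val]
        have : (-c) • (v 0 : V) + (a - a') • (v 1 : V) + (b - b') • (v 2 : V)
            = (a • (v 1 : V) + b • (v 2 : V)) - (a' • (v 1 : V) + b' • (v 2 : V) + c • (v 0 : V)) := by
          module
        rw [this, hc, sub_self])
      have h5 := h4 1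
      have h6 := h4 2
      simp only [Matrix.cons_val_one, Matrix.cons_val_zero, Matrix.cons_val] at h5 h6
      rw [sub_eq_zero.1 h5, sub_eq_zero.1 h6]
    have : Finite V := Module.finite_of_finite F
    have : Finite (V ≃ₗ[F] V) := Finite.of_injective (fun g => (g : V → V)) DFunLike.coe_injective
    have hle := Nat.card_le_card_of_injective ι hinj
    rw [Nat.card_prod, Nat.card_eq_fintype_card] at hle
    have hq : 1 < Fintype.card F := Fintype.one_lt_card
    calc Fintype.card F < Fintype.card F * Fintype.card F := by nlinarith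
      _ ≤ _ := hle

end Cfsg.Agent.Lib.Helper74.AutO
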