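import Cfsg.Agent.Lib.Helper95.AutO.Perm
import Cfsg.Agent.Lib.Helper74.AutOSemiB
import Cfsg.Agent.Lib.Helper49.Perp2

set_option autoImplicit false

namespace Cfsg.Agent.Lib.Helper74.AutO

open QuadraticMap Module Cfsg.Agent.Lib.Helper49 Cfsg.Agent.Lib.Helper95 Cfsg.Agent.Lib.Helper95.AutO

section general

variable {G : Type*} [Group G]

/-- an automorphism of `G` induces one of `G' / Z(G')` -/
theorem exists_induced_aut (Γ : G ≃* G) :
    ∃ κ : (↥(commutator G) ⧸ Subgroup.center ↥(commutator G)) ≃*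
        (↥(commutator G) ⧸ Subgroup.center ↥(commutator G)),
      ∀ s s' : ↥(commutator G), s'.1 = Γ s.1 →
        κ (QuotientGroup.mk' _ s) = QuotientGroup.mk' _ s' := by
  have hchar : (commutator G).Characteristic := inferInstance
  have hmem : ∀ (Δ : G ≃* G) (x : G), x ∈ commutator G → Δ x ∈ commutator G := by
    intro Δ x hx
    have := Subgroup.characteristic_iff_comap_eq.1 hchar Δ
    rw [← this] at hx
    exact hx
  let e₁ : ↥(commutator G) ≃* ↥(commutator G) :=
    { toFun := fun s => ⟨Γ s.1, hmem Γ _ s.2⟩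
      invFun := fun s => ⟨Γ.symm s.1, hmem Γ.symm _ s.2⟩
      left_inv := fun s => Subtype.ext (by simp)
      right_inv := fun s => Subtype.ext (by simp)
      map_mul' := fun s t => Subtype.ext (by simp) }
  have hc : (Subgroup.center ↥(commutator G)).map e₁.toMonoidHom
      = Subgroup.center ↥(commutator G) :=
    Subgroup.characteristic_iff_map_eq.1 inferInstance e₁
  refine ⟨QuotientGroup.congr _ _ e₁ hc, ?_⟩
  intro s s' h
  have : s' = e₁ s := Subtype.ext h
  rw [this]
  rfl

end general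

variable {F V : Type*} [Field F] [Fintype F] [AddCommGroup V] [Module F V] [FiniteDimensional F V]
  {Q : QuadraticForm F V}

omit [Fintype F] [FiniteDimensional F V] in
theorem polar_semisim {σ : F ≃+* F} {γ : V ≃+ V} {c : F}
    (hq : ∀ x, Q (γ x) = c * σ (Q x)) (a b : V) :
    polar Q (γ a) (γ b) = c * σ (polar Q a b) := by
  simp only [polar, ← map_add, hq, map_sub]
  ring

omit [Fintype F] [FiniteDimensional F V] in
theorem symm_smul_semisim {σ : F ≃+* F} {γ : V ≃+ V}
    (hs : ∀ (a : F) (x : V), γ (a • x) = σ a • γ x) (a : F) (x : V) :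
    γ.symm (a • x) = σ.symm a • γ.symm x := by
  apply γ.injective
  rw [hs]
  simp

/-- conjugation by a semisimilarity, on the orthogonal group -/
noncomputable def conjOG (σ : F ≃+* F) (γ : V ≃+ V) (c : F) (hc : c ≠ 0)
    (hs : ∀ (a : F) (x : V), γ (a • x) = σ a • γ x)
    (hq : ∀ x, Q (γ x) = c * σ (Q x)) (g : OG Q) : OG Q :=
  ⟨{ toFun := fun x => γ (g.1 (γ.symm x))
     invFun := fun x => γ (g⁻¹.1 (γ.symm x))
     map_add' := fun x y => by simp
     map_smul' := fun a x => by
       rw [symm_smul_semisim hs, map_smul, hs]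
       simp
     left_inv := fun x => by
       simp only [AddEquiv.symm_apply_apply]
       rw [OG_inv_apply_apply]
       simp
     right_inv := fun x => by
       simp only [AddEquiv.symm_apply_apply]
       rw [OG_apply_inv_apply]
       simp }, by
    intro x
    change Q (γ (g.1 (γ.symm x))) = Q x
    rw [hq, OG_apply, ← hq]
    simp⟩

omit [Fintype F] [FiniteDimensional F V] in
theorem conjOG_apply (σ : F ≃+* F) (γ : V ≃+ V) (c : F) (hc : c ≠ 0)
    (hs : ∀ (a : F) (x : V), γ (a • x) = σ a • γ x)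
    (hq : ∀ x, Q (γ x) = c * σ (Q x)) (g : OG Q) (x : V) :
    (conjOG σ γ c hc hs hq g).1 x = γ (g.1 (γ.symm x)) := rfl

/-- RUNG CONJ -/
theorem exists_aut_of_semisim (hQ : (polarBilin Q).Nondegenerate) (hd : 7 ≤ finrank F V)
    (σ : F ≃+* F) (γ : V ≃+ V) (c : F) (hc : c ≠ 0) (hs : ∀ (a : F) (x : V), γ (a • x) = σ a • γ x)
    (hq : ∀ x, Q (γ x) = c * σ (Q x)) :
    ∃ κ : PT Q ≃* PT Q,
      (∀ s s' : ↥(Om Q), (∀ x, s'.1.1 (γ x) = γ (s.1.1 x)) → κ (pr Q s) = pr Q s') ∧
      (∀ e w : V, Q e = 0 → polar Q e w = 0 →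
        κ (sb hQ hd e w) = sb hQ hd (γ e) (c⁻¹ • γ w)) ∧
      (∀ e : V, e ≠ 0 → Q e = 0 →
        (img Q (QS Q e)).map κ.toMonoidHom = img Q (QS Q (γ e))) := by
  -- the inverse semisimilarity
  have hs' : ∀ (a : F) (x : V), γ.symm (a • x) = σ.symm a • γ.symm x := symm_smul_semisim hs
  have hq' : ∀ x, Q (γ.symm x) = σ.symm c⁻¹ * σ.symm (Q x) := by
    intro x
    have h1 := hq (γ.symm x)
    rw [AddEquiv.apply_symm_apply] at h1
    rw [h1, map_mul, RingEquiv.symm_apply_apply, ← mul_assoc, ← map_mul, inv_mul_cancel₀ hc,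
      map_one, one_mul]
  have hc' : σ.symm c⁻¹ ≠ 0 := by
    intro h0
    exact inv_ne_zero hc ((map_eq_zero σ.symm).1 h0)
  let Γ : OG Q ≃* OG Q :=
    { toFun := conjOG σ γ c hc hs hq
      invFun := conjOG σ.symm γ.symm _ hc' hs' hq'
      left_inv := fun g => by
        apply OG_ext
        intro x
        rw [conjOG_apply, conjOG_apply]
        simp
      right_inv := fun g => by
        apply OG_ext
        intro x
        rw [conjOG_apply, conjOG_apply]
        simp
      map_mul' := fun g k => by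
        apply OG_ext
        intro x
        rw [Subgroup.coe_mul, LinearEquiv.mul_apply, conjOG_apply, conjOG_apply, conjOG_apply,
          Subgroup.coe_mul, LinearEquiv.mul_apply]
        simp }
  obtain ⟨κ, hκ⟩ := exists_induced_aut Γ
  have first : ∀ s s' : ↥(Om Q), (∀ x, s'.1.1 (γ x) = γ (s.1.1 x)) → κ (pr Q s) = pr Q s' := by
    intro s s' h
    apply hκ s s'
    apply OG_ext
    intro x
    change s'.1.1 x = γ (s.1.1 (γ.symm x))
    rw [← h]
    simp
  have second : ∀ e w : V, Q e = 0 → polar Q e w = 0 →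
      κ (sb hQ hd e w) = sb hQ hd (γ e) (c⁻¹ • γ w) := by
    intro e w he hw
    apply first
    intro x
    have he' : Q (γ e) = 0 := by rw [hq, he]; simp
    have hw' : polar Q (γ e) (c⁻¹ • γ w) = 0 := by
      rw [polar_smul_right, polar_semisim hq, hw]; simp
    change (si Q (γ e) (c⁻¹ • γ w)).1 (γ x) = γ ((si Q e w).1 x)
    rw [si_apply he' hw', si_apply he hw, polar_smul_left, polar_semisim hq, polar_semisim hq,
      QuadraticMap.map_smul, hq]
    simp only [map_add, map_sub, hs, map_mul, smul_eq_mul, smul_smul]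
    have e1 : c * σ (polar Q e x) * c⁻¹ = σ (polar Q e x) := by field_simp
    have e2 : c⁻¹ * (c * σ (polar Q w x)) = σ (polar Q w x) := by field_simp
    have e3 : c⁻¹ * c⁻¹ * (c * σ (Q w)) * (c * σ (polar Q e x)) = σ (Q w) * σ (polar Q e x) := by
      field_simp
    rw [e1, e2, e3]
  refine ⟨κ, first, second, ?_⟩
  intro e he0 he
  have he' : Q (γ e) = 0 := by rw [hq, he]; simp
  have he0' : γ e ≠ 0 := by
    intro h0
    apply he0
    have := congrArg γ.symm h0
    simpa using this
  apply le_antisymm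
  · rintro _ ⟨t, ht, rfl⟩
    obtain ⟨w, hw, rfl⟩ := (mem_img_QS_iff hQ hd he0 he).1 ht
    change κ (sb hQ hd e w) ∈ _
    rw [second e w he hw]
    apply sb_mem hQ hd he'
    rw [polar_smul_right, polar_semisim hq, hw]; simp
  · intro t ht
    obtain ⟨w', hw', rfl⟩ := (mem_img_QS_iff hQ hd he0' he').1 ht
    have hw : polar Q e (γ.symm (c • w')) = 0 := by
      have h1 := polar_semisim hq e (γ.symm (c • w'))
      rw [AddEquiv.apply_symm_apply, polar_smul_right, hw', smul_zero] at h1
      exact (map_eq_zero σ).1 ((mul_eq_zero.1 h1.symm).resolve_left hc)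
    refine ⟨sb hQ hd e (γ.symm (c • w')), sb_mem hQ hd he hw, ?_⟩
    change κ (sb hQ hd e (γ.symm (c • w'))) = _
    rw [second e _ he hw, AddEquiv.apply_symm_apply, smul_smul, inv_mul_cancel₀ hc, one_smul]

end Cfsg.Agent.Lib.Helper74.AutO
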