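import Cfsg.Agent.Lib.Helper95.AutO.Perm
import Cfsg.Agent.Lib.Helper74.AutOSemiB
import Cfsg.Agent.Lib.Helper49.Perp2

set_option autoImplicit false

namespace Cfsg.Agent.Lib.Helper74.AutO

open QuadraticMap Module Cfsg.Agent.Lib.Helper49 Cfsg.Agent.Lib.Helper95 Cfsg.Agent.Lib.Helper95.AutO

variable {F V : Type*} [Field F] [Fintype F] [AddCommGroup V] [Module F V] [FiniteDimensional F V]
  {Q : QuadraticForm F V}

/-- the projection onto the orthogonal complement of a hyperbolic pair -/
noncomputable def projP (Q : QuadraticForm F V) {e f : V} (he : Q e = 0) (hf : Q f = 0)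
    (hef : polar Q e f = 1) : V →ₗ[F] ↥(perp2 Q e f) :=
  LinearMap.codRestrict (perp2 Q e f)
    (LinearMap.id - (LinearMap.toSpanSingleton F V e).comp (polarBilin Q f)
      - (LinearMap.toSpanSingleton F V f).comp (polarBilin Q e))
    (fun x => by
      have haa : polar Q e e = 0 := by rw [polar_self, he]; simp
      have hbb : polar Q f f = 0 := by rw [polar_self, hf]; simp
      have := sub_mem_perp2 Q haa hbb hef x
      simpa [LinearMap.toSpanSingleton_apply] using this)

omit [Fintype F] [FiniteDimensional F V] in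
theorem projP_coe {e f : V} (he : Q e = 0) (hf : Q f = 0) (hef : polar Q e f = 1) (x : V) :
    (projP Q he hf hef x : V) = x - polar Q f x • e - polar Q e x • f := by
  simp [projP, LinearMap.toSpanSingleton_apply]

omit [Fintype F] [FiniteDimensional F V] in
theorem Q_hyp_decomp {e f : V} (he : Q e = 0) (hf : Q f = 0) (hef : polar Q e f = 1) (a b : F)
    {z : V} (hz : z ∈ perp2 Q e f) : Q (a • e + b • f + z) = a * b + Q z := by
  obtain ⟨hz1, hz2⟩ := (mem_perp2 Q).1 hz
  rw [Q_add_eq, Q_add_eq, QuadraticMap.map_smul, QuadraticMap.map_smul, he, hf,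
    polar_smul_left, polar_smul_right, hef, polar_add_left, polar_smul_left, polar_smul_left,
    hz1, hz2]
  simp

/-- RUNG GAMMA -/
theorem exists_gamma {e f : V} (he : Q e = 0)
    (hf : Q f = 0) (hef : polar Q e f = 1) (φ : ↥(perp2 Q e f) ≃+ ↥(perp2 Q e f))
    (σ : F ≃+* F) (c : F) (hc : c ≠ 0)
    (hs : ∀ (a : F) (w : ↥(perp2 Q e f)), φ (a • w) = σ a • φ w)
    (hq : ∀ w : ↥(perp2 Q e f), Q (φ w : V) = c * σ (Q (w : V))) :
    ∃ γ : V ≃+ V, (∀ (a : F) (x : V), γ (a • x) = σ a • γ x) ∧ (∀ x, Q (γ x) = c * σ (Q x)) ∧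
      γ e = c • e ∧ γ f = f ∧ ∀ w : ↥(perp2 Q e f), γ (w : V) = (φ w : V) := by
  have hee : polar Q e e = 0 := by rw [polar_self, he]; simp
  have hff : polar Q f f = 0 := by rw [polar_self, hf]; simp
  have hfe : polar Q f e = 1 := by rw [polar_comm]; exact hef
  let P := projP Q he hf hef
  have hP : ∀ x, (P x : V) = x - polar Q f x • e - polar Q e x • f := projP_coe he hf hef
  let γ₀ : V →+ V := AddMonoidHom.mk'
    (fun x => (c * σ (polar Q f x)) • e + σ (polar Q e x) • f + (φ (P x) : V)) (by
      intro x y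
      simp only [polar_add_right, map_add, mul_add, add_smul, Submodule.coe_add]
      abel)
  have hγ : ∀ x, γ₀ x = (c * σ (polar Q f x)) • e + σ (polar Q e x) • f + (φ (P x) : V) :=
    fun _ => rfl
  have hpe : ∀ x, polar Q e (γ₀ x) = σ (polar Q e x) := by
    intro x
    have h1 := ((mem_perp2 Q).1 (φ (P x)).2).1
    rw [hγ, polar_add_right, polar_add_right, polar_smul_right, polar_smul_right, hee, hef, h1]
    simp
  have hpf : ∀ x, polar Q f (γ₀ x) = c * σ (polar Q f x) := by
    intro x
    have h1 := ((mem_perp2 Q).1 (φ (P x)).2).2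
    rw [hγ, polar_add_right, polar_add_right, polar_smul_right, polar_smul_right, hff, hfe, h1]
    simp
  have hinj : Function.Injective γ₀ := by
    rw [injective_iff_map_eq_zero]
    intro x hx
    have h1 := hpe x
    have h2 := hpf x
    rw [hx] at h1 h2
    have h3 : polar Q e x = 0 := by
      have : σ (polar Q e x) = 0 := by rw [← h1]; simp [polar]
      exact (map_eq_zero σ).1 this
    have h4 : polar Q f x = 0 := by
      have : c * σ (polar Q f x) = 0 := by rw [← h2]; simp [polar]
      exact (map_eq_zero σ).1 ((mul_eq_zero.1 this).resolve_left hc)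
    have h5 := hγ x
    rw [hx, h3, h4] at h5
    simp only [map_zero, mul_zero, zero_smul, zero_add] at h5
    have h6 : φ (P x) = 0 := Subtype.ext h5.symm
    have h7 : P x = 0 := by
      have := congrArg φ.symm h6
      simpa using this
    have h8 := hP x
    rw [h7, h3, h4] at h8
    simpa using h8.symm
  have : Finite V := Module.finite_of_finite F
  have hbij : Function.Bijective γ₀ := (Finite.injective_iff_bijective).1 hinj
  refine ⟨AddEquiv.ofBijective γ₀ hbij, ?_, ?_, ?_, ?_, ?_⟩
  · intro a x
    change γ₀ (a • x) = σ a • γ₀ x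
    rw [hγ, hγ, polar_smul_right, polar_smul_right, LinearMap.map_smul P, hs]
    simp only [smul_eq_mul, map_mul, smul_add, smul_smul, Submodule.coe_smul]
    congr 2
    congr 1
    ring
  · intro x
    change Q (γ₀ x) = c * σ (Q x)
    rw [hγ, Q_hyp_decomp he hf hef _ _ (φ (P x)).2, hq]
    have hx : x = polar Q f x • e + polar Q e x • f + (P x : V) := by rw [hP]; abel
    conv_rhs => rw [hx]
    rw [Q_hyp_decomp he hf hef _ _ (P x).2, map_add, map_mul]
    ring
  · change γ₀ e = c • e
    have h0 : P e = 0 := by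
      apply Subtype.ext
      rw [hP, hfe, hee]; simp
    rw [hγ, h0, hfe, hee]
    simp
  · change γ₀ f = f
    have h0 : P f = 0 := by
      apply Subtype.ext
      rw [hP, hff, hef]; simp
    rw [hγ, h0, hff, hef]
    simp
  · intro w
    change γ₀ (w : V) = (φ w : V)
    obtain ⟨h1, h2⟩ := (mem_perp2 Q).1 w.2
    have h0 : P (w : V) = w := by
      apply Subtype.ext
      rw [hP, h1, h2]; simp
    rw [hγ, h0, h1, h2]
    simp

end Cfsg.Agent.Lib.Helper74.AutO
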