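import Cfsg.Agent.Lib.Helper95.AutO.Perm
import Cfsg.Agent.Lib.Helper74.AutOSemiB
import Cfsg.Agent.Lib.Helper49.Perp2

set_option autoImplicit false

namespace Cfsg.Agent.Lib.Helper74.AutO

open QuadraticMap Module Cfsg.Agent.Lib.Helper49 Cfsg.Agent.Lib.Helper95 Cfsg.Agent.Lib.Helper95.AutO

variable {F V : Type*} [Field F] [Fintype F] [AddCommGroup V] [Module F V] [FiniteDimensional F V]
  {Q : QuadraticForm F V}

omit [Fintype F] [FiniteDimensional F V] in
theorem ne_zero_of_hyp {e f : V} (hef : polar Q e f = 1) : e ≠ 0 := by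
  rintro rfl
  simp [polar] at hef

/-- injectivity of `w ↦ sb e w` on the complement of a hyperbolic pair -/
theorem sb_inj_perp2 (hQ : (polarBilin Q).Nondegenerate) (hd : 7 ≤ finrank F V) {e f : V}
    (he : Q e = 0) (hef : polar Q e f = 1) {w w' : ↥(perp2 Q e f)}
    (h : sb hQ hd e (w : V) = sb hQ hd e (w' : V)) : w = w' := by
  have he0 := ne_zero_of_hyp hef
  obtain ⟨h1, h2⟩ := (mem_perp2 Q).1 w.2
  obtain ⟨h1', h2'⟩ := (mem_perp2 Q).1 w'.2
  obtain ⟨c, hc⟩ := (sb_eq_sb_iff hQ hd he he0 h1 h1').1 h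
  have h3 : polar Q f (w : V) = polar Q f ((w' : V) + c • e) := by rw [hc]
  rw [polar_add_right, polar_smul_right, h2, h2', polar_comm Q f e, hef] at h3
  have hc0 : c = 0 := by simpa using h3.symm
  apply Subtype.ext
  rw [hc, hc0]; simp

theorem exists_perp2_rep (hQ : (polarBilin Q).Nondegenerate) (hd : 7 ≤ finrank F V) {e f : V}
    (he : Q e = 0) (hef : polar Q e f = 1) {t : PT Q} (ht : t ∈ img Q (QS Q e)) :
    ∃ w : ↥(perp2 Q e f), t = sb hQ hd e (w : V) := by
  have he0 := ne_zero_of_hyp hef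
  have hee : polar Q e e = 0 := by rw [polar_self, he]; simp
  obtain ⟨w', hw', rfl⟩ := (mem_img_QS_iff hQ hd he0 he).1 ht
  have hmem : w' - polar Q f w' • e ∈ perp2 Q e f := by
    rw [mem_perp2]
    constructor
    · rw [polar_sub_right, polar_smul_right, hw', hee]; simp
    · rw [polar_sub_right, polar_smul_right, polar_comm Q f e, hef]; simp
  refine ⟨⟨_, hmem⟩, ?_⟩
  rw [sb_eq_sb_iff hQ hd he he0 hw' ((mem_perp2 Q).1 hmem).1]
  exact ⟨polar Q f w', by simp⟩

/-- RUNG PHI1 -/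
theorem exists_phi (hQ : (polarBilin Q).Nondegenerate) (hd : 7 ≤ finrank F V)
    (α : PT Q ≃* PT Q) {e f : V} (he : Q e = 0) (hf : Q f = 0) (hef : polar Q e f = 1)
    (h : (img Q (QS Q e)).map α.toMonoidHom = img Q (QS Q e)) :
    ∃ φ : ↥(perp2 Q e f) ≃+ ↥(perp2 Q e f),
      ∀ w : ↥(perp2 Q e f), α (sb hQ hd e (w : V)) = sb hQ hd e (φ w : V) := by
  have hperp : ∀ w : ↥(perp2 Q e f), polar Q e (w : V) = 0 := fun w => ((mem_perp2 Q).1 w.2).1
  have h1 : ∀ t ∈ img Q (QS Q e), α t ∈ img Q (QS Q e) := by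
    intro t ht
    rw [← h]
    exact Subgroup.mem_map_of_mem _ ht
  have h2 : ∀ t ∈ img Q (QS Q e), α.symm t ∈ img Q (QS Q e) := by
    intro t ht
    rw [← h] at ht
    obtain ⟨s, hs, rfl⟩ := Subgroup.mem_map.1 ht
    change α.symm (α s) ∈ _
    rw [MulEquiv.symm_apply_apply]
    exact hs
  choose φ₀ hφ₀ using fun w : ↥(perp2 Q e f) =>
    exists_perp2_rep hQ hd he hef (h1 _ (sb_mem hQ hd he (hperp w)))
  choose ψ₀ hψ₀ using fun w : ↥(perp2 Q e f) =>
    exists_perp2_rep hQ hd he hef (h2 _ (sb_mem hQ hd he (hperp w)))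
  refine ⟨{ toFun := φ₀, invFun := ψ₀, left_inv := ?_, right_inv := ?_, map_add' := ?_ }, hφ₀⟩
  · intro w
    apply sb_inj_perp2 hQ hd he hef
    rw [← hψ₀, ← hφ₀, MulEquiv.symm_apply_apply]
  · intro w
    apply sb_inj_perp2 hQ hd he hef
    rw [← hφ₀, ← hψ₀, MulEquiv.apply_symm_apply]
  · intro w w'
    apply sb_inj_perp2 hQ hd he hef
    rw [← hφ₀, Submodule.coe_add, Submodule.coe_add, ← sb_mul hQ hd he (hperp w) (hperp w'),
      map_mul, hφ₀, hφ₀, sb_mul hQ hd he (hperp _) (hperp _)]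

/-- different singular points have different radicals -/
theorem img_QS_ne (hQ : (polarBilin Q).Nondegenerate) (hd : 7 ≤ finrank F V) {e w : V}
    (he : Q e = 0) (he0 : e ≠ 0) (hw : Q w = 0) (hne : ∀ c : F, w ≠ c • e) :
    img Q (QS Q w) ≠ img Q (QS Q e) := by
  intro heq
  obtain ⟨x, hx, hQx⟩ := qexists_perp_nonsing Q hQ ![e] (by omega)
  have hex : polar Q e x = 0 := by rw [polar_comm]; exact hx 0
  have h1 : sb hQ hd e x ∈ img Q (QS Q e) := sb_mem hQ hd he hex
  have h2 : sb hQ hd e x ∈ img Q (QS Q w) := by rw [heq]; exact h1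
  rcases mem_img_QS_inf hQ hd he he0 hne h1 h2 with h3 | ⟨h3, c, h4⟩
  · obtain ⟨c, hc⟩ := (sb_eq_one_iff hQ hd he he0 hex).1 h3
    apply hQx
    rw [hc, QuadraticMap.map_smul, he]; simp
  · obtain ⟨c', hc'⟩ := (sb_eq_sb_iff hQ hd he he0 hex (by rw [polar_smul_right, h3]; simp)).1 h4
    apply hQx
    rw [hc', Q_add_eq, QuadraticMap.map_smul, QuadraticMap.map_smul, he, hw,
      polar_smul_left, polar_smul_right, polar_comm, h3]
    simp

theorem sb_smul_mem (hQ : (polarBilin Q).Nondegenerate) (hd : 7 ≤ finrank F V) {e w : V}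
    (he : Q e = 0) (hw : Q w = 0) (hew : polar Q e w = 0) (c : F) :
    sb hQ hd e (c • w) ∈ img Q (QS Q w) := by
  apply pr_mem_img
  change si Q e (c • w) ∈ QS Q w
  have h1 : SPair Q (c • e) w :=
    ⟨by rw [QuadraticMap.map_smul, he]; simp, hw, by rw [polar_smul_left, hew]; simp⟩
  rw [← si_smul_left he hew, si_symm h1]
  apply si_mem_QS hw
  rw [polar_neg_right, polar_smul_right, polar_comm, hew]; simp

theorem phi_half (hQ : (polarBilin Q).Nondegenerate) (hd : 7 ≤ finrank F V)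
    (α : PT Q ≃* PT Q) (H : PermPts Q α) {e f : V} (he : Q e = 0)
    (hef : polar Q e f = 1)
    (h : (img Q (QS Q e)).map α.toMonoidHom = img Q (QS Q e))
    (φ : ↥(perp2 Q e f) ≃+ ↥(perp2 Q e f))
    (hφ : ∀ w : ↥(perp2 Q e f), α (sb hQ hd e (w : V)) = sb hQ hd e (φ w : V))
    (w : ↥(perp2 Q e f)) (hw : Q (w : V) = 0) :
    Q (φ w : V) = 0 ∧ ∀ c : F, ∃ c' : F, φ (c • w) = c' • φ w := by
  have he0 := ne_zero_of_hyp hef
  have hfe : polar Q f e = 1 := by rw [polar_comm]; exact hef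
  have hperp : ∀ w : ↥(perp2 Q e f), polar Q e (w : V) = 0 := fun w => ((mem_perp2 Q).1 w.2).1
  have hperp' : ∀ w : ↥(perp2 Q e f), polar Q f (w : V) = 0 := fun w => ((mem_perp2 Q).1 w.2).2
  by_cases hw0 : w = 0
  · subst hw0
    refine ⟨by simp, fun c => ⟨0, by simp⟩⟩
  have hwV : (w : V) ≠ 0 := fun h0 => hw0 (Subtype.ext h0)
  -- vectors of the complement that are multiples of `e` vanish
  have hzero : ∀ (z : ↥(perp2 Q e f)) (c : F), (z : V) = c • e → z = 0 := by
    intro z c hz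
    have h1 := hperp' z
    rw [hz, polar_smul_right, hfe] at h1
    have hc0 : c = 0 := by simpa using h1
    apply Subtype.ext
    rw [hz, hc0]; simp
  have hne_w : ∀ c : F, (w : V) ≠ c • e := fun c hc => hw0 (hzero w c hc)
  obtain ⟨ws, hws0, hQws, hmap⟩ := H w hwV hw
  have hne_s : ∀ c : F, ws ≠ c • e := by
    intro c hc
    have hc0 : c ≠ 0 := by
      rintro rfl
      apply hws0; rw [hc, zero_smul]
    rw [hc, QS_smul hc0, ← h] at hmap
    exact img_QS_ne hQ hd he he0 hw hne_w (Subgroup.map_injective α.injective hmap)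
  -- the key alternative
  have key : ∀ c : F, φ (c • w) = 0 ∨ (polar Q e ws = 0 ∧
      ∃ c2 : F, (φ (c • w) : V) = c2 • (ws - polar Q f ws • e)) := by
    intro c
    have t1 : α (sb hQ hd e ((c • w : ↥(perp2 Q e f)) : V)) ∈ img Q (QS Q e) := by
      rw [hφ]; exact sb_mem hQ hd he (hperp _)
    have t2 : α (sb hQ hd e ((c • w : ↥(perp2 Q e f)) : V)) ∈ img Q (QS Q ws) := by
      rw [← hmap]
      apply Subgroup.mem_map_of_mem
      rw [Submodule.coe_smul]
      exact sb_smul_mem hQ hd he hw (hperp w) c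
    rcases mem_img_QS_inf hQ hd he he0 hne_s t1 t2 with h3 | ⟨h3, c2, h4⟩
    · left
      rw [hφ] at h3
      obtain ⟨c', hc'⟩ := (sb_eq_one_iff hQ hd he he0 (hperp _)).1 h3
      exact hzero _ c' hc'
    · right
      refine ⟨h3, c2, ?_⟩
      rw [hφ] at h4
      obtain ⟨c', hc'⟩ := (sb_eq_sb_iff hQ hd he he0 (hperp _)
        (by rw [polar_smul_right, h3]; simp)).1 h4
      have h5 := hperp' (φ (c • w))
      rw [hc', polar_add_right, polar_smul_right, polar_smul_right, hfe] at h5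
      have h6 : c' = -(c2 * polar Q f ws) := by
        simp only [smul_eq_mul, mul_one] at h5
        linear_combination h5
      rw [hc', h6]
      module
  have hφw : φ w ≠ 0 := by
    intro h0
    apply hw0
    have := congrArg φ.symm h0
    simpa using this
  rcases key 1 with h1 | ⟨h1, c1, hc1⟩
  · rw [one_smul] at h1
    exact absurd h1 hφw
  rw [one_smul] at hc1
  have hc10 : c1 ≠ 0 := by
    rintro rfl
    apply hφw
    apply Subtype.ext
    rw [hc1]; simp
  constructor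
  · rw [hc1, QuadraticMap.map_smul, Q_sub_smul, hQws, he, h1]
    simp
  · intro c
    rcases key c with h2 | ⟨-, c2, hc2⟩
    · exact ⟨0, by rw [h2, zero_smul]⟩
    · refine ⟨c2 * c1⁻¹, ?_⟩
      apply Subtype.ext
      rw [hc2, Submodule.coe_smul, hc1, smul_smul, mul_assoc, inv_mul_cancel₀ hc10, mul_one]

/-- RUNG PHI2 -/
theorem phi_props (hQ : (polarBilin Q).Nondegenerate) (hd : 7 ≤ finrank F V)
    (α : PT Q ≃* PT Q) (H : PermPts Q α) (H' : PermPts Q α.symm) {e f : V} (he : Q e = 0)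
    (hf : Q f = 0) (hef : polar Q e f = 1)
    (h : (img Q (QS Q e)).map α.toMonoidHom = img Q (QS Q e))
    (φ : ↥(perp2 Q e f) ≃+ ↥(perp2 Q e f))
    (hφ : ∀ w : ↥(perp2 Q e f), α (sb hQ hd e (w : V)) = sb hQ hd e (φ w : V)) :
    (∀ w, resQ Q (perp2 Q e f) w = 0 ↔ resQ Q (perp2 Q e f) (φ w) = 0) ∧
    (∀ w, resQ Q (perp2 Q e f) w = 0 → ∀ c : F, ∃ c' : F, φ (c • w) = c' • φ w) ∧
    (∀ w, resQ Q (perp2 Q e f) w = 0 → ∀ c : F, ∃ c' : F, φ.symm (c • w) = c' • φ.symm w) := by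
  have h' : (img Q (QS Q e)).map α.symm.toMonoidHom = img Q (QS Q e) := by
    conv_lhs => rw [← h]
    rw [Subgroup.map_map]
    have : α.symm.toMonoidHom.comp α.toMonoidHom = MonoidHom.id _ := by
      ext x
      simp
    rw [this, Subgroup.map_id]
  have hφ' : ∀ w : ↥(perp2 Q e f),
      α.symm (sb hQ hd e (w : V)) = sb hQ hd e (φ.symm w : V) := by
    intro w
    rw [MulEquiv.symm_apply_eq, hφ, AddEquiv.apply_symm_apply]
  have A := phi_half hQ hd α H he hef h φ hφ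
  have B := phi_half hQ hd α.symm H' he hef h' φ.symm hφ'
  refine ⟨fun w => ⟨fun hw => (A w hw).1, fun hw => ?_⟩, fun w hw => (A w hw).2,
    fun w hw => (B w hw).2⟩
  have := (B (φ w) hw).1
  rw [AddEquiv.symm_apply_apply] at this
  exact this

end Cfsg.Agent.Lib.Helper74.AutO
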