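import Mathlib

set_option autoImplicit false

namespace Cfsg.Agent.Lib.Helper74.AutPSU

section Hua

variable {F : Type*} [Field F]

theorem hua_id {x y : F} (hx : x ≠ 0) (hy : y ≠ 0) (hxy : y⁻¹ - x ≠ 0) :
    (x⁻¹ + (y⁻¹ - x)⁻¹)⁻¹ = x - x * x * y := by
  have h1 : 1 - x * y ≠ 0 := by
    intro h
    apply hxy
    have : y⁻¹ - x = (1 - x * y) * y⁻¹ := by field_simp
    rw [this, h, zero_mul]
  have h2 : y⁻¹ - x = (1 - x * y) / y := by field_simp
  rw [h2]
  field_simp
  ring

theorem exists_sq_sub_sq [Finite F] (x : F) : ∃ s r : F, x = s * s - r * r := by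
  by_cases h2 : (2 : F) = 0
  · have : Fintype F := Fintype.ofFinite F
    have hc : ringChar F = 2 := by
      have : CharP F 2 := CharTwo.of_one_ne_zero_of_two_eq_zero one_ne_zero h2
      exact ringChar.eq F 2
    obtain ⟨s, hs⟩ := FiniteField.isSquare_of_char_two hc x
    exact ⟨s, 0, by rw [hs]; ring⟩
  · refine ⟨(x + 1) / 2, (x - 1) / 2, ?_⟩
    field_simp
    ring

/-- Hua: an additive map of a finite field respecting inverses is multiplicative -/
theorem hua [Finite F] (s : F → F) (hadd : ∀ a b, s (a + b) = s a + s b) (hone : s 1 = 1)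
    (hne : ∀ a, a ≠ 0 → s a ≠ 0)
    (hinv : ∀ a, a ≠ 0 → s a⁻¹ = (s a)⁻¹) : ∀ a b, s (a * b) = s a * s b := by
  have hzero : s 0 = 0 := by
    have := hadd 0 0
    rw [add_zero] at this
    exact left_eq_add.1 this
  have hneg : ∀ a, s (-a) = - s a := by
    intro a
    have := hadd a (-a)
    rw [add_neg_cancel, hzero] at this
    exact (neg_eq_of_add_eq_zero_right this.symm).symm
  have hsub : ∀ a b, s (a - b) = s a - s b := by
    intro a b
    rw [sub_eq_add_neg, hadd, hneg, ← sub_eq_add_neg]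
  have key : ∀ a b, s (a * a * b) = s a * s a * s b := by
    intro a b
    by_cases ha : a = 0
    · subst ha; simp [hzero]
    by_cases hb : b = 0
    · subst hb; simp [hzero]
    by_cases hab : b⁻¹ - a = 0
    · have hb' : b = a⁻¹ := by
        rw [sub_eq_zero] at hab
        rw [← hab, inv_inv]
      rw [hb', hinv a ha, mul_assoc, mul_inv_cancel₀ ha, mul_one, mul_assoc,
        mul_inv_cancel₀ (hne a ha), mul_one]
    · have h1 := hua_id ha hb hab
      have hu : s (b⁻¹ - a) = (s b)⁻¹ - s a := by rw [hsub, hinv b hb]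
      have hu0 : (s b)⁻¹ - s a ≠ 0 := by rw [← hu]; exact hne _ hab
      have h2 := hua_id (hne a ha) (hne b hb) hu0
      have hv0 : a⁻¹ + (b⁻¹ - a)⁻¹ ≠ 0 := by
        intro h0
        rw [h0, inv_zero] at h1
        -- `a - a a b = 0` means `a (1 - a b) = 0`
        have h3 : a * (b * (b⁻¹ - a)) = 0 := by
          have : a * (b * (b⁻¹ - a)) = a - a * a * b := by field_simp
          rw [this, ← h1]
        rcases mul_eq_zero.1 h3 with h | h
        · exact ha h
        · rcases mul_eq_zero.1 h with h | h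
          · exact hb h
          · exact hab h
      have h3 : s ((a⁻¹ + (b⁻¹ - a)⁻¹)⁻¹) = ((s a)⁻¹ + ((s b)⁻¹ - s a)⁻¹)⁻¹ := by
        rw [hinv _ hv0, hadd, hinv a ha, hinv _ hab, hu]
      rw [h1, h2, hsub] at h3
      linear_combination -h3
  intro a b
  obtain ⟨x, y, rfl⟩ := exists_sq_sub_sq a
  have h1 : (x * x - y * y) * b = x * x * b - y * y * b := by ring
  have h2 : s (x * x - y * y) = s x * s x - s y * s y := by
    have e1 := key x 1
    have e2 := key y 1
    rw [mul_one, hone, mul_one] at e1 e2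
    rw [hsub, e1, e2]
  rw [h1, hsub, key, key, h2]
  ring

end Hua

end Cfsg.Agent.Lib.Helper74.AutPSU
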