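import Mathlib
import Cfsg.Agent.Lib.Helper74.AutPSUHua

set_option autoImplicit false

namespace Cfsg.Agent.Lib.Helper74.AutPSU

/-- the hypotheses of rung ALG, with the conjugation as an abstract involution -/
structure Hyp {F : Type*} [Field F] {W : Type*} [AddCommGroup W] [Module F W]
    (b : F →+* F) (h : W → W → F) (T1 : W → F → W) (T2 : W → F → F) (tb : F → F) : Prop where
  bb : ∀ x, b (b x) = x
  nt : ∃ x, b x ≠ x
  h_add : ∀ u v w, h (u + v) w = h u w + h v w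
  h_smul : ∀ (c : F) u w, h (c • u) w = c * h u w
  h_conj : ∀ u w, b (h u w) = h w u
  h_mem : ∀ w k, k + b k + h w w = 0 → T2 w k + b (T2 w k) + h (T1 w k) (T1 w k) = 0
  h_mul : ∀ w k w' k', k + b k + h w w = 0 → k' + b k' + h w' w' = 0 →
        T1 (w + w') (k + k' - h w' w) = T1 w k + T1 w' k' ∧
        T2 (w + w') (k + k' - h w' w) = T2 w k + T2 w' k' - h (T1 w' k') (T1 w k)
  h_inj : ∀ w k w' k', k + b k + h w w = 0 → k' + b k' + h w' w' = 0 →
        T1 w k = T1 w' k' → T2 w k = T2 w' k' → w = w' ∧ k = k'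
  h_X : ∀ l : F, l + b l = 0 → T1 0 l = 0
  tb_mem : ∀ l : F, l + b l = 0 → tb l + b (tb l) = 0
  tb_add : ∀ l l' : F, l + b l = 0 → l' + b l' = 0 → tb (l + l') = tb l + tb l'
  tb_surj : ∀ m : F, m + b m = 0 → ∃ l : F, l + b l = 0 ∧ tb l = m
  h_b : ∀ w k l, k + b k + h w w = 0 → l + b l = 0 → 1 + l * k ≠ 0 →
        1 + tb l * T2 w k ≠ 0 ∧
        T1 ((1 + l * k)⁻¹ • w) ((1 + l * k)⁻¹ * k) = (1 + tb l * T2 w k)⁻¹ • T1 w k ∧
        T2 ((1 + l * k)⁻¹ • w) ((1 + l * k)⁻¹ * k) = (1 + tb l * T2 w k)⁻¹ * T2 w k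
  h_iso : ∀ w, h w w = 0 → ∀ x : F, ∃ y : F, T1 (x • w) 0 = y • T1 w 0
  h_ne : ∃ w₀, h w₀ w₀ ≠ 0

variable {F : Type*} [Field F] {W : Type*} [AddCommGroup W] [Module F W]
  {b : F →+* F} {h : W → W → F} {T1 : W → F → W} {T2 : W → F → F} {tb : F → F}

section K0

theorem bK {l : F} (hl : l + b l = 0) : b l = -l := by linear_combination hl

theorem K0_inv {l : F} (hl : l + b l = 0) : l⁻¹ + b l⁻¹ = 0 := by
  rw [map_inv₀, bK hl, inv_neg]; ring

theorem K0_neg {l : F} (hl : l + b l = 0) : -l + b (-l) = 0 := by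
  rw [map_neg, bK hl]; ring

theorem K0_add {l l' : F} (hl : l + b l = 0) (hl' : l' + b l' = 0) : (l + l') + b (l + l') = 0 := by
  rw [map_add, bK hl, bK hl']; ring

theorem K0_sub {l l' : F} (hl : l + b l = 0) (hl' : l' + b l' = 0) : (l - l') + b (l - l') = 0 := by
  rw [map_sub, bK hl, bK hl']; ring

theorem K0_mul {r l : F} (hr : b r = r) (hl : l + b l = 0) : (r * l) + b (r * l) = 0 := by
  rw [map_mul, bK hl, hr]; ring

theorem F0_div {l l' : F} (hl : l + b l = 0) (hl' : l' + b l' = 0) : b (l' / l) = l' / l := by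
  rw [map_div₀, bK hl, bK hl', neg_div_neg_eq]

end K0

namespace Hyp

variable (D : Hyp b h T1 T2 tb)
include D

theorem h_zero_left (w : W) : h 0 w = 0 := by
  have := D.h_smul 0 0 w
  simpa using this

theorem h_zero_right (w : W) : h w 0 = 0 := by
  rw [← D.h_conj, D.h_zero_left, map_zero]

theorem h_add_right (u v w : W) : h u (v + w) = h u v + h u w := by
  rw [← D.h_conj, D.h_add, map_add, D.h_conj, D.h_conj]

theorem h_smul_right (c : F) (u w : W) : h u (c • w) = b c * h u w := by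
  rw [← D.h_conj, D.h_smul, map_mul, D.h_conj]

theorem exists_k0 : ∃ k0 : F, k0 + b k0 = 0 ∧ k0 ≠ 0 := by
  obtain ⟨x, hx⟩ := D.nt
  refine ⟨x - b x, ?_, ?_⟩
  · rw [map_sub, D.bb]; ring
  · intro h0; exact hx (sub_eq_zero.1 h0).symm

theorem exists_tr (s : F) (hs : b s = s) : ∃ k, k + b k = s := by
  obtain ⟨θ, hθ⟩ : ∃ θ : F, θ + b θ ≠ 0 := by
    by_contra hcon
    push Not at hcon
    obtain ⟨x, hx⟩ := D.nt
    have h1 := hcon 1
    rw [map_one] at h1
    have h2 := hcon x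
    apply hx
    linear_combination h2 - x * h1
  have ht : b (θ + b θ) = θ + b θ := by rw [map_add, D.bb]; ring
  refine ⟨s * θ / (θ + b θ), ?_⟩
  rw [map_div₀, map_mul, ht, hs]
  field_simp

theorem exists_InH (w : W) : ∃ k, k + b k + h w w = 0 := by
  obtain ⟨k, hk⟩ := D.exists_tr (-(h w w)) (by rw [map_neg, D.h_conj])
  exact ⟨k, by rw [hk]; ring⟩

theorem InH_trans {w : W} {k l : F} (hk : k + b k + h w w = 0) (hl : l + b l = 0) :
    (k + l) + b (k + l) + h w w = 0 := by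
  rw [map_add]; linear_combination hk + hl

theorem exists_InH_ne (w : W) : ∃ k, k ≠ 0 ∧ k + b k + h w w = 0 := by
  obtain ⟨k, hk⟩ := D.exists_InH w
  by_cases hk0 : k = 0
  · obtain ⟨k0, h1, h2⟩ := D.exists_k0
    refine ⟨k + k0, ?_, D.InH_trans hk h1⟩
    rw [hk0, zero_add]; exact h2
  · exact ⟨k, hk0, hk⟩

theorem InH_zero {l : F} (hl : l + b l = 0) : l + b l + h (0 : W) 0 = 0 := by
  rw [D.h_zero_left, hl, add_zero]

theorem InH_mul {w w' : W} {k k' : F} (hk : k + b k + h w w = 0) (hk' : k' + b k' + h w' w' = 0) :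
    (k + k' - h w' w) + b (k + k' - h w' w) + h (w + w') (w + w') = 0 := by
  rw [map_sub, map_add, D.h_conj, D.h_add, D.h_add_right, D.h_add_right]
  linear_combination hk + hk'

theorem InH_M {w : W} {k l : F} (hk : k + b k + h w w = 0) (hl : l + b l = 0)
    (hne : 1 + l * k ≠ 0) :
    ((1 + l * k)⁻¹ * k) + b ((1 + l * k)⁻¹ * k) + h ((1 + l * k)⁻¹ • w) ((1 + l * k)⁻¹ • w) = 0 := by
  have hne' : b (1 + l * k) ≠ 0 := by
    intro h0
    apply hne
    have := congrArg b h0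
    rwa [D.bb, map_zero] at this
  rw [D.h_smul, D.h_smul_right, map_mul, map_inv₀]
  have e : b (1 + l * k) = 1 - l * b k := by rw [map_add, map_one, map_mul, bK hl]; ring
  rw [e] at hne' ⊢
  field_simp
  linear_combination hk

theorem T1_indep {w : W} {k k' : F} (hk : k + b k + h w w = 0) (hk' : k' + b k' + h w w = 0) :
    T1 w k' = T1 w k := by
  have hl : (k' - k) + b (k' - k) = 0 := by rw [map_sub]; linear_combination hk' - hk
  have := (D.h_mul w k 0 (k' - k) hk (D.InH_zero hl)).1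
  rw [add_zero, D.h_zero_left, D.h_X _ hl, add_zero] at this
  rw [← this]; congr 1; ring

theorem T2_trans {w : W} {k l : F} (hk : k + b k + h w w = 0) (hl : l + b l = 0) :
    T2 w (k + l) = T2 w k + T2 0 l := by
  have := (D.h_mul w k 0 l hk (D.InH_zero hl)).2
  rw [add_zero, D.h_zero_left, D.h_X _ hl, D.h_zero_left, sub_zero, sub_zero] at this
  exact this

/-- the vector part as an additive map -/
theorem exists_A : ∃ A : W →+ W, ∀ w k, k + b k + h w w = 0 → T1 w k = A w := by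
  choose κ hκ using D.exists_InH
  have hA : ∀ w k, k + b k + h w w = 0 → T1 w k = T1 w (κ w) := fun w k hk =>
    D.T1_indep (hκ w) hk
  refine ⟨AddMonoidHom.mk' (fun w => T1 w (κ w)) ?_, hA⟩
  intro w w'
  have := (D.h_mul w (κ w) w' (κ w') (hκ w) (hκ w')).1
  rw [hA _ _ (D.InH_mul (hκ w) (hκ w'))] at this
  exact this

theorem tau_add {l l' : F} (hl : l + b l = 0) (hl' : l' + b l' = 0) :
    T2 (0 : W) (l + l') = T2 0 l + T2 0 l' :=
  D.T2_trans (D.InH_zero hl) hl'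

theorem tau_zero : T2 (0 : W) 0 = 0 := by
  have := D.tau_add (l := 0) (l' := 0) (by simp) (by simp)
  rw [add_zero] at this
  exact left_eq_add.1 this

theorem tau_neg {l : F} (hl : l + b l = 0) : T2 (0 : W) (-l) = - T2 0 l := by
  have := D.tau_add hl (K0_neg hl)
  rw [add_neg_cancel, D.tau_zero] at this
  exact (neg_eq_of_add_eq_zero_right this.symm).symm

theorem tau_mem {l : F} (hl : l + b l = 0) : T2 (0 : W) l + b (T2 (0 : W) l) = 0 := by
  have := D.h_mem 0 l (D.InH_zero hl)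
  rwa [D.h_X _ hl, D.h_zero_left, add_zero] at this

theorem tau_ne_zero {l : F} (hl : l + b l = 0) (hl0 : l ≠ 0) : T2 (0 : W) l ≠ 0 := by
  intro h0
  apply hl0
  have h00 : (0 : F) + b 0 = 0 := by simp
  exact (D.h_inj 0 l 0 0 (D.InH_zero hl) (D.InH_zero h00)
    (by rw [D.h_X _ hl, D.h_X _ h00]) (by rw [h0, D.tau_zero])).2

theorem tb_zero : tb 0 = 0 := by
  have := D.tb_add 0 0 (by simp) (by simp)
  rw [add_zero] at this
  exact left_eq_add.1 this

theorem tb_neg {l : F} (hl : l + b l = 0) : tb (-l) = - tb l := by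
  have := D.tb_add l (-l) hl (K0_neg hl)
  rw [add_neg_cancel, D.tb_zero] at this
  exact (neg_eq_of_add_eq_zero_right this.symm).symm

theorem tb_sub {l l' : F} (hl : l + b l = 0) (hl' : l' + b l' = 0) :
    tb (l - l') = tb l - tb l' := by
  rw [sub_eq_add_neg, D.tb_add _ _ hl (K0_neg hl'), D.tb_neg hl', ← sub_eq_add_neg]

theorem tau_mob {k l : F} (hk : k + b k = 0) (hl : l + b l = 0) (hne : 1 + l * k ≠ 0) :
    1 + tb l * T2 (0 : W) k ≠ 0 ∧
      T2 (0 : W) ((1 + l * k)⁻¹ * k) = (1 + tb l * T2 (0 : W) k)⁻¹ * T2 (0 : W) k := by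
  have := D.h_b 0 k l (D.InH_zero hk) hl hne
  rw [smul_zero] at this
  exact ⟨this.1, this.2.2⟩

theorem taustar {x y : F} (hx : x + b x = 0) (hy : y + b y = 0) (hx0 : x ≠ 0) (hy0 : y ≠ 0) :
    (T2 (0 : W) y⁻¹)⁻¹ = (T2 (0 : W) x⁻¹)⁻¹ + tb (y - x) := by
  have e1 : 1 + (y - x) * x⁻¹ = y / x := by field_simp; ring
  have hne : 1 + (y - x) * x⁻¹ ≠ 0 := by rw [e1]; exact div_ne_zero hy0 hx0
  obtain ⟨h1, h2⟩ := D.tau_mob (K0_inv hx) (K0_sub hy hx) hne
  have e2 : (1 + (y - x) * x⁻¹)⁻¹ * x⁻¹ = y⁻¹ := by rw [e1]; field_simp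
  rw [e2] at h2
  have ht : T2 (0 : W) x⁻¹ ≠ 0 := D.tau_ne_zero (K0_inv hx) (inv_ne_zero hx0)
  rw [h2]
  generalize T2 (0 : W) x⁻¹ = t at ht h1
  generalize tb (y - x) = u at h1
  field_simp

theorem tb_eq {x : F} (hx : x + b x = 0) (hx0 : x ≠ 0) : tb x = (T2 (0 : W) x⁻¹)⁻¹ := by
  obtain ⟨k0, hk0, hk00⟩ := D.exists_k0
  have hC : ∀ y : F, y + b y = 0 → y ≠ 0 →
      (T2 (0 : W) y⁻¹)⁻¹ - tb y = (T2 (0 : W) k0⁻¹)⁻¹ - tb k0 := by
    intro y hy hy0
    rw [D.taustar hk0 hy hk00 hy0, D.tb_sub hy hk0]; ring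
  have hC0 : (T2 (0 : W) k0⁻¹)⁻¹ - tb k0 = 0 := by
    by_contra hne
    have hmem : -((T2 (0 : W) k0⁻¹)⁻¹ - tb k0) + b (-((T2 (0 : W) k0⁻¹)⁻¹ - tb k0)) = 0 :=
      K0_neg (K0_sub (K0_inv (D.tau_mem (K0_inv hk0))) (D.tb_mem _ hk0))
    obtain ⟨y, hy, hty⟩ := D.tb_surj _ hmem
    have hy0 : y ≠ 0 := by
      rintro rfl
      rw [D.tb_zero] at hty
      apply hne
      linear_combination hty
    have h1 := hC y hy hy0
    rw [hty] at h1
    have h2 : (T2 (0 : W) y⁻¹)⁻¹ = 0 := by linear_combination h1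
    exact inv_ne_zero (D.tau_ne_zero (K0_inv hy) (inv_ne_zero hy0)) h2
  have := hC x hx hx0
  rw [hC0] at this
  exact (sub_eq_zero.1 this).symm

theorem tau_surj {m : F} (hm : m + b m = 0) : ∃ l, l + b l = 0 ∧ T2 (0 : W) l = m := by
  by_cases hm0 : m = 0
  · exact ⟨0, by simp, by rw [D.tau_zero, hm0]⟩
  obtain ⟨x, hx, hxm⟩ := D.tb_surj _ (K0_inv hm)
  have hx0 : x ≠ 0 := by
    rintro rfl
    rw [D.tb_zero] at hxm
    exact inv_ne_zero hm0 hxm.symm
  refine ⟨x⁻¹, K0_inv hx, ?_⟩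
  have := D.tb_eq hx hx0
  rw [hxm] at this
  exact (inv_injective this).symm

end Hyp

end Cfsg.Agent.Lib.Helper74.AutPSU
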