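import Mathlib
import Cfsg.Agent.Lib.Helper74.AutPSUAlgA

set_option autoImplicit false

namespace Cfsg.Agent.Lib.Helper74.AutPSU

variable {F : Type*} [Field F] {W : Type*} [AddCommGroup W] [Module F W]
  {b : F →+* F} {h : W → W → F} {T1 : W → F → W} {T2 : W → F → F} {tb : F → F}

namespace Hyp

variable (D : Hyp b h T1 T2 tb) {A : W →+ W} (hA : ∀ w k, k + b k + h w w = 0 → T1 w k = A w)
include D hA

theorem A_inj {w : W} (h0 : A w = 0) : w = 0 := by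
  obtain ⟨k, hk⟩ := D.exists_InH w
  have h1 := D.h_mem w k hk
  rw [hA w k hk, h0, D.h_zero_left, add_zero] at h1
  obtain ⟨l, hl, hl2⟩ := D.tau_surj h1
  exact (D.h_inj w k 0 l hk (D.InH_zero hl) (by rw [hA w k hk, h0, D.h_X _ hl]) hl2.symm).1

theorem A_ne {w : W} (hw : w ≠ 0) : A w ≠ 0 := fun h0 => hw (D.A_inj hA h0)

theorem N_rel {w : W} {k l : F} (hk : k + b k + h w w = 0) (hk0 : k ≠ 0) (hl : l + b l = 0)
    (hl0 : l ≠ 0) :
    T2 w k ≠ 0 ∧ A ((-(l / k)) • w) = (-(T2 0 l / T2 w k)) • A w ∧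
    (-(l ^ 2 / k)) + b (-(l ^ 2 / k)) + h ((-(l / k)) • w) ((-(l / k)) • w) = 0 ∧
    T2 ((-(l / k)) • w) (-(l ^ 2 / k)) = -((T2 0 l) ^ 2 / T2 w k) := by
  have hkl := D.InH_trans hk hl
  have hl1 : (-l⁻¹) + b (-l⁻¹) = 0 := K0_neg (K0_inv hl)
  have e1 : 1 + (-l⁻¹) * (k + l) = -(k / l) := by field_simp; ring
  have hne : 1 + (-l⁻¹) * (k + l) ≠ 0 := by
    rw [e1]; exact neg_ne_zero.2 (div_ne_zero hk0 hl0)
  have hτ : T2 (0 : W) l ≠ 0 := D.tau_ne_zero hl hl0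
  have htb : tb (-l⁻¹) = -(T2 (0 : W) l)⁻¹ := by
    rw [D.tb_neg (K0_inv hl), D.tb_eq (K0_inv hl) (inv_ne_zero hl0), inv_inv]
  obtain ⟨h1, h2, h3⟩ := D.h_b w (k + l) (-l⁻¹) hkl hl1 hne
  have hM := D.InH_M hkl hl1 hne
  rw [hA _ _ hM, hA _ _ hkl] at h2
  have e2 : (1 + (-l⁻¹) * (k + l))⁻¹ = -(l / k) := by rw [e1]; field_simp
  have e3 : 1 + tb (-l⁻¹) * T2 w (k + l) = -(T2 w k / T2 0 l) := by
    rw [htb, D.T2_trans hk hl]; field_simp; ring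
  rw [e3] at h1 h2 h3
  rw [e2] at h2 h3 hM
  have hψ : T2 w k ≠ 0 := by
    intro h0
    apply h1
    rw [h0, zero_div, neg_zero]
  have e4 : (-(T2 w k / T2 (0 : W) l))⁻¹ = -(T2 (0 : W) l / T2 w k) := by field_simp
  rw [e4] at h2 h3
  have e5 : -(l / k) * (k + l) + l = -(l ^ 2 / k) := by field_simp; ring
  have hM2 := D.InH_trans hM hl
  have h4 := D.T2_trans hM hl
  rw [e5] at hM2 h4
  refine ⟨hψ, h2, hM2, ?_⟩
  rw [h4, h3, D.T2_trans hk hl]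
  field_simp
  ring

theorem N2 (w : W) {l l' : F} (hl : l + b l = 0) (hl0 : l ≠ 0) (hl' : l' + b l' = 0)
    (hl'0 : l' ≠ 0) : A ((l' / l) • w) = (T2 (0 : W) l' / T2 (0 : W) l) • A w := by
  obtain ⟨k, hk0, hk⟩ := D.exists_InH_ne w
  obtain ⟨a1, a2, a3, a4⟩ := D.N_rel hA hk hk0 hl hl0
  have hk2 : -(l ^ 2 / k) ≠ 0 := neg_ne_zero.2 (div_ne_zero (pow_ne_zero 2 hl0) hk0)
  obtain ⟨c1, c2, -, -⟩ := D.N_rel hA a3 hk2 (K0_neg hl') (neg_ne_zero.2 hl'0)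
  rw [smul_smul, a2, smul_smul, a4, D.tau_neg hl'] at c2
  have hτ : T2 (0 : W) l ≠ 0 := D.tau_ne_zero hl hl0
  have e1 : -(-l' / -(l ^ 2 / k)) * -(l / k) = l' / l := by field_simp
  have e2 : -(-T2 (0 : W) l' / -(T2 (0 : W) l ^ 2 / T2 w k)) * -(T2 (0 : W) l / T2 w k)
      = T2 (0 : W) l' / T2 (0 : W) l := by field_simp
  rw [e1, e2] at c2
  exact c2

theorem L56 {w : W} (hw : h w w ≠ 0) {y : F} (hy : b y ≠ y) :
    ∃ l ψ : F, l + b l = 0 ∧ l ≠ 0 ∧ ψ ≠ 0 ∧ A (y • w) = (-(T2 (0 : W) l / ψ)) • A w ∧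
      (l * y) + b (l * y) + h (y • w) (y • w) = 0 ∧
      T2 (y • w) (l * y) = -((T2 (0 : W) l) ^ 2 / ψ) := by
  have hy0 : y ≠ 0 := by
    rintro rfl
    exact hy (map_zero b)
  have hby0 : b y ≠ 0 := by
    intro h0
    apply hy0
    have := congrArg b h0
    rwa [D.bb, map_zero] at this
  have hd : y⁻¹ - (b y)⁻¹ ≠ 0 := by
    intro h0
    apply hy
    exact (inv_injective (sub_eq_zero.1 h0)).symm
  have hbs : b (h w w) = h w w := D.h_conj w w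
  set l := h w w / (y⁻¹ - (b y)⁻¹) with hl_def
  have hl0 : l ≠ 0 := div_ne_zero hw hd
  have hbl : b l = -l := by
    rw [hl_def, map_div₀, hbs, map_sub, map_inv₀, map_inv₀, D.bb, ← neg_sub, div_neg]
  have hl : l + b l = 0 := by rw [hbl]; ring
  have hk0 : -(l / y) ≠ 0 := neg_ne_zero.2 (div_ne_zero hl0 hy0)
  have hk : -(l / y) + b (-(l / y)) + h w w = 0 := by
    rw [map_neg, map_div₀, hbl]
    have : h w w = l * (y⁻¹ - (b y)⁻¹) := by rw [hl_def]; field_simp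
    rw [this]
    field_simp
    ring
  obtain ⟨a1, a2, a3, a4⟩ := D.N_rel hA hk hk0 hl hl0
  have e1 : -(l / -(l / y)) = y := by field_simp
  have e2 : -(l ^ 2 / -(l / y)) = l * y := by field_simp
  rw [e1] at a2 a3 a4
  rw [e2] at a3 a4
  exact ⟨l, _, hl, hl0, a1, a2, a3, a4⟩

theorem line (v : W) (x : F) : ∃ y : F, A (x • v) = y • A v := by
  by_cases hv : h v v = 0
  · obtain ⟨y, hy⟩ := D.h_iso v hv x
    rw [hA v 0 (by rw [hv]; simp), hA (x • v) 0 (by rw [D.h_smul, D.h_smul_right, hv]; simp)] at hy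
    exact ⟨y, hy⟩
  · by_cases hx : b x = x
    · by_cases hx0 : x = 0
      · exact ⟨0, by rw [hx0]; simp⟩
      · obtain ⟨k0, hk0, hk00⟩ := D.exists_k0
        have := D.N2 hA v hk0 hk00 (K0_mul hx hk0) (mul_ne_zero hx0 hk00)
        rw [mul_div_assoc, div_self hk00, mul_one] at this
        exact ⟨_, this⟩
    · obtain ⟨l, ψ, -, -, -, h1, -, -⟩ := D.L56 hA hv hx
      exact ⟨_, h1⟩

end Hyp

end Cfsg.Agent.Lib.Helper74.AutPSU
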