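import Mathlib
import Cfsg.Agent.Lib.Helper74.AutPSUAlgB

set_option autoImplicit false

namespace Cfsg.Agent.Lib.Helper74.AutPSU

variable {F : Type*} [Field F] {W : Type*} [AddCommGroup W] [Module F W]
  {b : F →+* F} {h : W → W → F} {T1 : W → F → W} {T2 : W → F → F} {tb : F → F}

theorem smul_cancel {v : W} (hv : v ≠ 0) {a c : F} (hac : a • v = c • v) : a = c :=
  smul_left_injective F hv hac

namespace Hyp

variable (D : Hyp b h T1 T2 tb) {A : W →+ W} (hA : ∀ w k, k + b k + h w w = 0 → T1 w k = A w)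
include D hA

theorem s_props {w : W} (hw : w ≠ 0) {s : F → F} (hs : ∀ x, A (x • w) = s x • A w) :
    (∀ a c, s (a + c) = s a + s c) ∧ s 1 = 1 ∧ (∀ a, a ≠ 0 → s a ≠ 0) := by
  have hv := D.A_ne hA hw
  refine ⟨?_, ?_, ?_⟩
  · intro a c
    apply smul_cancel hv
    rw [← hs, add_smul, map_add, hs, hs, add_smul]
  · apply smul_cancel hv
    rw [← hs, one_smul, one_smul]
  · intro a ha h0
    have h1 := hs a
    rw [h0, zero_smul] at h1
    exact (smul_ne_zero ha hw) (D.A_inj hA h1)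

theorem s_F0 {w : W} (hw : w ≠ 0) {s : F → F} (hs : ∀ x, A (x • w) = s x • A w)
    {l l' : F} (hl : l + b l = 0) (hl0 : l ≠ 0) (hl' : l' + b l' = 0) (hl'0 : l' ≠ 0) :
    s (l' / l) = T2 (0 : W) l' / T2 (0 : W) l := by
  have h1 := D.N2 hA w hl hl0 hl' hl'0
  rw [hs] at h1
  exact smul_cancel (D.A_ne hA hw) h1

theorem inv_F0 {w : W} (hw : w ≠ 0) {s : F → F} (hs : ∀ x, A (x • w) = s x • A w)
    {z : F} (hz : b z = z) (hz0 : z ≠ 0) : s z⁻¹ = (s z)⁻¹ := by
  obtain ⟨k0, hk0, hk00⟩ := D.exists_k0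
  have h1 := D.s_F0 hA hw hs hk0 hk00 (K0_mul hz hk0) (mul_ne_zero hz0 hk00)
  have h2 := D.s_F0 hA hw hs (K0_mul hz hk0) (mul_ne_zero hz0 hk00) hk0 hk00
  have e1 : z * k0 / k0 = z := by field_simp
  have e2 : k0 / (z * k0) = z⁻¹ := by field_simp
  rw [e1] at h1
  rw [e2] at h2
  rw [h1, h2, inv_div]

theorem inv_nF0 {w : W} (hw : h w w ≠ 0) {s : F → F} (hs : ∀ x, A (x • w) = s x • A w)
    {z : F} (hz : b z ≠ z) : s z⁻¹ = (s z)⁻¹ := by
  have hw0 : w ≠ 0 := by
    rintro rfl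
    exact hw (D.h_zero_left 0)
  have hv := D.A_ne hA hw0
  obtain ⟨hadd, hone, hne⟩ := D.s_props hA hw0 hs
  have hz0 : z ≠ 0 := by
    rintro rfl
    exact hz (map_zero b)
  have hy : b (z - 1) ≠ z - 1 := by
    intro h0
    apply hz
    rw [map_sub, map_one] at h0
    linear_combination h0
  obtain ⟨l, ψ, hl, hl0, hψ, a1, a2, a3⟩ := D.L56 hA hw hy
  set y := z - 1 with hy_def
  have hτ : T2 (0 : W) l ≠ 0 := D.tau_ne_zero hl hl0
  rw [hs] at a1
  have hsy : s y = -(T2 (0 : W) l / ψ) := smul_cancel hv a1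
  have hsz : s z = s y + 1 := by
    have : z = y + 1 := by rw [hy_def]; ring
    rw [this, hadd, hone]
  have c1 := D.InH_trans a2 hl
  have c2 := D.T2_trans a2 hl
  have hk' : l * y + l ≠ 0 := by
    have : l * y + l = l * z := by rw [hy_def]; ring
    rw [this]; exact mul_ne_zero hl0 hz0
  obtain ⟨d1, d2, -, -⟩ := D.N_rel hA c1 hk' hl hl0
  have c3 : T2 (y • w) (l * y + l) = T2 (0 : W) l * s z := by
    rw [c2, a3, hsz, hsy]; field_simp
  rw [c3] at d1 d2
  have hsz0 : s z ≠ 0 := right_ne_zero_of_mul d1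
  rw [smul_smul, hs, hs, smul_smul] at d2
  have d3 := smul_cancel hv d2
  have e1 : -(l / (l * y + l)) * y = z⁻¹ + (-1) := by
    have : l * y + l = l * z := by rw [hy_def]; ring
    rw [this, hy_def]; field_simp; ring
  have hneg1 : s (-1) = -1 := by
    have := hadd 1 (-1)
    have h00 : s 0 = 0 := by
      have := hadd 0 0
      rw [add_zero] at this
      exact left_eq_add.1 this
    rw [add_neg_cancel, h00, hone] at this
    linear_combination -this
  rw [e1, hadd, hneg1] at d3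
  have hsy' : s y = s z - 1 := by rw [hsz]; ring
  rw [hsy'] at d3
  have : s z⁻¹ = 1 + -(T2 (0 : W) l / (T2 (0 : W) l * s z)) * (s z - 1) := by
    linear_combination d3
  rw [this]
  field_simp
  ring

theorem exists_sigma [Finite F] : ∃ σ : F ≃+* F, ∀ (x : F) (w : W), A (x • w) = σ x • A w := by
  obtain ⟨w₀, hw₀⟩ := D.h_ne
  have hw0 : w₀ ≠ 0 := by
    rintro rfl
    exact hw₀ (D.h_zero_left 0)
  have hv := D.A_ne hA hw0
  choose s hs using D.line hA w₀
  obtain ⟨hadd, hone, hne⟩ := D.s_props hA hw0 hs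
  have hinv : ∀ a, a ≠ 0 → s a⁻¹ = (s a)⁻¹ := by
    intro a ha
    by_cases hb : b a = a
    · exact D.inv_F0 hA hw0 hs hb ha
    · exact D.inv_nF0 hA hw₀ hs hb
  have hmul := hua s hadd hone hne hinv
  have hzero : s 0 = 0 := by
    have := hadd 0 0
    rw [add_zero] at this
    exact left_eq_add.1 this
  let σ₀ : F →+* F :=
    { toFun := s
      map_one' := hone
      map_mul' := hmul
      map_zero' := hzero
      map_add' := hadd }
  have hbij : Function.Bijective σ₀ := (Finite.injective_iff_bijective).1 σ₀.injective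
  refine ⟨RingEquiv.ofBijective σ₀ hbij, ?_⟩
  intro x w
  change A (x • w) = s x • A w
  by_cases hdep : ∃ μ : F, w = μ • w₀
  · obtain ⟨μ, rfl⟩ := hdep
    rw [smul_smul, hs, hs, hmul, smul_smul]
  · obtain ⟨y1, hy1⟩ := D.line hA w x
    obtain ⟨y2, hy2⟩ := D.line hA (w₀ + w) x
    rw [smul_add, map_add, map_add, hs, hy1, smul_add] at hy2
    have h1 : (s x - y2) • A w₀ = (y2 - y1) • A w := by
      rw [sub_smul, sub_smul, sub_eq_sub_iff_add_eq_add]
      rw [hy2]; abel
    have h2 : y2 - y1 = 0 := by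
      by_contra hne'
      apply hdep
      obtain ⟨μ, hμ⟩ := hbij.2 ((y2 - y1)⁻¹ * (s x - y2))
      change s μ = _ at hμ
      refine ⟨μ, ?_⟩
      have h3 : A w = A (μ • w₀) := by
        rw [hs, hμ, mul_smul, h1, smul_smul, inv_mul_cancel₀ hne', one_smul]
      have h4 : A (w - μ • w₀) = 0 := by rw [map_sub, h3, sub_self]
      exact sub_eq_zero.1 (D.A_inj hA h4)
    rw [h2, zero_smul] at h1
    have h3 : s x - y2 = 0 := (smul_eq_zero.1 h1).resolve_right hv
    rw [hy1]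
    congr 1
    linear_combination -h2 - h3

end Hyp

end Cfsg.Agent.Lib.Helper74.AutPSU
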