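import Mathlib
import Cfsg.Agent.Lib.Helper74.AutPSUAlgC

set_option autoImplicit false

namespace Cfsg.Agent.Lib.Helper74.AutPSU

variable {F : Type*} [Field F] {W : Type*} [AddCommGroup W] [Module F W]
  {b : F →+* F} {h : W → W → F} {T1 : W → F → W} {T2 : W → F → F} {tb : F → F}

namespace Hyp

variable (D : Hyp b h T1 T2 tb) {A : W →+ W} (hA : ∀ w k, k + b k + h w w = 0 → T1 w k = A w)
  {σ : F ≃+* F} (hσ : ∀ (x : F) (w : W), A (x • w) = σ x • A w) (hσb : ∀ x, σ (b x) = b (σ x))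
include D hA hσ hσb

theorem exists_c : ∃ c : F, c ≠ 0 ∧ b c = c ∧ ∀ l, l + b l = 0 → T2 (0 : W) l = c * σ l := by
  obtain ⟨w₀, hw₀⟩ := D.h_ne
  have hw0 : w₀ ≠ 0 := by
    rintro rfl
    exact hw₀ (D.h_zero_left 0)
  obtain ⟨k0, hk0, hk00⟩ := D.exists_k0
  have hτ : T2 (0 : W) k0 ≠ 0 := D.tau_ne_zero hk0 hk00
  have hσk : σ k0 ≠ 0 := by
    intro h0
    exact hk00 ((map_eq_zero σ).1 h0)
  refine ⟨T2 (0 : W) k0 / σ k0, div_ne_zero hτ hσk, ?_, ?_⟩
  · rw [map_div₀, bK (D.tau_mem hk0), ← hσb, bK hk0, map_neg, neg_div_neg_eq]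
  · intro l hl
    by_cases hl0 : l = 0
    · rw [hl0, D.tau_zero, map_zero, mul_zero]
    · have h1 := D.s_F0 hA hw0 (s := σ) (fun x => hσ x w₀) hk0 hk00 hl hl0
      rw [map_div₀] at h1
      field_simp at h1 ⊢
      linear_combination -h1

variable {c : F} (hc0 : c ≠ 0) (hbc : b c = c) (hc : ∀ l, l + b l = 0 → T2 (0 : W) l = c * σ l)
include hc0 hbc hc

theorem tb_eq_sigma {l : F} (hl : l + b l = 0) : tb l = c⁻¹ * σ l := by
  by_cases hl0 : l = 0
  · rw [hl0, D.tb_zero, map_zero, mul_zero]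
  · rw [D.tb_eq hl hl0, hc _ (K0_inv hl), map_inv₀, mul_inv, inv_inv]

theorem herm_eq (w w' : W) : h (A w) (A w') = c * σ (h w w') := by
  have sym : ∀ w w' : W, h (A w) (A w') - c * σ (h w w') = h (A w') (A w) - c * σ (h w' w) := by
    intro w w'
    obtain ⟨k, hk⟩ := D.exists_InH w
    obtain ⟨k', hk'⟩ := D.exists_InH w'
    have m1 := (D.h_mul w k w' k' hk hk').2
    have m2 := (D.h_mul w' k' w k hk' hk).2
    have hl : (h w w' - h w' w) + b (h w w' - h w' w) = 0 := by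
      rw [map_sub, D.h_conj, D.h_conj]; ring
    have m3 := D.T2_trans (D.InH_mul hk' hk) hl
    have e1 : k' + k - h w w' + (h w w' - h w' w) = k + k' - h w' w := by ring
    rw [e1, m2, add_comm w' w, m1, hc _ hl, map_sub, hA _ _ hk, hA _ _ hk'] at m3
    linear_combination m3
  have fixd : ∀ w w' : W, b (h (A w) (A w') - c * σ (h w w')) = h (A w) (A w') - c * σ (h w w') := by
    intro w w'
    rw [map_sub, D.h_conj, map_mul, hbc, ← hσb, D.h_conj]
    exact sym w' w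
  obtain ⟨x, hx⟩ := D.nt
  have h1 := fixd (σ.symm x • w) w'
  have e1 : h (A (σ.symm x • w)) (A w') - c * σ (h (σ.symm x • w) w')
      = x * (h (A w) (A w') - c * σ (h w w')) := by
    rw [hσ, D.h_smul, D.h_smul, map_mul, RingEquiv.apply_symm_apply]; ring
  rw [e1, map_mul, fixd w w'] at h1
  have h2 : (b x - x) * (h (A w) (A w') - c * σ (h w w')) = 0 := by linear_combination h1
  rcases mul_eq_zero.1 h2 with h3 | h3
  · exact absurd (sub_eq_zero.1 h3) hx
  · exact sub_eq_zero.1 h3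

theorem psi_eq {w : W} {k : F} (hk : k + b k + h w w = 0) : T2 w k = c * σ k := by
  by_cases hw : w = 0
  · subst hw
    rw [D.h_zero_left, add_zero] at hk
    exact hc k hk
  have hv := D.A_ne hA hw
  obtain ⟨l, hl, hl0⟩ := D.exists_k0
  have hσl : σ l ≠ 0 := by
    intro h0
    exact hl0 ((map_eq_zero σ).1 h0)
  have htb := D.tb_eq_sigma hA hσ hσb hc0 hbc hc hl
  by_cases hne : 1 + l * k = 0
  · have hkl : k = -l⁻¹ := by
      field_simp
      linear_combination hne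
    have hkK : k + b k = 0 := by rw [hkl]; exact K0_neg (K0_inv hl)
    have hww : h w w = 0 := by linear_combination hk - hkK
    have h0 : (0 : F) + b 0 + h w w = 0 := by rw [hww]; simp
    obtain ⟨a1, -, a3⟩ := D.h_b w 0 l h0 hl (by simp)
    rw [mul_zero, add_zero, inv_one, one_smul, mul_zero] at a3
    have hψ0 : T2 w 0 = 0 := by
      by_contra hψ
      have e : (1 + tb l * T2 w 0) = 1 := by
        generalize T2 w 0 = t at a1 a3 hψ
        generalize tb l = u at a1 a3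
        have h5 : t * (1 + u * t) = t * 1 := by
          have h6 : t * (1 + u * t) = ((1 + u * t)⁻¹ * t) * (1 + u * t) := by rw [← a3]
          rw [h6, mul_one, mul_comm, ← mul_assoc, mul_inv_cancel₀ a1, one_mul]
        exact mul_left_cancel₀ hψ h5
      have e2 : tb l * T2 w 0 = 0 := by linear_combination e
      rcases mul_eq_zero.1 e2 with h5 | h5
      · rw [htb] at h5
        exact (mul_ne_zero (inv_ne_zero hc0) hσl) h5
      · exact hψ h5
    have := D.T2_trans h0 hkK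
    rw [zero_add, hψ0, zero_add, hc k hkK] at this
    exact this
  · obtain ⟨a1, a2, -⟩ := D.h_b w k l hk hl hne
    rw [hA _ _ (D.InH_M hk hl hne), hA _ _ hk, hσ] at a2
    have a3 := smul_cancel hv a2
    rw [map_inv₀] at a3
    have a4 := inv_injective a3
    rw [map_add, map_one, map_mul, htb] at a4
    have a5 : σ l * (c * σ k) = σ l * T2 w k := by
      field_simp at a4
      linear_combination a4
    exact (mul_left_cancel₀ hσl a5).symm

end Hyp

/-- RUNG ALG -/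
theorem alg {F : Type*} [Field F] [Fintype F] {q : ℕ} (hF : Fintype.card F = q ^ 2)
    {W : Type*} [AddCommGroup W] [Module F W] (h : W → W → F)
    (h_add : ∀ u v w, h (u + v) w = h u w + h v w)
    (h_smul : ∀ (c : F) u w, h (c • u) w = c * h u w)
    (h_conj : ∀ u w, (h u w) ^ q = h w u)
    (T1 : W → F → W) (T2 : W → F → F) (tb : F → F)
    (h_mem : ∀ w k, k + k ^ q + h w w = 0 → T2 w k + (T2 w k) ^ q + h (T1 w k) (T1 w k) = 0)
    (h_mul : ∀ w k w' k', k + k ^ q + h w w = 0 → k' + k' ^ q + h w' w' = 0 →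
        T1 (w + w') (k + k' - h w' w) = T1 w k + T1 w' k' ∧
        T2 (w + w') (k + k' - h w' w) = T2 w k + T2 w' k' - h (T1 w' k') (T1 w k))
    (h_inj : ∀ w k w' k', k + k ^ q + h w w = 0 → k' + k' ^ q + h w' w' = 0 →
        T1 w k = T1 w' k' → T2 w k = T2 w' k' → w = w' ∧ k = k')
    (h_X : ∀ l : F, l + l ^ q = 0 → T1 0 l = 0)
    (tb_mem : ∀ l : F, l + l ^ q = 0 → tb l + (tb l) ^ q = 0)
    (tb_add : ∀ l l' : F, l + l ^ q = 0 → l' + l' ^ q = 0 → tb (l + l') = tb l + tb l')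
    (tb_surj : ∀ m : F, m + m ^ q = 0 → ∃ l : F, l + l ^ q = 0 ∧ tb l = m)
    (h_b : ∀ w k l, k + k ^ q + h w w = 0 → l + l ^ q = 0 → 1 + l * k ≠ 0 →
        1 + tb l * T2 w k ≠ 0 ∧
        T1 ((1 + l * k)⁻¹ • w) ((1 + l * k)⁻¹ * k) = (1 + tb l * T2 w k)⁻¹ • T1 w k ∧
        T2 ((1 + l * k)⁻¹ • w) ((1 + l * k)⁻¹ * k) = (1 + tb l * T2 w k)⁻¹ * T2 w k)
    (h_iso : ∀ w, h w w = 0 → ∀ x : F, ∃ y : F, T1 (x • w) 0 = y • T1 w 0)
    (h_dec : ∀ w, h w w = 0 → w ≠ 0 → ∃ w₁, h w₁ w₁ ≠ 0 ∧ h (w - w₁) (w - w₁) ≠ 0)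
    (h_ne : ∃ w₀, h w₀ w₀ ≠ 0) :
    ∃ (σ : F ≃+* F) (c : F), c ≠ 0 ∧ c ^ q = c ∧
      (∀ w k, k + k ^ q + h w w = 0 → T2 w k = c * σ k) ∧
      (∀ (x : F) w k k', k + k ^ q + h w w = 0 → k' + k' ^ q + h (x • w) (x • w) = 0 →
          T1 (x • w) k' = σ x • T1 w k) ∧
      (∀ w k w' k', k + k ^ q + h w w = 0 → k' + k' ^ q + h w' w' = 0 →
          h (T1 w k) (T1 w' k') = c * σ (h w w')) ∧
      (∀ l : F, l + l ^ q = 0 → tb l = c⁻¹ * σ l) := by
  obtain ⟨p, hp⟩ := CharP.exists F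
  obtain ⟨n, hpp, hn⟩ := FiniteField.card F p
  have : Fact p.Prime := ⟨hpp⟩
  have hq2 : 2 ≤ q := by
    have h1 : 1 < Fintype.card F := Fintype.one_lt_card
    rw [hF] at h1
    by_contra hlt
    have : q ≤ 1 := by omega
    have : q ^ 2 ≤ 1 ^ 2 := Nat.pow_le_pow_left this 2
    omega
  obtain ⟨m, -, hm⟩ := (Nat.dvd_prime_pow hpp).1 (show q ∣ p ^ (n : ℕ) by
    rw [← hn, hF]; exact Dvd.intro_left (q ^ 1) (by ring))
  let b : F →+* F :=
    { toFun := fun x => x ^ q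
      map_one' := one_pow q
      map_mul' := fun x y => mul_pow x y q
      map_zero' := zero_pow (by omega)
      map_add' := fun x y => by rw [hm]; exact add_pow_char_pow x y p m }
  have hb : ∀ x, b x = x ^ q := fun _ => rfl
  have hbb : ∀ x, b (b x) = x := by
    intro x
    rw [hb, hb, ← pow_mul, ← sq, ← hF, FiniteField.pow_card]
  have hnt : ∃ x, b x ≠ x := by
    by_contra hcon
    push Not at hcon
    have h1 : ∀ x : Fˣ, x ^ (q - 1) = 1 := by
      intro x
      have h2 := hcon (x : F)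
      rw [hb] at h2
      have h3 : (x : F) ^ (q - 1) * x = 1 * x := by
        rw [← pow_succ, one_mul, Nat.sub_add_cancel (by omega)]; exact h2
      have h4 := mul_right_cancel₀ x.ne_zero h3
      exact Units.ext (by simpa using h4)
    have h2 := (FiniteField.forall_pow_eq_one_iff F (q - 1)).1 h1
    rw [hF] at h2
    have h3 := Nat.le_of_dvd (by omega) h2
    have h4 : q * 2 ≤ q ^ 2 := by rw [sq]; exact Nat.mul_le_mul_left q hq2
    omega
  have D : Hyp b h T1 T2 tb :=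
    { bb := hbb
      nt := hnt
      h_add := h_add
      h_smul := h_smul
      h_conj := h_conj
      h_mem := h_mem
      h_mul := h_mul
      h_inj := h_inj
      h_X := h_X
      tb_mem := tb_mem
      tb_add := tb_add
      tb_surj := tb_surj
      h_b := h_b
      h_iso := h_iso
      h_ne := h_ne }
  obtain ⟨A, hA⟩ := D.exists_A
  obtain ⟨σ, hσ⟩ := D.exists_sigma hA
  have hσb : ∀ x, σ (b x) = b (σ x) := by
    intro x
    rw [hb, hb, map_pow]
  obtain ⟨c, hc0, hbc, hc⟩ := D.exists_c hA hσ hσb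
  refine ⟨σ, c, hc0, hbc, ?_, ?_, ?_, ?_⟩
  · intro w k hk
    exact D.psi_eq hA hσ hσb hc0 hbc hc hk
  · intro x w k k' hk hk'
    rw [hA _ _ hk, hA _ _ hk', hσ]
  · intro w k w' k' hk hk'
    rw [hA _ _ hk, hA _ _ hk']
    exact D.herm_eq hA hσ hσb hc0 hbc hc w w'
  · intro l hl
    exact D.tb_eq_sigma hA hσ hσb hc0 hbc hc hl

end Cfsg.Agent.Lib.Helper74.AutPSU
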