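import Mathlib
import Cfsg.Prelude
import Cfsg.Agent.S0215

set_option autoImplicit false

/-! An involution commuting with none of its other conjugates lies in `Z*(G)`:
`G = C_G(z) O(G)` (from Glauberman's theorem). -/

namespace Cfsg.Agent.Lib.Helper74.FW

variable {G : Type*} [Group G]

theorem central_of_isolated [Finite G] (z : G)
    (hiso : ∀ g : G, (g * z * g⁻¹) * z = z * (g * z * g⁻¹) → g * z * g⁻¹ = z)
    (P : Sylow 2 G) (hzP : z ∈ (P : Subgroup G)) : ∀ s ∈ (P : Subgroup G), s * z = z * s := by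
  have hnil : Group.IsNilpotent ↥(P : Subgroup G) := P.isPGroup'.isNilpotent
  have hnc := normalizerCondition_of_isNilpotent (G := ↥(P : Subgroup G))
  by_contra hcon
  push_neg at hcon
  obtain ⟨s, hs, hsz⟩ := hcon
  have hlt : Subgroup.centralizer ({(⟨z, hzP⟩ : ↥(P : Subgroup G))} : Set ↥(P : Subgroup G)) < ⊤ := by
    rw [lt_top_iff_ne_top]
    intro h
    have h1 : (⟨s, hs⟩ : ↥(P : Subgroup G)) ∈
        Subgroup.centralizer ({(⟨z, hzP⟩ : ↥(P : Subgroup G))} : Set ↥(P : Subgroup G)) := by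
      rw [h]; trivial
    rw [Subgroup.mem_centralizer_singleton_iff] at h1
    exact hsz (congrArg Subtype.val h1)
  obtain ⟨g, hgN, hgH⟩ := SetLike.exists_of_lt (hnc _ hlt)
  rw [Subgroup.mem_normalizer_iff] at hgN
  have hzH : (⟨z, hzP⟩ : ↥(P : Subgroup G)) ∈
      Subgroup.centralizer ({(⟨z, hzP⟩ : ↥(P : Subgroup G))} : Set ↥(P : Subgroup G)) := by
    rw [Subgroup.mem_centralizer_singleton_iff]
  have h2 := (hgN _).1 hzH
  rw [Subgroup.mem_centralizer_singleton_iff] at h2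
  have h3 : ((g : G) * z * (g : G)⁻¹) * z = z * ((g : G) * z * (g : G)⁻¹) := congrArg Subtype.val h2
  have h4 := hiso g h3
  apply hgH
  rw [Subgroup.mem_centralizer_singleton_iff]
  apply Subtype.ext
  show (g : G) * z = z * (g : G)
  calc (g : G) * z = ((g : G) * z * (g : G)⁻¹) * g := by group
    _ = z * g := by rw [h4]

theorem zstar_of_isolated [Finite G] (z : G) (hz : orderOf z = 2)
    (hiso : ∀ g : G, (g * z * g⁻¹) * z = z * (g * z * g⁻¹) → g * z * g⁻¹ = z) :
    Subgroup.centralizer ({z} : Set G) ⊔ Cfsg.oddCore G = ⊤ := by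
  have zz : z * z = 1 := by rw [← pow_two, ← hz, pow_orderOf_eq_one]
  have zinv : z⁻¹ = z := inv_eq_of_mul_eq_one_left zz
  have hp : IsPGroup 2 (Subgroup.zpowers z) := by
    apply IsPGroup.of_card (n := 1)
    rw [Nat.card_zpowers, hz]; norm_num
  obtain ⟨P, hP⟩ := hp.exists_le_sylow
  have hzP : z ∈ (P : Subgroup G) := hP (Subgroup.mem_zpowers z)
  have hcen := central_of_isolated z hiso P hzP
  obtain ⟨N, hN, hodd, hcomm⟩ := Cfsg.Agent.S0215.result P z hz hzP
    (by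
      intro g hg
      exact hiso g (hcen _ hg))
  have hNle : N ≤ Cfsg.oddCore G := le_sSup ⟨hN, Nat.coprime_two_right.2 hodd⟩
  rw [eq_top_iff]
  intro g _
  obtain ⟨n, hn⟩ : ∃ n, n = g * z * g⁻¹ * z⁻¹ := ⟨_, rfl⟩
  have hnN : n ∈ N := by
    have : n = (z * g * z⁻¹ * g⁻¹)⁻¹ := by rw [hn]; group
    rw [this]; exact N.inv_mem (hcomm g)
  have hnz : n * z = g * z * g⁻¹ := by rw [hn]; group
  have hinv : z * n * z⁻¹ = n⁻¹ := by
    have h1 : (n * z) * (n * z) = 1 := by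
      rw [hnz]
      have : g * z * g⁻¹ * (g * z * g⁻¹) = g * (z * z) * g⁻¹ := by group
      rw [this, zz]; group
    rw [zinv]
    have h2 : n * (z * n * z) = 1 := by rw [← h1]; group
    exact eq_inv_of_mul_eq_one_right h2
  have hoddn : Odd (orderOf n) := Odd.of_dvd_nat hodd (Subgroup.orderOf_dvd_natCard N hnN)
  obtain ⟨j, hj⟩ := hoddn
  obtain ⟨k, hk⟩ : ∃ k, k = n ^ (j + 1) := ⟨_, rfl⟩
  have hkk : k * k = n := by
    rw [hk, ← pow_add, show j + 1 + (j + 1) = (2 * j + 1) + 1 by ring, ← hj, pow_succ,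
      pow_orderOf_eq_one, one_mul]
  have hkN : k ∈ N := by rw [hk]; exact N.pow_mem hnN _
  have hkinv : z * k⁻¹ * z⁻¹ = k := by
    rw [hk, ← inv_pow, ← conj_pow]
    have : z * n⁻¹ * z⁻¹ = (z * n * z⁻¹)⁻¹ := by group
    rw [this, hinv, inv_inv]
  have hconj : k * z * k⁻¹ = g * z * g⁻¹ := by
    calc k * z * k⁻¹ = k * (z * k⁻¹ * z⁻¹) * z := by group
      _ = n * z := by rw [hkinv, hkk]
      _ = _ := hnz
  have hmem : k⁻¹ * g ∈ Subgroup.centralizer ({z} : Set G) := by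
    rw [Subgroup.mem_centralizer_singleton_iff]
    calc k⁻¹ * g * z = k⁻¹ * (g * z * g⁻¹) * g := by group
      _ = k⁻¹ * (k * z * k⁻¹) * g := by rw [hconj]
      _ = _ := by group
  have : g = k * (k⁻¹ * g) := by group
  rw [this]
  exact Subgroup.mul_mem _ (Subgroup.mem_sup_right (hNle hkN)) (Subgroup.mem_sup_left hmem)

end Cfsg.Agent.Lib.Helper74.FW
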