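import Mathlib

set_option autoImplicit false

/-! Abstract configuration: two commuting subgroups `L₁`, `L₂` of `SL₂`-type meeting in `⟨j⟩`, all
involutions of `C_G(j)` lying in `L₁ L₂`. Then `j` commutes with none of its other conjugates. -/

namespace Cfsg.Agent.Lib.Helper74.FW

variable {G : Type*} [Group G]

structure Cfg (L₁ L₂ : Subgroup G) (j : G) : Prop where
  hc : ∀ x ∈ L₁, ∀ y ∈ L₂, x * y = y * x
  j1 : j ≠ 1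
  jj : j * j = 1
  jL₁ : j ∈ L₁
  jL₂ : j ∈ L₂
  meet : ∀ u, u ∈ L₁ → u ∈ L₂ → u = 1 ∨ u = j
  inv₁ : ∀ a ∈ L₁, a * a = 1 → a = 1 ∨ a = j
  inv₂ : ∀ a ∈ L₂, a * a = 1 → a = 1 ∨ a = j
  conj₁ : ∀ a ∈ L₁, ∀ b ∈ L₁, a * a = j → b * b = j → ∃ h ∈ L₁, h * a * h⁻¹ = b
  conj₂ : ∀ a ∈ L₂, ∀ b ∈ L₂, a * a = j → b * b = j → ∃ h ∈ L₂, h * a * h⁻¹ = b
  anti₁ : ∀ a ∈ L₁, ∀ e ∈ L₁, a * a = j → e * a * e⁻¹ = a⁻¹ → e * e = j
  anti₂ : ∀ a ∈ L₂, ∀ e ∈ L₂, a * a = j → e * a * e⁻¹ = a⁻¹ → e * e = j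
  invC : ∀ t, t * t = 1 → t * j = j * t → ∃ a ∈ L₁, ∃ b ∈ L₂, t = a * b

namespace Cfg

variable {L₁ L₂ : Subgroup G} {j : G}

theorem prod_sq (K : Cfg L₁ L₂ j) {a b : G} (ha : a ∈ L₁) (hb : b ∈ L₂) :
    (a * b) * (a * b) = (a * a) * (b * b) := by
  calc (a * b) * (a * b) = a * (b * a) * b := by group
    _ = a * (a * b) * b := by rw [K.hc a ha b hb]
    _ = _ := by group

theorem prod_conj (K : Cfg L₁ L₂ j) {e₁ e₂ a₁ a₂ : G} (he₁ : e₁ ∈ L₁) (he₂ : e₂ ∈ L₂)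
    (ha₁ : a₁ ∈ L₁) (ha₂ : a₂ ∈ L₂) :
    (e₁ * e₂) * (a₁ * a₂) * (e₁ * e₂)⁻¹ = (e₁ * a₁ * e₁⁻¹) * (e₂ * a₂ * e₂⁻¹) := by
  have e1 : e₂ * a₁ = a₁ * e₂ := (K.hc a₁ ha₁ e₂ he₂).symm
  have e2 : e₂⁻¹ * e₁⁻¹ = e₁⁻¹ * e₂⁻¹ := (K.hc _ (L₁.inv_mem he₁) _ (L₂.inv_mem he₂)).symm
  have e3 : (e₂ * a₂) * e₁⁻¹ = e₁⁻¹ * (e₂ * a₂) :=
    (K.hc _ (L₁.inv_mem he₁) _ (L₂.mul_mem he₂ ha₂)).symm
  calc e₁ * e₂ * (a₁ * a₂) * (e₁ * e₂)⁻¹ = e₁ * (e₂ * a₁) * a₂ * (e₂⁻¹ * e₁⁻¹) := by group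
    _ = e₁ * (a₁ * e₂) * a₂ * (e₁⁻¹ * e₂⁻¹) := by rw [e1, e2]
    _ = e₁ * a₁ * ((e₂ * a₂) * e₁⁻¹) * e₂⁻¹ := by group
    _ = e₁ * a₁ * (e₁⁻¹ * (e₂ * a₂)) * e₂⁻¹ := by rw [e3]
    _ = e₁ * a₁ * e₁⁻¹ * (e₂ * a₂ * e₂⁻¹) := by group

theorem comm_j₁ (K : Cfg L₁ L₂ j) {a : G} (ha : a ∈ L₁) : a * j = j * a := K.hc a ha j K.jL₂

theorem comm_j₂ (K : Cfg L₁ L₂ j) {a : G} (ha : a ∈ L₂) : a * j = j * a := (K.hc j K.jL₁ a ha).symm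

theorem jinv (K : Cfg L₁ L₂ j) : j⁻¹ = j := inv_eq_of_mul_eq_one_left K.jj

theorem form (K : Cfg L₁ L₂ j) (t : G) (htt : t * t = 1) (htj : t * j = j * t) (ht1 : t ≠ 1)
    (htne : t ≠ j) : ∃ a ∈ L₁, ∃ b ∈ L₂, t = a * b ∧ a * a = j ∧ b * b = j := by
  obtain ⟨a, ha, b, hb, rfl⟩ := K.invC t htt htj
  have habsq : (a * a) * (b * b) = 1 := by rw [← K.prod_sq ha hb]; exact htt
  have haa : a * a = (b * b)⁻¹ := eq_inv_of_mul_eq_one_left habsq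
  have haaL₂ : a * a ∈ L₂ := by rw [haa]; exact L₂.inv_mem (L₂.mul_mem hb hb)
  have haaL₁ : a * a ∈ L₁ := L₁.mul_mem ha ha
  rcases K.meet (a * a) haaL₁ haaL₂ with h | h
  · exfalso
    have hbb : b * b = 1 := by rw [h, one_mul] at habsq; exact habsq
    rcases K.inv₁ a ha h with rfl | rfl <;> rcases K.inv₂ b hb hbb with rfl | rfl
    · simp at ht1
    · simp at htne
    · simp at htne
    · exact ht1 K.jj
  · refine ⟨a, ha, b, hb, rfl, h, ?_⟩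
    rw [h] at habsq
    calc b * b = (j * j) * (b * b) := by rw [K.jj, one_mul]
      _ = j * (j * (b * b)) := by group
      _ = j := by rw [habsq, mul_one]

theorem isolated [Finite G] (K : Cfg L₁ L₂ j) (g : G)
    (hg : (g * j * g⁻¹) * j = j * (g * j * g⁻¹)) : g * j * g⁻¹ = j := by
  classical
  by_contra hne
  obtain ⟨x, hxdef⟩ : ∃ x, x = g * j * g⁻¹ := ⟨_, rfl⟩
  rw [← hxdef] at hg hne
  have hxx : x * x = 1 := by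
    rw [hxdef]
    calc g * j * g⁻¹ * (g * j * g⁻¹) = g * (j * j) * g⁻¹ := by group
      _ = 1 := by rw [K.jj]; group
  have hx1 : x ≠ 1 := by
    intro h
    apply K.j1
    have : j = g⁻¹ * x * g := by rw [hxdef]; group
    rw [this, h]; group
  obtain ⟨a₁, ha₁, a₂, ha₂, hx, haa₁, haa₂⟩ := K.form x hxx hg hx1 hne
  obtain ⟨y, hydef⟩ : ∃ y, y = g⁻¹ * j * g := ⟨_, rfl⟩
  have hjx : j = g⁻¹ * x * g := by rw [hxdef]; group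
  have hyy : y * y = 1 := by
    rw [hydef]
    calc g⁻¹ * j * g * (g⁻¹ * j * g) = g⁻¹ * (j * j) * g := by group
      _ = 1 := by rw [K.jj]; group
  have hyj : y * j = j * y := by
    calc y * j = (g⁻¹ * j * g) * (g⁻¹ * x * g) := by rw [hydef, ← hjx]
      _ = g⁻¹ * (j * x) * g := by group
      _ = g⁻¹ * (x * j) * g := by rw [hg]
      _ = (g⁻¹ * x * g) * (g⁻¹ * j * g) := by group
      _ = j * y := by rw [hydef, ← hjx]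
  have hy1 : y ≠ 1 := by
    intro h
    apply K.j1
    have : j = g * y * g⁻¹ := by rw [hydef]; group
    rw [this, h]; group
  have hyne : y ≠ j := by
    intro h
    apply hne
    rw [hxdef]
    have h1 : g⁻¹ * j * g = j := by rw [← hydef]; exact h
    calc g * j * g⁻¹ = g * (g⁻¹ * j * g) * g⁻¹ := by rw [h1]
      _ = j := by group
  obtain ⟨b₁, hb₁, b₂, hb₂, hy, hbb₁, hbb₂⟩ := K.form y hyy hyj hy1 hyne
  obtain ⟨l₁, hl₁, hlc₁⟩ := K.conj₁ a₁ ha₁ b₁ hb₁ haa₁ hbb₁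
  obtain ⟨l₂, hl₂, hlc₂⟩ := K.conj₂ a₂ ha₂ b₂ hb₂ haa₂ hbb₂
  obtain ⟨h, hhdef⟩ : ∃ h, h = g * (l₁ * l₂) := ⟨_, rfl⟩
  have hhx : h * x * h⁻¹ = j := by
    have h1 : (l₁ * l₂) * x * (l₁ * l₂)⁻¹ = y := by
      rw [hx, K.prod_conj hl₁ hl₂ ha₁ ha₂, hlc₁, hlc₂, hy]
    calc h * x * h⁻¹ = g * ((l₁ * l₂) * x * (l₁ * l₂)⁻¹) * g⁻¹ := by rw [hhdef]; group
      _ = g * y * g⁻¹ := by rw [h1]
      _ = j := by rw [hydef]; group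
  have hhj : h * j * h⁻¹ = x := by
    have h1 : (l₁ * l₂) * j = j * (l₁ * l₂) := by
      rw [mul_assoc, K.comm_j₂ hl₂, ← mul_assoc, K.comm_j₁ hl₁, mul_assoc]
    calc h * j * h⁻¹ = g * ((l₁ * l₂) * j) * (l₁ * l₂)⁻¹ * g⁻¹ := by rw [hhdef]; group
      _ = g * (j * (l₁ * l₂)) * (l₁ * l₂)⁻¹ * g⁻¹ := by rw [h1]
      _ = g * j * g⁻¹ := by group
      _ = x := hxdef.symm
  -- the subgroup generated by the involutions of `C(j) ∩ C(x)`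
  obtain ⟨D, hDdef⟩ : ∃ D : Subgroup G,
      D = Subgroup.closure {t : G | t * t = 1 ∧ t * j = j * t ∧ t * x = x * t} := ⟨_, rfl⟩
  have hDL : ∀ d ∈ D, ∃ e₁ ∈ L₁, ∃ e₂ ∈ L₂, d = e₁ * e₂ := by
    intro d hd
    rw [hDdef] at hd
    induction hd using Subgroup.closure_induction with
    | mem t ht => exact K.invC t ht.1 ht.2.1
    | one => exact ⟨1, L₁.one_mem, 1, L₂.one_mem, by simp⟩
    | mul p q _ _ hp hq =>
      obtain ⟨p₁, hp₁, p₂, hp₂, rfl⟩ := hp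
      obtain ⟨q₁, hq₁, q₂, hq₂, rfl⟩ := hq
      refine ⟨p₁ * q₁, L₁.mul_mem hp₁ hq₁, p₂ * q₂, L₂.mul_mem hp₂ hq₂, ?_⟩
      calc p₁ * p₂ * (q₁ * q₂) = p₁ * (p₂ * q₁) * q₂ := by group
        _ = p₁ * (q₁ * p₂) * q₂ := by rw [K.hc q₁ hq₁ p₂ hp₂]
        _ = _ := by group
    | inv p _ hp =>
      obtain ⟨p₁, hp₁, p₂, hp₂, rfl⟩ := hp
      refine ⟨p₁⁻¹, L₁.inv_mem hp₁, p₂⁻¹, L₂.inv_mem hp₂, ?_⟩
      rw [mul_inv_rev, K.hc _ (L₁.inv_mem hp₁) _ (L₂.inv_mem hp₂)]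
  have hDx : ∀ d ∈ D, d * x = x * d := by
    intro d hd
    have hle : D ≤ Subgroup.centralizer ({x} : Set G) := by
      rw [hDdef, Subgroup.closure_le]
      intro t ht
      exact Subgroup.mem_centralizer_singleton_iff.2 ht.2.2
    exact Subgroup.mem_centralizer_singleton_iff.1 (hle hd)
  have hDh : ∀ d ∈ D, h * d * h⁻¹ ∈ D := by
    intro d hd
    rw [hDdef] at hd ⊢
    induction hd using Subgroup.closure_induction with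
    | mem t ht =>
      apply Subgroup.subset_closure
      refine ⟨?_, ?_, ?_⟩
      · calc h * t * h⁻¹ * (h * t * h⁻¹) = h * (t * t) * h⁻¹ := by group
          _ = 1 := by rw [ht.1]; group
      · calc h * t * h⁻¹ * j = h * t * h⁻¹ * (h * x * h⁻¹) := by rw [hhx]
          _ = h * (t * x) * h⁻¹ := by group
          _ = h * (x * t) * h⁻¹ := by rw [ht.2.2]
          _ = (h * x * h⁻¹) * (h * t * h⁻¹) := by group
          _ = j * (h * t * h⁻¹) := by rw [hhx]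
      · calc h * t * h⁻¹ * x = h * t * h⁻¹ * (h * j * h⁻¹) := by rw [hhj]
          _ = h * (t * j) * h⁻¹ := by group
          _ = h * (j * t) * h⁻¹ := by rw [ht.2.1]
          _ = (h * j * h⁻¹) * (h * t * h⁻¹) := by group
          _ = x * (h * t * h⁻¹) := by rw [hhj]
    | one => simp
    | mul p q _ _ hp hq =>
      have : h * (p * q) * h⁻¹ = (h * p * h⁻¹) * (h * q * h⁻¹) := by group
      rw [this]; exact Subgroup.mul_mem _ hp hq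
    | inv p _ hp =>
      have : h * p⁻¹ * h⁻¹ = (h * p * h⁻¹)⁻¹ := by group
      rw [this]; exact Subgroup.inv_mem _ hp
  have hainv₁ : a₁⁻¹ = a₁ * j := by
    apply inv_eq_of_mul_eq_one_right
    rw [← mul_assoc, haa₁, K.jj]
  have hainv₂ : a₂⁻¹ = j * a₂ := by
    apply inv_eq_of_mul_eq_one_left
    rw [mul_assoc, haa₂, K.jj]
  have hsplit : ∀ d ∈ D, ∃ e₁ ∈ L₁, ∃ e₂ ∈ L₂, d = e₁ * e₂ ∧
      ((e₁ * a₁ * e₁⁻¹ = a₁ ∧ e₂ * a₂ * e₂⁻¹ = a₂) ∨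
        (e₁ * a₁ * e₁⁻¹ = a₁⁻¹ ∧ e₂ * a₂ * e₂⁻¹ = a₂⁻¹)) := by
    intro d hd
    obtain ⟨e₁, he₁, e₂, he₂, rfl⟩ := hDL d hd
    refine ⟨e₁, he₁, e₂, he₂, rfl, ?_⟩
    have h1 : (e₁ * a₁ * e₁⁻¹) * (e₂ * a₂ * e₂⁻¹) = a₁ * a₂ := by
      rw [← K.prod_conj he₁ he₂ ha₁ ha₂, ← hx, hDx _ hd]; group
    obtain ⟨p, hp⟩ : ∃ p, p = e₁ * a₁ * e₁⁻¹ := ⟨_, rfl⟩
    obtain ⟨q, hq⟩ : ∃ q, q = e₂ * a₂ * e₂⁻¹ := ⟨_, rfl⟩
    have hpL : p ∈ L₁ := by rw [hp]; exact L₁.mul_mem (L₁.mul_mem he₁ ha₁) (L₁.inv_mem he₁)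
    have hqL : q ∈ L₂ := by rw [hq]; exact L₂.mul_mem (L₂.mul_mem he₂ ha₂) (L₂.inv_mem he₂)
    rw [← hp, ← hq] at h1 ⊢
    have h2 : a₁⁻¹ * p = a₂ * q⁻¹ := by
      calc a₁⁻¹ * p = a₁⁻¹ * (p * q) * q⁻¹ := by group
        _ = a₁⁻¹ * (a₁ * a₂) * q⁻¹ := by rw [h1]
        _ = _ := by group
    have hw₁ : a₁⁻¹ * p ∈ L₁ := L₁.mul_mem (L₁.inv_mem ha₁) hpL
    have hw₂ : a₁⁻¹ * p ∈ L₂ := by rw [h2]; exact L₂.mul_mem ha₂ (L₂.inv_mem hqL)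
    rcases K.meet _ hw₁ hw₂ with hw | hw
    · left
      constructor
      · calc p = a₁ * (a₁⁻¹ * p) := by group
          _ = a₁ := by rw [hw, mul_one]
      · rw [h2] at hw
        calc q = (a₂ * q⁻¹)⁻¹ * a₂ := by group
          _ = a₂ := by rw [hw]; simp
    · right
      constructor
      · calc p = a₁ * (a₁⁻¹ * p) := by group
          _ = a₁⁻¹ := by rw [hw, hainv₁]
      · rw [h2] at hw
        calc q = (a₂ * q⁻¹)⁻¹ * a₂ := by group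
          _ = a₂⁻¹ := by rw [hw, K.jinv, hainv₂]
  have hgen : ∀ f₁ ∈ L₁, ∀ f₂ ∈ L₂, f₁ * a₁ * f₁⁻¹ = a₁⁻¹ → f₂ * a₂ * f₂⁻¹ = a₂⁻¹ →
      f₁ * f₂ ∈ D := by
    intro f₁ hf₁ f₂ hf₂ h1 h2
    rw [hDdef]
    apply Subgroup.subset_closure
    refine ⟨?_, ?_, ?_⟩
    · rw [K.prod_sq hf₁ hf₂, K.anti₁ a₁ ha₁ f₁ hf₁ haa₁ h1, K.anti₂ a₂ ha₂ f₂ hf₂ haa₂ h2, K.jj]
    · rw [mul_assoc, K.comm_j₂ hf₂, ← mul_assoc, K.comm_j₁ hf₁, mul_assoc]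
    · have h3 : (f₁ * f₂) * x * (f₁ * f₂)⁻¹ = x := by
        rw [hx, K.prod_conj hf₁ hf₂ ha₁ ha₂, h1, h2, hainv₁, hainv₂]
        calc a₁ * j * (j * a₂) = a₁ * (j * j) * a₂ := by group
          _ = a₁ * a₂ := by rw [K.jj, mul_one]
      calc f₁ * f₂ * x = ((f₁ * f₂) * x * (f₁ * f₂)⁻¹) * (f₁ * f₂) := by group
        _ = x * (f₁ * f₂) := by rw [h3]
  have hinvsq : ∀ a : G, a * a = j → a⁻¹ * a⁻¹ = j := by
    intro a ha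
    rw [← mul_inv_rev, ha, K.jinv]
  obtain ⟨s₁, hs₁, hsc₁⟩ := K.conj₁ a₁ ha₁ a₁⁻¹ (L₁.inv_mem ha₁) haa₁ (hinvsq _ haa₁)
  obtain ⟨s₂, hs₂, hsc₂⟩ := K.conj₂ a₂ ha₂ a₂⁻¹ (L₂.inv_mem ha₂) haa₂ (hinvsq _ haa₂)
  have hsD : s₁ * s₂ ∈ D := hgen s₁ hs₁ s₂ hs₂ hsc₁ hsc₂
  have hcen₁ : ∀ e ∈ L₁, e * a₁ * e⁻¹ = a₁ → e ∈ D := by
    intro e he hea
    have h1 : (e * s₁) * s₂ ∈ D := by
      apply hgen (e * s₁) (L₁.mul_mem he hs₁) s₂ hs₂ _ hsc₂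
      calc e * s₁ * a₁ * (e * s₁)⁻¹ = e * (s₁ * a₁ * s₁⁻¹) * e⁻¹ := by group
        _ = (e * a₁ * e⁻¹)⁻¹ := by rw [hsc₁]; group
        _ = a₁⁻¹ := by rw [hea]
    have h2 : e = ((e * s₁) * s₂) * (s₁ * s₂)⁻¹ := by group
    rw [h2]; exact D.mul_mem h1 (D.inv_mem hsD)
  have hcen₂ : ∀ e ∈ L₂, e * a₂ * e⁻¹ = a₂ → e ∈ D := by
    intro e he hea
    have h1 : s₁ * (e * s₂) ∈ D := by
      apply hgen s₁ hs₁ (e * s₂) (L₂.mul_mem he hs₂) hsc₁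
      calc e * s₂ * a₂ * (e * s₂)⁻¹ = e * (s₂ * a₂ * s₂⁻¹) * e⁻¹ := by group
        _ = (e * a₂ * e⁻¹)⁻¹ := by rw [hsc₂]; group
        _ = a₂⁻¹ := by rw [hea]
    have h2 : e = (s₁ * (e * s₂)) * (s₁ * s₂)⁻¹ := by
      calc e = (e * s₁) * s₁⁻¹ := by group
        _ = (s₁ * e) * s₁⁻¹ := by rw [K.hc s₁ hs₁ e he]
        _ = _ := by group
    rw [h2]; exact D.mul_mem h1 (D.inv_mem hsD)
  -- half the exponent
  have hex : ∃ m : ℕ, 0 < m ∧ ∀ d ∈ D, d ^ (2 * m) = 1 :=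
    ⟨Nat.card G, Nat.card_pos, fun d _ => by rw [mul_comm, pow_mul, pow_card_eq_one', one_pow]⟩
  obtain ⟨m, hmdef⟩ : ∃ m, m = Nat.find hex := ⟨_, rfl⟩
  have hm : 0 < m ∧ ∀ d ∈ D, d ^ (2 * m) = 1 := by rw [hmdef]; exact Nat.find_spec hex
  have hmin : ∀ k, k < m → ¬ (0 < k ∧ ∀ d ∈ D, d ^ (2 * k) = 1) := by
    intro k hk; rw [hmdef] at hk; exact Nat.find_min hex hk
  have ha₁D : a₁ ∈ D := hcen₁ a₁ ha₁ (by group)
  have hjm : j ^ m = 1 := by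
    have := hm.2 a₁ ha₁D
    rwa [pow_mul, pow_two, haa₁] at this
  obtain ⟨m', hm'⟩ : ∃ m', m = 2 * m' := by
    rcases Nat.even_or_odd' m with ⟨k, hk | hk⟩
    · exact ⟨k, hk⟩
    · exfalso
      apply K.j1
      rw [hk, pow_succ, pow_mul, pow_two, K.jj, one_pow, one_mul] at hjm
      exact hjm
  have hkey : ∀ d ∈ D, d ^ m = 1 ∨ d ^ m = j := by
    intro d hd
    obtain ⟨e₁, he₁, e₂, he₂, rfl, hcase | hcase⟩ := hsplit d hd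
    · have h1 : (e₁ ^ m) * (e₁ ^ m) = 1 := by
        rw [← pow_add, ← two_mul]; exact hm.2 _ (hcen₁ e₁ he₁ hcase.1)
      have h2 : (e₂ ^ m) * (e₂ ^ m) = 1 := by
        rw [← pow_add, ← two_mul]; exact hm.2 _ (hcen₂ e₂ he₂ hcase.2)
      have h3 : (e₁ * e₂) ^ m = e₁ ^ m * e₂ ^ m := (show Commute e₁ e₂ from K.hc e₁ he₁ e₂ he₂).mul_pow m
      rw [h3]
      rcases K.inv₁ _ (L₁.pow_mem he₁ m) h1 with h | h <;>
        rcases K.inv₂ _ (L₂.pow_mem he₂ m) h2 with h' | h' <;> rw [h, h']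
      · left; simp
      · right; simp
      · right; simp
      · left; exact K.jj
    · left
      have h1 : (e₁ * e₂) * (e₁ * e₂) = 1 := by
        rw [K.prod_sq he₁ he₂, K.anti₁ a₁ ha₁ e₁ he₁ haa₁ hcase.1,
          K.anti₂ a₂ ha₂ e₂ he₂ haa₂ hcase.2, K.jj]
      rw [hm', pow_mul, pow_two, h1, one_pow]
  obtain ⟨d, hd, hdm⟩ : ∃ d ∈ D, d ^ m ≠ 1 := by
    by_contra hcon
    push_neg at hcon
    apply hmin m' (by have := hm.1; omega)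
    refine ⟨by have := hm.1; omega, ?_⟩
    intro d hd
    rw [← hm']; exact hcon d hd
  have hdj : d ^ m = j := by
    rcases hkey d hd with h' | h'
    · exact absurd h' hdm
    · exact h'
  have hfin : (h * d * h⁻¹) ^ m = x := by rw [conj_pow, hdj, hhj]
  rcases hkey _ (hDh d hd) with h' | h'
  · exact hx1 (hfin ▸ h')
  · exact hne (hfin ▸ h')

end Cfg

end Cfsg.Agent.Lib.Helper74.FW
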