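import Mathlib
import Cfsg.Agent.Lib.Helper59.SL2

set_option autoImplicit false

/-! In `SL₂(F)`, `char F ≠ 2`: an element inverting an element of order four has square `-1`. -/

namespace Cfsg.Agent.Lib.Helper74.FW

open Matrix Cfsg.Agent.Lib.Helper59

variable {F : Type*} [Field F]

theorem sl2_anti (h2 : (2 : F) ≠ 0) (A E : SpecialLinearGroup (Fin 2) F) (hA : A * A = zSL)
    (hE : E * A * E⁻¹ = A⁻¹) : E * E = zSL := by
  have hEA : E * A = A * zSL * E := by
    have h1 : A⁻¹ = A * zSL := by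
      apply inv_eq_of_mul_eq_one_right
      rw [← mul_assoc, hA, zSL_mul_self]
    calc E * A = (E * A * E⁻¹) * E := by group
      _ = A * zSL * E := by rw [hE, h1]
  have hd := sl2_det A
  have hdE := sl2_det E
  have e00 := congrArg (fun A : SpecialLinearGroup (Fin 2) F => A.1 0 0) hA
  have e01 := congrArg (fun A : SpecialLinearGroup (Fin 2) F => A.1 0 1) hA
  have f00 := congrArg (fun A : SpecialLinearGroup (Fin 2) F => A.1 0 0) hEA
  have f01 := congrArg (fun A : SpecialLinearGroup (Fin 2) F => A.1 0 1) hEA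
  have f10 := congrArg (fun A : SpecialLinearGroup (Fin 2) F => A.1 1 0) hEA
  have f11 := congrArg (fun A : SpecialLinearGroup (Fin 2) F => A.1 1 1) hEA
  simp [Matrix.mul_apply, Fin.sum_univ_two, zSL] at e00 e01
  simp [SpecialLinearGroup.coe_mul, coe_zSL, Matrix.mul_apply, Fin.sum_univ_two] at f00 f01 f10 f11
  set a := A.1 0 0
  set b := A.1 0 1
  set c := A.1 1 0
  set d := A.1 1 1
  set p := E.1 0 0
  set q := E.1 0 1
  set r := E.1 1 0
  set s := E.1 1 1
  have hs : a + d = 0 := by linear_combination d * e00 - c * e01 - a * hd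
  have haT : 2 * a * (p + s) = 0 := by linear_combination f00 - f11 + 2 * s * hs
  have hbT : b * (p + s) = 0 := by linear_combination f01 - q * hs
  have hcT : c * (p + s) = 0 := by linear_combination f10 - r * hs
  have hT2 : 2 * (p + s) = 0 := by
    linear_combination 2 * (p + s) * e00 - a * haT - 2 * c * hbT
  have hT : p + s = 0 := by
    rcases mul_eq_zero.mp hT2 with h | h
    · exact absurd h h2
    · exact h
  apply sl2_ext
  · simp [Matrix.mul_apply, Fin.sum_univ_two, zSL]
    linear_combination p * hT - hdE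
  · simp [Matrix.mul_apply, Fin.sum_univ_two, zSL]
    linear_combination q * hT
  · simp [Matrix.mul_apply, Fin.sum_univ_two, zSL]
    linear_combination r * hT
  · simp [Matrix.mul_apply, Fin.sum_univ_two, zSL]
    linear_combination s * hT - hdE

theorem sl2_anti_sub {G : Type*} [Group G] [Fintype F] (hF : Odd (Fintype.card F))
    (L : Subgroup G) (e : ↥L ≃* Matrix.SpecialLinearGroup (Fin 2) F) (j : G) (hj1 : j ≠ 1)
    (hjj : j * j = 1) (hjL : j ∈ L) :
    ∀ a ∈ L, ∀ f ∈ L, a * a = j → f * a * f⁻¹ = a⁻¹ → f * f = j := by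
  have h2 := two_ne_zero_of_odd_card hF
  have hej : e ⟨j, hjL⟩ = zSL := by
    have h1 : e ⟨j, hjL⟩ * e ⟨j, hjL⟩ = 1 := by
      rw [← map_mul]
      have : (⟨j, hjL⟩ : L) * ⟨j, hjL⟩ = 1 := Subtype.ext hjj
      rw [this, map_one]
    rcases sl2_mul_self_eq_one h2 _ h1 with h | h
    · exfalso
      apply hj1
      have : (⟨j, hjL⟩ : L) = 1 := by
        apply e.injective; rw [h, map_one]
      exact congrArg Subtype.val this
    · exact h
  intro a ha f hf haa hfa
  have h1 : e ⟨a, ha⟩ * e ⟨a, ha⟩ = zSL := by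
    rw [← map_mul, ← hej]
    congr 1
    exact Subtype.ext haa
  have h3 : e ⟨f, hf⟩ * e ⟨a, ha⟩ * (e ⟨f, hf⟩)⁻¹ = (e ⟨a, ha⟩)⁻¹ := by
    rw [← map_inv, ← map_inv, ← map_mul, ← map_mul]
    congr 1
    exact Subtype.ext hfa
  have h4 := sl2_anti h2 _ _ h1 h3
  rw [← map_mul, ← hej] at h4
  exact congrArg Subtype.val (e.injective h4)

end Cfsg.Agent.Lib.Helper74.FW
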