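import Mathlib
import Cfsg.Prelude.Def_Solvable

set_option autoImplicit false

/-!
Abstract group theory behind the "failure of local balance" criteria: the `p'`-core of the
centraliser of an automorphism.
-/

namespace Cfsg.Agent.Lib.Helper74.LBal

theorem pPrimeCore_eq_bot_iff {G : Type*} [Group G] (p : ℕ) :
    Cfsg.pPrimeCore p G = ⊥ ↔
      ∀ N : Subgroup G, N.Normal → (Nat.card N).Coprime p → N = ⊥ := by
  unfold Cfsg.pPrimeCore
  rw [sSup_eq_bot]
  constructor
  · intro h N h1 h2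
    exact h N ⟨h1, h2⟩
  · rintro h N ⟨h1, h2⟩
    exact h N h1 h2

theorem pPrimeCore_eq_bot_of_equiv {G H : Type*} [Group G] [Group H] (e : G ≃* H) (p : ℕ)
    (h : Cfsg.pPrimeCore p G = ⊥) : Cfsg.pPrimeCore p H = ⊥ := by
  rw [pPrimeCore_eq_bot_iff] at h ⊢
  intro N hN hc
  have h1 : N.comap e.toMonoidHom = ⊥ := by
    apply h _ (hN.comap _)
    have : Nat.card ↥(N.comap e.toMonoidHom) = Nat.card ↥N :=
      Nat.card_congr (e.toEquiv.subtypeEquiv (fun a => Iff.rfl))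
    rw [this]
    exact hc
  rw [eq_bot_iff]
  intro x hx
  have h2 : e.symm x ∈ N.comap e.toMonoidHom := by
    show e (e.symm x) ∈ N
    rw [e.apply_symm_apply]
    exact hx
  rw [h1, Subgroup.mem_bot] at h2
  rw [Subgroup.mem_bot]
  have := congrArg e h2
  rwa [e.apply_symm_apply, map_one] at this

theorem pPrimeCore_eq_bot_congr {G H : Type*} [Group G] [Group H] (e : G ≃* H) (p : ℕ) :
    Cfsg.pPrimeCore p G = ⊥ ↔ Cfsg.pPrimeCore p H = ⊥ :=
  ⟨pPrimeCore_eq_bot_of_equiv e p, pPrimeCore_eq_bot_of_equiv e.symm p⟩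

section Amb

variable {𝒜 : Type*} [Group 𝒜]

/-- conjugating the pair `(A, x)` -/
noncomputable def centEquiv (A : Subgroup 𝒜) (x b : 𝒜) :
    ↥(A.comap (MulAut.conj b).toMonoidHom ⊓ Subgroup.centralizer {x}) ≃*
      ↥(A ⊓ Subgroup.centralizer {b * x * b⁻¹}) :=
  ((MulAut.conj b).subgroupMap _).trans (MulEquiv.subgroupCongr (by
    ext y
    simp only [Subgroup.mem_map, Subgroup.mem_inf, Subgroup.mem_comap,
      Subgroup.mem_centralizer_singleton_iff]
    constructor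
    · rintro ⟨z, ⟨h1, h2⟩, rfl⟩
      refine ⟨h1, ?_⟩
      show b * z * b⁻¹ * (b * x * b⁻¹) = b * x * b⁻¹ * (b * z * b⁻¹)
      calc b * z * b⁻¹ * (b * x * b⁻¹) = b * (z * x) * b⁻¹ := by group
        _ = b * (x * z) * b⁻¹ := by rw [h2]
        _ = _ := by group
    · rintro ⟨h1, h2⟩
      refine ⟨b⁻¹ * y * b, ⟨?_, ?_⟩, ?_⟩
      · show b * (b⁻¹ * y * b) * b⁻¹ ∈ A
        have : b * (b⁻¹ * y * b) * b⁻¹ = y := by group
        rw [this]
        exact h1
      · calc b⁻¹ * y * b * x = b⁻¹ * (y * (b * x * b⁻¹)) * b := by group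
          _ = b⁻¹ * (b * x * b⁻¹ * y) * b := by rw [h2]
          _ = _ := by group
      · show b * (b⁻¹ * y * b) * b⁻¹ = y
        group))

theorem core_conj (A : Subgroup 𝒜) (x b : 𝒜) (p : ℕ) :
    Cfsg.pPrimeCore p ↥(A ⊓ Subgroup.centralizer {b * x * b⁻¹}) = ⊥ ↔
      Cfsg.pPrimeCore p ↥(A.comap (MulAut.conj b).toMonoidHom ⊓ Subgroup.centralizer {x}) = ⊥ :=
  (pPrimeCore_eq_bot_congr (centEquiv A x b) p).symm

/-- the core lemma: a "simple" subgroup `E` of order divisible by `p`, normalised by `C(x)`,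
whose centraliser has exponent `p`, forces `O_{p'}(C_A(x)) = 1`. -/
theorem core_eq_bot [Finite 𝒜] (A : Subgroup 𝒜) (x : 𝒜) (p : ℕ) [Fact p.Prime] (E : Subgroup 𝒜)
    (hEA : E ≤ A) (hEx : E ≤ Subgroup.centralizer {x})
    (hnorm : ∀ c ∈ Subgroup.centralizer {x}, ∀ e ∈ E, c * e * c⁻¹ ∈ E)
    (hsimp : ∀ M : Subgroup 𝒜, M ≤ E → (∀ e ∈ E, ∀ m ∈ M, e * m * e⁻¹ ∈ M) → M = ⊥ ∨ M = E)
    (hp : p ∣ Nat.card E)
    (hcent : ∀ c ∈ Subgroup.centralizer (E : Set 𝒜), c ^ p = 1) :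
    Cfsg.pPrimeCore p ↥(A ⊓ Subgroup.centralizer {x}) = ⊥ := by
  set C := A ⊓ Subgroup.centralizer {x} with hC
  rw [pPrimeCore_eq_bot_iff]
  intro N hN hcop
  set N' : Subgroup 𝒜 := N.map C.subtype with hN'
  have hcard : Nat.card N' = Nat.card N :=
    Subgroup.card_map_of_injective C.subtype_injective
  have hN'C : N' ≤ C := by
    rintro _ ⟨n, -, rfl⟩
    exact n.2
  have hEC : E ≤ C := le_inf hEA hEx
  have hconj : ∀ c ∈ C, ∀ n ∈ N', c * n * c⁻¹ ∈ N' := by
    rintro c hc _ ⟨n, hn, rfl⟩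
    exact ⟨(⟨c, hc⟩ : C) * n * (⟨c, hc⟩ : C)⁻¹, hN.conj_mem n hn _, rfl⟩
  have hM := hsimp (N' ⊓ E) inf_le_right (fun e he m hm =>
    ⟨hconj e (hEC he) m hm.1, E.mul_mem (E.mul_mem he hm.2) (E.inv_mem he)⟩)
  rcases hM with hM | hM
  · -- `N'` centralises `E`
    have hcen : ∀ n ∈ N', n ∈ Subgroup.centralizer (E : Set 𝒜) := by
      intro n hn
      rw [Subgroup.mem_centralizer_iff]
      intro e he
      have h1 : n * e * n⁻¹ * e⁻¹ ∈ N' ⊓ E := by
        constructor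
        · have : n * e * n⁻¹ * e⁻¹ = n * (e * n⁻¹ * e⁻¹) := by group
          rw [this]
          exact N'.mul_mem hn (hconj e (hEC he) _ (N'.inv_mem hn))
        · exact E.mul_mem (hnorm n (hN'C hn).2 e he) (E.inv_mem he)
      rw [hM, Subgroup.mem_bot] at h1
      have h2 : n * e = e * n := by
        calc n * e = (n * e * n⁻¹ * e⁻¹) * (e * n) := by group
          _ = e * n := by rw [h1, one_mul]
      exact h2.symm
    rw [eq_bot_iff]
    intro n hn
    rw [Subgroup.mem_bot]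
    have hn' : (n : 𝒜) ∈ N' := ⟨n, hn, rfl⟩
    have h1 : (n : 𝒜) ^ p = 1 := hcent _ (hcen _ hn')
    have h2 : (n : 𝒜) ^ Nat.card N' = 1 := by
      have := pow_card_eq_one' (G := N') (x := ⟨n, hn'⟩)
      exact congrArg Subtype.val this
    have h3 : (n : 𝒜) ^ Nat.gcd (Nat.card N') p = 1 := by
      exact pow_gcd_eq_one.2 ⟨h2, h1⟩
    rw [hcard, hcop, pow_one] at h3
    exact Subtype.ext h3
  · exfalso
    have h1 : E ≤ N' := by
      rw [← hM]
      exact inf_le_left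
    have h2 : Nat.card E ∣ Nat.card N' := Subgroup.card_dvd_of_le h1
    have h3 : p ∣ Nat.card N := by
      rw [← hcard]
      exact hp.trans h2
    have h4 : p ∣ Nat.gcd (Nat.card N) p := Nat.dvd_gcd h3 dvd_rfl
    rw [hcop] at h4
    exact (Fact.out : p.Prime).one_lt.ne' (Nat.dvd_one.1 h4)

end Amb

section Aut

variable {K : Type*} [Group K]

theorem conj_conj (c : MulAut K) (k : K) : c * MulAut.conj k * c⁻¹ = MulAut.conj (c k) := by
  ext y
  simp [MulAut.mul_apply, MulAut.conj_apply]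

theorem comm_conj_of_fixed {x : MulAut K} {k : K} (h : x k = k) :
    MulAut.conj k * x = x * MulAut.conj k := by
  have := conj_conj x k
  rw [h] at this
  calc MulAut.conj k * x = (x * MulAut.conj k * x⁻¹) * x := by rw [this]
    _ = x * MulAut.conj k := by group

/-- the fixed points give a normal subgroup of the centraliser -/
theorem core_ne_bot [Finite K]
    (hinj : Function.Injective (MulAut.conj : K →* MulAut K))
    (A : Subgroup (MulAut K)) (hinn : ∀ k, MulAut.conj k ∈ A) (x : MulAut K) (p : ℕ)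
    (hcop : Nat.Coprime p (Nat.card ↥(MonoidHom.eqLocus x.toMonoidHom (MonoidHom.id K))))
    (hne : ∃ k : K, k ≠ 1 ∧ x k = k) :
    Cfsg.pPrimeCore p ↥(A ⊓ Subgroup.centralizer {x}) ≠ ⊥ := by
  intro hbot
  rw [pPrimeCore_eq_bot_iff] at hbot
  let ψ : ↥(MonoidHom.eqLocus x.toMonoidHom (MonoidHom.id K)) →*
      ↥(A ⊓ Subgroup.centralizer {x}) :=
    { toFun := fun k => ⟨MulAut.conj k.1, hinn _,
        Subgroup.mem_centralizer_singleton_iff.2 (comm_conj_of_fixed k.2)⟩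
      map_one' := Subtype.ext (map_one _)
      map_mul' := fun a b => Subtype.ext (map_mul _ _ _) }
  have hnormal : ψ.range.Normal := by
    constructor
    rintro _ ⟨k, rfl⟩ c
    have hc : c.1 * x = x * c.1 := Subgroup.mem_centralizer_singleton_iff.1 c.2.2
    refine ⟨⟨c.1 k.1, ?_⟩, ?_⟩
    · show x (c.1 k.1) = c.1 k.1
      have h1 : x (c.1 k.1) = (x * c.1) k.1 := rfl
      rw [h1, ← hc]
      show c.1 (x k.1) = _
      have h2 : x k.1 = k.1 := k.2
      rw [h2]
    · apply Subtype.ext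
      show MulAut.conj (c.1 k.1) = c.1 * MulAut.conj k.1 * c.1⁻¹
      rw [conj_conj]
  have hcard : (Nat.card ψ.range).Coprime p := by
    have h1 : Nat.card ψ.range ∣ Nat.card ↥(MonoidHom.eqLocus x.toMonoidHom (MonoidHom.id K)) :=
      Subgroup.card_range_dvd ψ
    exact (Nat.Coprime.coprime_dvd_right h1 hcop).symm
  have h := hbot _ hnormal hcard
  obtain ⟨k, hk1, hk⟩ := hne
  have h1 : ψ ⟨k, hk⟩ ∈ ψ.range := ⟨_, rfl⟩
  rw [h, Subgroup.mem_bot] at h1
  have h2 : MulAut.conj k = 1 := congrArg Subtype.val h1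
  apply hk1
  apply hinj
  rw [h2, map_one]

/-- the number of fixed points is a conjugation invariant -/
theorem card_eqLocus_conj (x b : MulAut K) :
    Nat.card ↥(MonoidHom.eqLocus (b * x * b⁻¹).toMonoidHom (MonoidHom.id K)) =
      Nat.card ↥(MonoidHom.eqLocus x.toMonoidHom (MonoidHom.id K)) := by
  apply Nat.card_congr
  refine (b.toEquiv.subtypeEquiv (fun k => ?_)).symm
  show x k = k ↔ (b * x * b⁻¹) (b k) = b k
  have : (b * x * b⁻¹) (b k) = b (x k) := by
    simp [MulAut.mul_apply]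
  rw [this]
  exact ⟨fun h => by rw [h], fun h => b.injective h⟩

end Aut

end Cfsg.Agent.Lib.Helper74.LBal
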