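import Mathlib
import Cfsg.Agent.Lib.Helper59.AutO.Main
import Cfsg.Agent.Lib.Helper49.SimpleOmega
import Cfsg.Agent.Lib.Helper74.LBalCore

set_option autoImplicit false

/-!
The subgroup `E` (image of `Ω(F₀)`) of `Aut(PΩ(F))`, odd dimension.
-/

namespace Cfsg.Agent.Lib.Helper74.LBal

open Matrix QuadraticMap
open Cfsg.Agent.Lib.Helper59.AutO
open Cfsg.Agent.Lib.Helper18 (refl sgn reflSet closure_reflSet_eq_top act)

variable {ι : Type} [Fintype ι] [DecidableEq ι] {F : Type*} [Field F]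
variable (Q : QuadraticForm F (ι → F)) [hS : Std Q]
variable {F₀ : Type*} [Field F₀] (Q₀ : QuadraticForm F₀ (ι → F₀)) [hS₀ : Std Q₀]
variable (j : F₀ →+* F) (hj : (Bm Q₀).map j = Bm Q)

/-- `O(F₀) → Aut(PΩ(F))` -/
noncomputable def tO : ↥(OO Q₀) →* MulAut (Cfsg.POmega F ⇑Q) := (Th Q Q₀ j hj).comp (ofO Q₀)

theorem gmap_ofO (y : ↥(OO Q₀)) :
    gmap Q Q₀ j hj (ofO Q₀ y) = ofO Q (omap Q Q₀ j hj y) := rfl

theorem omap_mem_Omega {y : ↥(OO Q₀)} (hy : y ∈ Cfsg.Omega F₀ ⇑Q₀) :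
    omap Q Q₀ j hj y ∈ Cfsg.Omega F ⇑Q := by
  have h1 : (commutator ↥(OO Q₀)).map (omap Q Q₀ j hj) ≤ commutator ↥(OO Q) := by
    rw [commutator_def, Subgroup.map_commutator, commutator_def]
    exact Subgroup.commutator_mono le_top le_top
  exact h1 ⟨y, hy, rfl⟩

theorem tO_Omega {y : ↥(OO Q₀)} (hy : y ∈ Cfsg.Omega F₀ ⇑Q₀) :
    tO Q Q₀ j hj y = MulAut.conj (pm Q ⟨omap Q Q₀ j hj y, omap_mem_Omega Q Q₀ j hj hy⟩) := by
  show cG Q (gmap Q Q₀ j hj (ofO Q₀ y)) = _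
  rw [gmap_ofO]
  exact cG_ofO Q ⟨_, omap_mem_Omega Q Q₀ j hj hy⟩

theorem omap_injective : Function.Injective (omap Q Q₀ j hj) := by
  intro a b h
  apply Subtype.ext
  apply Units.ext
  have h1 : (omap Q Q₀ j hj a).1.1 = (omap Q Q₀ j hj b).1.1 := by rw [h]
  rw [omap_val, omap_val] at h1
  ext i k
  have h2 := congrFun (congrFun h1 i) k
  exact j.injective h2

/-- the image of `Ω(F₀)` -/
noncomputable def EE : Subgroup (MulAut (Cfsg.POmega F ⇑Q)) :=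
  (Cfsg.Omega F₀ ⇑Q₀).map (tO Q Q₀ j hj)

theorem EE_eq : EE Q Q₀ j hj = ⁅(tO Q Q₀ j hj).range, (tO Q Q₀ j hj).range⁆ := by
  unfold EE
  rw [MonoidHom.range_eq_map, ← Subgroup.map_commutator, ← commutator_def]

theorem EE_le_range : EE Q Q₀ j hj ≤ (tO Q Q₀ j hj).range := by
  rintro _ ⟨y, -, rfl⟩
  exact ⟨y, rfl⟩

theorem EE_le_of_inn (A : Subgroup (MulAut (Cfsg.POmega F ⇑Q)))
    (hinn : ∀ k, MulAut.conj k ∈ A) : EE Q Q₀ j hj ≤ A := by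
  rintro _ ⟨y, hy, rfl⟩
  rw [tO_Omega Q Q₀ j hj hy]
  exact hinn _

section R

variable [Finite F] [hR : Rig Q] [hO : OddDim ι]

theorem range_tO : (tO Q Q₀ j hj).range = (Th Q Q₀ j hj).range := by
  apply le_antisymm
  · rintro _ ⟨y, rfl⟩
    exact ⟨ofO Q₀ y, rfl⟩
  · rintro _ ⟨g, rfl⟩
    refine ⟨prj Q₀ g, ?_⟩
    show Th Q Q₀ j hj (ofO Q₀ (prj Q₀ g)) = Th Q Q₀ j hj g
    conv_rhs => rw [eq_scU_mul_prj Q₀ g, map_mul]
    have h1 : scU Q₀ (dd Q₀ g) ∈ (Th Q Q₀ j hj).ker := by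
      rw [ker_Th]
      exact ⟨_, rfl⟩
    rw [MonoidHom.mem_ker.1 h1, one_mul]

theorem range_tO_eq (σ : F ≃+* F) (hjσ : ∀ x, σ x = x ↔ x ∈ Set.range j) (r : ℕ) (hr0 : 0 < r)
    (hr : orderOf σ = r) :
    (tO Q Q₀ j hj).range = (cG Q).range ⊓ Subgroup.centralizer {fl Q σ} := by
  rw [range_tO, range_Th Q Q₀ j hj σ hjσ r hr0 hr]

theorem EE_norm (hN : (cG Q).range.Normal) (σ : F ≃+* F)
    (hjσ : ∀ x, σ x = x ↔ x ∈ Set.range j) (r : ℕ) (hr0 : 0 < r) (hr : orderOf σ = r) :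
    ∀ c ∈ Subgroup.centralizer {fl Q σ}, ∀ e ∈ EE Q Q₀ j hj, c * e * c⁻¹ ∈ EE Q Q₀ j hj := by
  intro c hc e he
  have hD := range_tO_eq Q Q₀ j hj σ hjσ r hr0 hr
  have h1 : (tO Q Q₀ j hj).range.map (MulAut.conj c).toMonoidHom ≤ (tO Q Q₀ j hj).range := by
    rintro _ ⟨d, hd, rfl⟩
    rw [hD] at hd ⊢
    exact ⟨hN.conj_mem d hd.1 c,
      Subgroup.mul_mem _ (Subgroup.mul_mem _ hc hd.2) (Subgroup.inv_mem _ hc)⟩
  have h2 : (EE Q Q₀ j hj).map (MulAut.conj c).toMonoidHom ≤ EE Q Q₀ j hj := by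
    rw [EE_eq, Subgroup.map_commutator]
    exact Subgroup.commutator_mono h1 h1
  exact h2 ⟨e, he, rfl⟩

theorem EE_le_cent (σ : F ≃+* F)
    (hjσ : ∀ x, σ x = x ↔ x ∈ Set.range j) (r : ℕ) (hr0 : 0 < r) (hr : orderOf σ = r) :
    EE Q Q₀ j hj ≤ Subgroup.centralizer {fl Q σ} := by
  refine (EE_le_range Q Q₀ j hj).trans ?_
  rw [range_tO_eq Q Q₀ j hj σ hjσ r hr0 hr]
  exact inf_le_right

end R

end Cfsg.Agent.Lib.Helper74.LBal
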