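import Mathlib
import Cfsg.Agent.Lib.Helper74.LBalOddA

set_option autoImplicit false

/-!
`E` is simple, of order divisible by `p` as soon as `p` divides the number of fixed points.
-/

namespace Cfsg.Agent.Lib.Helper74.LBal

open Matrix QuadraticMap
open Cfsg.Agent.Lib.Helper59.AutO
open Cfsg.Agent.Lib.Helper18 (refl sgn reflSet closure_reflSet_eq_top act)

variable {ι : Type} [Fintype ι] [DecidableEq ι] {F : Type*} [Field F]
variable (Q : QuadraticForm F (ι → F)) [hS : Std Q]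
variable {F₀ : Type*} [Field F₀] (Q₀ : QuadraticForm F₀ (ι → F₀)) [hS₀ : Std Q₀]
variable (j : F₀ →+* F) (hj : (Bm Q₀).map j = Bm Q)

theorem isSimple_Omega [Fintype F₀] [hR₀ : Rig Q₀] (h7 : 7 ≤ Fintype.card ι) :
    IsSimpleGroup ↥(Cfsg.Omega F₀ ⇑Q₀) := by
  have : IsSimpleGroup (Cfsg.POmega F₀ ⇑Q₀) :=
    Cfsg.Agent.Lib.Helper49.isSimpleGroup_POmega Q₀ hR₀.nondeg h7
  let e : ↥(Cfsg.Omega F₀ ⇑Q₀) ≃* Cfsg.POmega F₀ ⇑Q₀ :=
    MulEquiv.ofBijective (QuotientGroup.mk' _)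
      ⟨fun a b h => pm_inj Q₀ h, QuotientGroup.mk'_surjective _⟩
  exact e.isSimpleGroup

theorem EE_simple [Fintype F₀] [hR₀ : Rig Q₀] (h7 : 7 ≤ Fintype.card ι) :
    ∀ M : Subgroup (MulAut (Cfsg.POmega F ⇑Q)), M ≤ EE Q Q₀ j hj →
      (∀ e ∈ EE Q Q₀ j hj, ∀ m ∈ M, e * m * e⁻¹ ∈ M) → M = ⊥ ∨ M = EE Q Q₀ j hj := by
  intro M hle hM
  have := isSimple_Omega Q₀ h7
  let θ : ↥(Cfsg.Omega F₀ ⇑Q₀) →* MulAut (Cfsg.POmega F ⇑Q) :=
    (tO Q Q₀ j hj).comp (Subgroup.subtype _)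
  have hn : (M.comap θ).Normal := by
    constructor
    intro n hn g
    show θ (g * n * g⁻¹) ∈ M
    rw [map_mul, map_mul, map_inv]
    exact hM (θ g) ⟨g.1, g.2, rfl⟩ _ hn
  rcases hn.eq_bot_or_eq_top with h | h
  · left
    rw [eq_bot_iff]
    intro m hm
    obtain ⟨y, hy, rfl⟩ := hle hm
    have h1 : (⟨y, hy⟩ : ↥(Cfsg.Omega F₀ ⇑Q₀)) ∈ M.comap θ := hm
    rw [h, Subgroup.mem_bot] at h1
    have h2 : y = 1 := congrArg Subtype.val h1
    rw [h2, map_one]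
    exact Subgroup.one_mem _
  · right
    apply le_antisymm hle
    rintro _ ⟨y, hy, rfl⟩
    have h1 : (⟨y, hy⟩ : ↥(Cfsg.Omega F₀ ⇑Q₀)) ∈ M.comap θ := by
      rw [h]
      trivial
    exact h1

theorem sq_mem_Omega [hR₀ : Rig Q₀] (z : ↥(OO Q₀)) : z ^ 2 ∈ Cfsg.Omega F₀ ⇑Q₀ := by
  let sq : ↥(OO Q₀) →* Abelianization ↥(OO Q₀) := (powMonoidHom 2).comp Abelianization.of
  have h : sq = 1 := by
    apply MonoidHom.eq_of_eqOn_dense (closure_reflSet_eq_top Q₀ hS₀.two_ne hR₀.nondeg)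
    rintro _ ⟨v, hv, rfl⟩
    show (Abelianization.of (refl Q₀ v)) ^ 2 = 1
    rw [← map_pow, pow_two, Cfsg.Agent.Lib.Helper18.refl_mul_self, map_one]
  have h1 : (Abelianization.of z) ^ 2 = 1 := DFunLike.congr_fun h z
  rw [← map_pow] at h1
  have h2 : z ^ 2 ∈ (Abelianization.of : ↥(OO Q₀) →* _).ker := h1
  rwa [Abelianization.ker_of] at h2

theorem exists_invol [Fintype F₀] [hR₀ : Rig Q₀] [hO : OddDim ι] :
    ∃ t ∈ Cfsg.Omega F₀ ⇑Q₀, t ≠ 1 ∧ t * t = 1 := by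
  obtain ⟨e, f, hf⟩ := hR₀.frame
  set v := e 0 + f 0 with hv
  set w := e 1 + f 1 with hw
  have hQv : Q₀ v = 1 := by
    rw [hv, QuadraticMap.map_add (⇑Q₀), hf.Qe, hf.Qf, hf.ef]
    simp
  have hQw : Q₀ w = 1 := by
    rw [hw, QuadraticMap.map_add (⇑Q₀), hf.Qe, hf.Qf, hf.ef]
    simp
  have hvw : polar ⇑Q₀ w v = 0 := by
    rw [hv, hw, polar_add_left, polar_add_right, polar_add_right, hf.ee, hf.ff, hf.ef,
      polar_comm, hf.ef]
    simp
  have n1 : (1 : F₀) ≠ 0 := one_ne_zero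
  have hcomm : refl Q₀ w * refl Q₀ v = refl Q₀ v * refl Q₀ w := by
    have h1 := Cfsg.Agent.Lib.Helper18.conj_refl Q₀ (refl Q₀ w) v
    rw [Cfsg.Agent.Lib.Helper18.act_refl_of_polar_eq_zero Q₀ hvw] at h1
    calc refl Q₀ w * refl Q₀ v = (refl Q₀ w * refl Q₀ v * (refl Q₀ w)⁻¹) * refl Q₀ w := by group
      _ = _ := by rw [h1]
  refine ⟨refl Q₀ v * refl Q₀ w, ?_, ?_, ?_⟩
  · apply mem_Omega_of Q₀
    · have h1 := det_refl Q₀ (v := v) (by rw [hQv]; exact n1)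
      have h2 := det_refl Q₀ (v := w) (by rw [hQw]; exact n1)
      have h3 : GeneralLinearGroup.det (refl Q₀ v * refl Q₀ w).1 = 1 := by
        rw [Subgroup.coe_mul, map_mul, h1, h2]
        simp
      exact congrArg Units.val h3
    · rw [map_mul, sgn1_sq Q₀ (by rw [hQv]; exact n1) (by rw [hQv]; exact IsSquare.one),
        sgn1_sq Q₀ (by rw [hQw]; exact n1) (by rw [hQw]; exact IsSquare.one)]
      simp
  · intro h
    have h1 : act (refl Q₀ v * refl Q₀ w) v = -v := by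
      rw [Cfsg.Agent.Lib.Helper18.act_mul, Cfsg.Agent.Lib.Helper18.act_refl_of_polar_eq_zero Q₀ hvw,
        Cfsg.Agent.Lib.Helper18.act_refl_self Q₀ (by rw [hQv]; exact n1)]
    rw [h, Cfsg.Agent.Lib.Helper18.act_one] at h1
    have h2 : (2 : F₀) • v = 0 := by
      rw [two_smul]
      nth_rewrite 1 [h1]
      simp
    have h3 : v = 0 := by
      rcases smul_eq_zero.1 h2 with h | h
      · exact absurd h hS₀.two_ne
      · exact h
    rw [h3, QuadraticMap.map_zero] at hQv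
    exact n1 hQv.symm
  · calc refl Q₀ v * refl Q₀ w * (refl Q₀ v * refl Q₀ w)
        = refl Q₀ v * (refl Q₀ w * refl Q₀ v) * refl Q₀ w := by group
      _ = refl Q₀ v * (refl Q₀ v * refl Q₀ w) * refl Q₀ w := by rw [hcomm]
      _ = (refl Q₀ v * refl Q₀ v) * (refl Q₀ w * refl Q₀ w) := by group
      _ = 1 := by
        rw [Cfsg.Agent.Lib.Helper18.refl_mul_self, Cfsg.Agent.Lib.Helper18.refl_mul_self, one_mul]

section R

variable [Fintype F] [hR : Rig Q] [hO : OddDim ι]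

theorem eq_one_of_tO {y : ↥(OO Q₀)} (hy : y ∈ Cfsg.Omega F₀ ⇑Q₀) (h : tO Q Q₀ j hj y = 1) :
    y = 1 := by
  rw [tO_Omega Q Q₀ j hj hy] at h
  have h1 := conj_injective Q (h.trans (map_one _).symm)
  have h2 : (⟨omap Q Q₀ j hj y, omap_mem_Omega Q Q₀ j hj hy⟩ : ↥(Cfsg.Omega F ⇑Q)) = 1 :=
    pm_inj Q h1
  have h3 : omap Q Q₀ j hj y = 1 := congrArg Subtype.val h2
  exact omap_injective Q Q₀ j hj (h3.trans (map_one _).symm)

theorem dvd_card_EE [Fintype F₀] [hR₀ : Rig Q₀] (σ : F ≃+* F)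
    (hjσ : ∀ x, σ x = x ↔ x ∈ Set.range j) (p : ℕ) [hp : Fact p.Prime] (hr : orderOf σ = p)
    (hdvd : p ∣ Nat.card ↥(MonoidHom.eqLocus (fl Q σ).toMonoidHom
      (MonoidHom.id (Cfsg.POmega F ⇑Q)))) :
    p ∣ Nat.card ↥(EE Q Q₀ j hj) := by
  have key : ∀ a ∈ EE Q Q₀ j hj, orderOf a = p → p ∣ Nat.card ↥(EE Q Q₀ j hj) := by
    intro a ha h
    have h1 := orderOf_dvd_natCard (⟨a, ha⟩ : ↥(EE Q Q₀ j hj))
    rwa [Subgroup.orderOf_mk, h] at h1
  by_cases h2 : p = 2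
  · obtain ⟨t, ht, ht1, ht2⟩ := exists_invol Q₀
    apply key (tO Q Q₀ j hj t) ⟨t, ht, rfl⟩
    rw [h2]
    apply orderOf_eq_prime
    · rw [← map_pow, pow_two, ht2, map_one]
    · intro h
      exact ht1 (eq_one_of_tO Q Q₀ j hj ht h)
  · obtain ⟨k, hk⟩ := exists_prime_orderOf_dvd_card' (G := ↥(MonoidHom.eqLocus
      (fl Q σ).toMonoidHom (MonoidHom.id (Cfsg.POmega F ⇑Q)))) p hdvd
    have hk1 : orderOf k.1 = p := by rw [← hk, Subgroup.orderOf_coe]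
    have hk2 : orderOf (MulAut.conj k.1) = p := by
      rw [orderOf_injective _ (conj_injective Q), hk1]
    have hfix : fl Q σ k.1 = k.1 := k.2
    have hmem : MulAut.conj k.1 ∈ (tO Q Q₀ j hj).range := by
      rw [range_tO_eq Q Q₀ j hj σ hjσ p hp.out.pos hr]
      refine ⟨?_, Subgroup.mem_centralizer_singleton_iff.2 (comm_conj_of_fixed hfix)⟩
      obtain ⟨y, hy⟩ := pm_surjective Q k.1
      rw [← hy, ← cG_ofO]
      exact ⟨_, rfl⟩
    obtain ⟨z, hz⟩ := hmem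
    apply key ((MulAut.conj k.1) ^ 2)
    · rw [← hz, ← map_pow]
      exact ⟨_, sq_mem_Omega Q₀ z, rfl⟩
    · have hc : Nat.Coprime (orderOf (MulAut.conj k.1)) 2 := by
        rw [hk2]
        exact (Nat.coprime_primes hp.out Nat.prime_two).2 h2
      rw [hc.orderOf_pow, hk2]

end R

end Cfsg.Agent.Lib.Helper74.LBal
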