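import Mathlib
import Cfsg.Agent.Lib.Helper74.LBalOddB

set_option autoImplicit false

/-!
The centraliser of `E` in `Aut(PΩ(F))`.
-/

namespace Cfsg.Agent.Lib.Helper74.LBal

open Matrix QuadraticMap
open Cfsg.Agent.Lib.Helper59.AutO

/-- Galois theory: an automorphism fixing the fixed field of `σ` is a power of `σ` -/
theorem pow_eq_one_of_fixes {F : Type*} [Field F] [Finite F] (σ τ : F ≃+* F) (p : ℕ)
    (hσ : σ ^ p = 1) (h : ∀ x, σ x = x → τ x = x) : τ ^ p = 1 := by
  obtain ⟨r, hr⟩ := CharP.exists F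
  have hrp : Fact r.Prime := ⟨CharP.char_is_prime F r⟩
  let _ : Algebra (ZMod r) F := ZMod.algebra F r
  have hfd : FiniteDimensional (ZMod r) F := Module.Finite.of_finite
  set σ' := (galEquiv (F := F) r).symm σ with hσ'
  set τ' := (galEquiv (F := F) r).symm τ with hτ'
  have e1 : ∀ x, σ' x = σ x := by
    intro x
    have : galEquiv (F := F) r σ' = σ := (galEquiv (F := F) r).apply_symm_apply σ
    conv_rhs => rw [← this]
    rfl
  have e2 : ∀ x, τ' x = τ x := by
    intro x
    have : galEquiv (F := F) r τ' = τ := (galEquiv (F := F) r).apply_symm_apply τ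
    conv_rhs => rw [← this]
    rfl
  have h1 : τ' ∈ (IntermediateField.fixedField (Subgroup.zpowers σ')).fixingSubgroup := by
    rw [IntermediateField.mem_fixingSubgroup_iff]
    intro x hx
    rw [e2]
    apply h
    rw [← e1]
    exact hx ⟨σ', Subgroup.mem_zpowers σ'⟩
  rw [IntermediateField.fixingSubgroup_fixedField] at h1
  obtain ⟨k, hk⟩ := Subgroup.mem_zpowers_iff.1 h1
  have h2 : σ' ^ p = 1 := by
    rw [hσ', ← map_pow, hσ, map_one]
  have h3 : τ' ^ p = 1 := by
    rw [← hk, ← zpow_natCast, ← _root_.zpow_mul, mul_comm, _root_.zpow_mul, zpow_natCast, h2, _root_.one_zpow]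
  have h4 : (galEquiv (F := F) r) (τ' ^ p) = τ ^ p := by
    rw [map_pow, hτ', MulEquiv.apply_symm_apply]
  rw [← h4, h3, map_one]

variable {ι : Type} [Fintype ι] [DecidableEq ι] {F : Type*} [Field F]
variable {F₀ : Type*} [Field F₀] (Q₀ : QuadraticForm F₀ (ι → F₀)) [hS₀ : Std Q₀]
variable (j : F₀ →+* F)

/-- a semilinear map commuting with `Ω(F₀)` is a scalar times a field automorphism over `F₀` -/
theorem semilin_rigid [Finite F₀] [hR₀ : Rig Q₀] (M : Matrix ι ι F) (hM : M ≠ 0) (τ : F ≃+* F)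
    (hcomm : ∀ y : ↥(Cfsg.Omega F₀ ⇑Q₀),
      M * (y.1.1.1.map j).map τ = y.1.1.1.map j * M) :
    (∃ c : F, M = c • (1 : Matrix ι ι F)) ∧ ∀ a, τ (j a) = j a := by
  let _ : Algebra F₀ F := j.toAlgebra
  have hsm : ∀ (a : F₀) (z : F), j a * z = a • z := fun a z => (Algebra.smul_def a z).symm
  let T : (ι → F₀) → (ι → F) := fun v => M *ᵥ (fun k => τ (j (v k)))
  have hT0 : T 0 = 0 := by
    show M *ᵥ (fun k => τ (j ((0 : ι → F₀) k))) = 0
    have : (fun k => τ (j ((0 : ι → F₀) k))) = (0 : ι → F) := by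
      funext k
      simp
    rw [this, Matrix.mulVec_zero]
  have hTadd : ∀ u v, T (u + v) = T u + T v := by
    intro u v
    show M *ᵥ (fun k => τ (j ((u + v) k))) = _
    have : (fun k => τ (j ((u + v) k))) = (fun k => τ (j (u k))) + (fun k => τ (j (v k))) := by
      funext k
      simp
    rw [this, Matrix.mulVec_add]
  have hTc : ∀ (y : ↥(Cfsg.Omega F₀ ⇑Q₀)) (v : ι → F₀),
      T (y.1.1.1 *ᵥ v) = y.1.1.1.map j *ᵥ T v := by
    intro y v
    show M *ᵥ (fun k => τ (j ((y.1.1.1 *ᵥ v) k))) = y.1.1.1.map j *ᵥ (M *ᵥ _)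
    have : (fun k => τ (j ((y.1.1.1 *ᵥ v) k))) =
        ((y.1.1.1.map j).map τ) *ᵥ (fun k => τ (j (v k))) := by
      funext k
      rw [RingHom.map_mulVec j]
      have := RingHom.map_mulVec (τ : F →+* F) (y.1.1.1.map j) (j ∘ v) k
      exact this
    rw [this, Matrix.mulVec_mulVec, hcomm, Matrix.mulVec_mulVec]
  have key : ∀ lam : Module.Dual F₀ F, ∃ l : F₀, ∀ v i, lam (T v i) = l * v i := by
    intro lam
    let Tl : (ι → F₀) →+ (ι → F₀) :=
      { toFun := fun v i => lam (T v i)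
        map_zero' := by
          funext i
          simp [hT0]
        map_add' := by
          intro u v
          funext i
          simp [hTadd] }
    have hTl : ∀ (x : ↥(Cfsg.Omega F₀ ⇑Q₀)) (v : ι → F₀),
        Tl (x.1.1.1 *ᵥ v) = x.1.1.1 *ᵥ Tl v := by
      intro x v
      funext i
      show lam (T (x.1.1.1 *ᵥ v) i) = ∑ k, x.1.1.1 i k * lam (T v k)
      rw [hTc]
      show lam (∑ k, j (x.1.1.1 i k) * T v k) = _
      rw [map_sum]
      apply Finset.sum_congr rfl
      intro k _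
      rw [hsm, map_smul, smul_eq_mul]
    obtain ⟨l, hl⟩ := rigid_mat Q₀ Tl hTl
    refine ⟨l, fun v i => ?_⟩
    have := congrFun (hl v) i
    exact this
  obtain ⟨i₀⟩ := hS₀.ne
  set c : F := T (Pi.single i₀ 1) i₀ with hc
  have main : ∀ v i, T v i = c * j (v i) := by
    intro v i
    rw [← sub_eq_zero, ← Module.forall_dual_apply_eq_zero_iff F₀]
    intro lam
    obtain ⟨l, hl⟩ := key lam
    rw [map_sub, hl, mul_comm c, hsm, map_smul, hc, hl]
    simp
    ring
  have hsingle : ∀ (k : ι) (a : F₀), (fun i => τ (j ((Pi.single k a : ι → F₀) i))) =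
      (Pi.single k (τ (j a)) : ι → F) := by
    intro k a
    funext i
    by_cases h : i = k
    · subst h
      simp
    · simp [Pi.single_eq_of_ne h]
  have hMc : M = c • (1 : Matrix ι ι F) := by
    ext i k
    have h1 := main (Pi.single k 1) i
    have h2 : T (Pi.single k 1) i = M i k := by
      show (M *ᵥ (fun i => τ (j ((Pi.single k 1 : ι → F₀) i)))) i = _
      rw [hsingle]
      simp
    rw [h2] at h1
    rw [h1, Matrix.smul_apply, Matrix.one_apply, smul_eq_mul]
    by_cases h : i = k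
    · subst h
      simp
    · simp [h]
  refine ⟨⟨c, hMc⟩, fun a => ?_⟩
  have hc0 : c ≠ 0 := by
    intro h0
    apply hM
    rw [hMc, h0, zero_smul]
  have h1 := main (Pi.single i₀ a) i₀
  have h2 : T (Pi.single i₀ a) i₀ = c * τ (j a) := by
    show (M *ᵥ (fun i => τ (j ((Pi.single i₀ a : ι → F₀) i)))) i₀ = _
    rw [hsingle, hMc]
    simp
  rw [h2, Pi.single_eq_same] at h1
  exact mul_left_cancel₀ hc0 h1

end Cfsg.Agent.Lib.Helper74.LBal
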