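import Mathlib
import Cfsg.Agent.Lib.Helper74.LBalOddC

set_option autoImplicit false

/-!
Failure of local balance for `Ω_{2m+1}(F)`: assembly.
-/

namespace Cfsg.Agent.Lib.Helper74.LBal

open Matrix QuadraticMap
open Cfsg.Agent.Lib.Helper59.AutO

variable {ι : Type} [Fintype ι] [DecidableEq ι] {F : Type*} [Field F]
variable (Q : QuadraticForm F (ι → F)) [hS : Std Q]

theorem isField_fl (σ : F ≃+* F) : Cfsg.IsFieldAutPOmegaOf ⇑Q σ (fl Q σ) := by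
  intro s s' h
  show pm Q (resC (fldI Q σ) s) = pm Q s'
  congr 1
  exact Subtype.ext (Subtype.ext (Units.ext h.symm))

/-- an automorphism of prime order which is not induced by a similarity is conjugate to a
standard field automorphism -/
theorem exists_std_form [Finite F] [OddDim ι] [Rig Q] (hAut : Cfsg.gammaPOmega F ⇑Q = ⊤)
    (p : ℕ) [hp : Fact p.Prime] (x : MulAut (Cfsg.POmega F ⇑Q)) (hord : orderOf x = p)
    (hnot : ¬ Cfsg.IsSimilarityInducedAutPOmega ⇑Q x) :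
    ∃ (b : ↥(GO Q)) (σ : F ≃+* F), orderOf σ = p ∧ x = cG Q b * fl Q σ * (cG Q b)⁻¹ := by
  obtain ⟨g, σ, rfl⟩ := exists_of_gamma Q hAut x
  have hσ1 : σ ≠ 1 := by
    rintro rfl
    apply hnot
    exact ⟨g.1, g.2, isInduced_cG_fl Q g 1⟩
  have hpow : (cG Q g * fl Q σ) ^ p = 1 := by
    rw [← hord]
    exact pow_orderOf_eq_one _
  have hσp : σ ^ p = 1 := by
    have h1 := hpow
    rw [pow_cG_fl] at h1
    exact (rigid Q _ _ h1).1
  have hσo : orderOf σ = p := orderOf_eq_prime hσp hσ1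
  obtain ⟨b, hb⟩ := field_core Q g σ p hp.out.pos hσo hpow
  exact ⟨b, σ, hσo, hb⟩

variable {F₀ : Type*} [Field F₀] (Q₀ : QuadraticForm F₀ (ι → F₀)) [hS₀ : Std Q₀]
variable (j : F₀ →+* F) (hj : (Bm Q₀).map j = Bm Q)
variable [Fintype F] [Fintype F₀] [hR : Rig Q] [hR₀ : Rig Q₀] [hO : OddDim ι]

theorem cent_EE (hAut : Cfsg.gammaPOmega F ⇑Q = ⊤) (σ : F ≃+* F)
    (hjσ : ∀ x, σ x = x ↔ x ∈ Set.range j) (p : ℕ) (hσ : σ ^ p = 1) :
    ∀ c ∈ Subgroup.centralizer (EE Q Q₀ j hj : Set (MulAut (Cfsg.POmega F ⇑Q))), c ^ p = 1 := by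
  intro c hc
  obtain ⟨g, τ, rfl⟩ := exists_of_gamma Q hAut c
  have hcomm : ∀ y : ↥(Cfsg.Omega F₀ ⇑Q₀),
      g.1.1 * (y.1.1.1.map j).map τ = y.1.1.1.map j * g.1.1 := by
    intro y
    have h1 := (Subgroup.mem_centralizer_iff.1 hc) (tO Q Q₀ j hj y.1) ⟨y.1, y.2, rfl⟩
    rw [tO_Omega Q Q₀ j hj y.2] at h1
    set w : ↥(Cfsg.Omega F ⇑Q) := ⟨omap Q Q₀ j hj y.1, omap_mem_Omega Q Q₀ j hj y.2⟩ with hw
    have h2 : MulAut.conj ((cG Q g * fl Q τ) (pm Q w)) = MulAut.conj (pm Q w) := by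
      rw [← conj_conj, ← h1]
      group
    have h3 : (cG Q g * fl Q τ) (pm Q w) = pm Q w := conj_injective Q h2
    have h4 : resC (cI Q g) (resC (fldI Q τ) w) = w := pm_inj Q h3
    have h5 : cI Q g (fldI Q τ w.1) = w.1 := congrArg Subtype.val h4
    have h6 := cI_mul Q g (fldI Q τ w.1)
    rw [h5] at h6
    exact h6.symm
  have hg0 : g.1.1 ≠ 0 := by
    intro h0
    have h1 := det_GL_ne_zero g.1
    obtain ⟨i₀⟩ := hS.ne
    have : Nonempty ι := ⟨i₀⟩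
    rw [h0, Matrix.det_zero] at h1
    exact h1 rfl
  obtain ⟨⟨c, hgc⟩, hτ⟩ := semilin_rigid Q₀ j g.1.1 hg0 τ hcomm
  rw [cG_eq_one_of_smul Q hgc, one_mul, ← map_pow,
    pow_eq_one_of_fixes σ τ p hσ (fun x hx => by
      obtain ⟨a, rfl⟩ := (hjσ x).1 hx
      exact hτ a), map_one]

include hj in
theorem main_fl (h7 : 7 ≤ Fintype.card ι) (hAut : Cfsg.gammaPOmega F ⇑Q = ⊤) (σ : F ≃+* F)
    (hjσ : ∀ x, σ x = x ↔ x ∈ Set.range j) (p : ℕ) [hp : Fact p.Prime] (hσ : orderOf σ = p)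
    (A : Subgroup (MulAut (Cfsg.POmega F ⇑Q))) (hinn : ∀ k, MulAut.conj k ∈ A) :
    Cfsg.pPrimeCore p ↥(A ⊓ Subgroup.centralizer {fl Q σ}) ≠ ⊥ ↔
      Nat.Coprime p (Nat.card ↥(MonoidHom.eqLocus (fl Q σ).toMonoidHom
        (MonoidHom.id (Cfsg.POmega F ⇑Q)))) := by
  have hfin : Finite (Cfsg.POmega F ⇑Q) := inferInstance
  have hfinA : Finite (MulAut (Cfsg.POmega F ⇑Q)) := inferInstance
  constructor
  · intro h
    by_contra hc
    apply h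
    have hdvd : p ∣ Nat.card ↥(MonoidHom.eqLocus (fl Q σ).toMonoidHom
        (MonoidHom.id (Cfsg.POmega F ⇑Q))) := by
      by_contra hnd
      exact hc ((Nat.Prime.coprime_iff_not_dvd hp.out).2 hnd)
    exact core_eq_bot A (fl Q σ) p (EE Q Q₀ j hj) (EE_le_of_inn Q Q₀ j hj A hinn)
      (EE_le_cent Q Q₀ j hj σ hjσ p hp.out.pos hσ)
      (EE_norm Q Q₀ j hj (normal_of_gamma Q hAut) σ hjσ p hp.out.pos hσ)
      (EE_simple Q Q₀ j hj h7)
      (dvd_card_EE Q Q₀ j hj σ hjσ p hσ hdvd)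
      (cent_EE Q Q₀ j hj hAut σ hjσ p (by rw [← hσ]; exact pow_orderOf_eq_one σ))
  · intro hc
    apply core_ne_bot (conj_injective Q) A hinn (fl Q σ) p hc
    obtain ⟨t, ht, ht1, -⟩ := exists_invol Q₀
    refine ⟨pm Q ⟨omap Q Q₀ j hj t, omap_mem_Omega Q Q₀ j hj ht⟩, ?_, ?_⟩
    · intro h
      apply ht1
      apply eq_one_of_tO Q Q₀ j hj ht
      rw [tO_Omega Q Q₀ j hj ht, h, map_one]
    · have h1 : tO Q Q₀ j hj t ∈ Subgroup.centralizer {fl Q σ} :=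
        EE_le_cent Q Q₀ j hj σ hjσ p hp.out.pos hσ ⟨t, ht, rfl⟩
      rw [tO_Omega Q Q₀ j hj ht, Subgroup.mem_centralizer_singleton_iff] at h1
      apply conj_injective Q
      rw [← conj_conj, ← h1]
      group

include hj in
theorem main_conj (h7 : 7 ≤ Fintype.card ι) (hAut : Cfsg.gammaPOmega F ⇑Q = ⊤) (σ : F ≃+* F)
    (hjσ : ∀ x, σ x = x ↔ x ∈ Set.range j) (p : ℕ) [hp : Fact p.Prime] (hσ : orderOf σ = p)
    (A : Subgroup (MulAut (Cfsg.POmega F ⇑Q))) (hinn : ∀ k, MulAut.conj k ∈ A)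
    (b : MulAut (Cfsg.POmega F ⇑Q)) :
    Cfsg.pPrimeCore p ↥(A ⊓ Subgroup.centralizer {b * fl Q σ * b⁻¹}) ≠ ⊥ ↔
      (Cfsg.IsFieldAutClassPOmega ⇑Q (b * fl Q σ * b⁻¹) ∧
        Nat.Coprime p (Nat.card ↥(MonoidHom.eqLocus (b * fl Q σ * b⁻¹).toMonoidHom
          (MonoidHom.id (Cfsg.POmega F ⇑Q))))) := by
  have hcls : Cfsg.IsFieldAutClassPOmega ⇑Q (b * fl Q σ * b⁻¹) := by
    refine ⟨b⁻¹, fl Q σ, σ, ?_, isField_fl Q σ, by group⟩
    intro h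
    have h1 : σ = 1 := h
    rw [h1, orderOf_one] at hσ
    exact hp.out.one_lt.ne hσ
  rw [card_eqLocus_conj, Ne, core_conj, and_iff_right hcls]
  apply main_fl Q Q₀ j hj h7 hAut σ hjσ p hσ
  intro k
  show b * MulAut.conj k * b⁻¹ ∈ A
  rw [conj_conj]
  exact hinn _

end Cfsg.Agent.Lib.Helper74.LBal
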