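import Mathlib
import Cfsg.Agent.Lib.Helper74.LBalOddD

set_option autoImplicit false

/-!
Failure of local balance for `Ω_{2m+1}(F)`: the standard form.
-/

namespace Cfsg.Agent.Lib.Helper74.LBal

open Matrix QuadraticMap
open Cfsg.Agent.Lib.Helper59.AutO Cfsg.Agent.Lib.Helper49

theorem main_odd {F : Type*} [Field F] [Fintype F] (h2 : (2 : F) ≠ 0) {m : ℕ} (hm : 3 ≤ m)
    (hAut : Cfsg.gammaPOmega F ⇑(oddQF m F) = ⊤)
    (A : Subgroup (MulAut (Cfsg.POmega F ⇑(oddQF m F)))) (hinn : ∀ k, MulAut.conj k ∈ A)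
    (p : ℕ) [hp : Fact p.Prime] (x : MulAut (Cfsg.POmega F ⇑(oddQF m F))) (hord : orderOf x = p)
    (hnot : ¬ Cfsg.IsSimilarityInducedAutPOmega ⇑(oddQF m F) x) :
    Cfsg.pPrimeCore p ↥(A ⊓ Subgroup.centralizer {x}) ≠ ⊥ ↔
      (Cfsg.IsFieldAutClassPOmega ⇑(oddQF m F) x ∧
        Nat.Coprime p (Nat.card ↥(MonoidHom.eqLocus x.toMonoidHom
          (MonoidHom.id (Cfsg.POmega F ⇑(oddQF m F)))))) := by
  have i1 := std_odd m h2
  have i2 := rig_odd m hm h2
  obtain ⟨b, σ, hσ, rfl⟩ := exists_std_form (oddQF m F) hAut p x hord hnot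
  let F₀ : Subfield F := RingHom.eqLocusField (σ : F →+* F) (RingHom.id F)
  have h2₀ : (2 : F₀) ≠ 0 := by
    intro h
    apply h2
    have h3 := congrArg (F₀.subtype) h
    rw [map_ofNat, map_zero] at h3
    exact h3
  let _ : Fintype F₀ := Fintype.ofFinite _
  have i3 := std_odd (F := F₀) m h2₀
  have i4 := rig_odd (F := F₀) m hm h2₀
  refine main_conj (oddQF m F) (oddQF m F₀) F₀.subtype (Bm_odd_map m _) ?_ hAut σ ?_ p hσ A hinn
    (cG _ b)
  · rw [card_odd_index]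
    omega
  · intro x
    constructor
    · intro hx
      exact ⟨⟨x, hx⟩, rfl⟩
    · rintro ⟨y, rfl⟩
      exact y.2

end Cfsg.Agent.Lib.Helper74.LBal
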